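import Cfsg.Agent.H758.ProdSys
import Cfsg.Agent.H757.GrpLemmas

/-!
# The key lemma on the product system `E S` (helper758)

`DD` saturated over `S`, `E` has `p`-power index in `DD`. If `Q` is fully `F`-normalized with `C_T(Q ∩ T) ≤ Q`, every
`p'`-automorphism of `Q` in `F`, trivial modulo `T`, whose restriction to `Q ∩ T` lies in `E`, lies in `DD`.
-/

set_option autoImplicit false

namespace Cfsg.Agent.H758

open Cfsg Cfsg.FusionSystem Cfsg.Agent.H752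

variable {Ω : Type*} [Group Ω] {S T : Subgroup Ω} {p : ℕ}

theorem isConj_of_image {F : FusionSystem S} {P Q W : Subgroup Ω} {f : Ω → Ω} (hf : Mp F W f)
    (hP : P ≤ W) (hQ : ∀ y, y ∈ Q ↔ ∃ x ∈ P, f x = y) : F.IsConj P Q := by
  obtain ⟨φ, hφ, hφf⟩ := hf.res hP
  refine ⟨φ, hφ, ?_⟩
  ext y
  rw [hQ]
  constructor
  · rintro ⟨x, rfl⟩
    exact ⟨x, x.2, (hφf x x.2).symm⟩
  · rintro ⟨x, hx, rfl⟩
    exact ⟨⟨x, hx⟩, hφf x hx⟩

/-- A map defined on the normalizer of a fully normalized subgroup carries it onto the normalizer of the image. -/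
theorem normalizer_image [Finite S] {F : FusionSystem S} {Q Q' W : Subgroup Ω} {f : Ω → Ω}
    (hQ : F.IsFullyNormalized Q) (hf : Mp F W f) (hNW : normalizerIn S Q ≤ W)
    (hQ' : ∀ y, y ∈ Q' ↔ ∃ x ∈ Q, f x = y) :
    F.IsFullyNormalized Q' ∧ (∀ x ∈ normalizerIn S Q, f x ∈ normalizerIn S Q') ∧
      ∀ y ∈ normalizerIn S Q', ∃ x ∈ normalizerIn S Q, f x = y := by
  have hQN : Q ≤ normalizerIn S Q := le_inf hQ.1 Subgroup.le_normalizer
  have hQW : Q ≤ W := hQN.trans hNW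
  have hc := isConj_of_image hf hQW hQ'
  obtain ⟨V, hV, hVS, hVc⟩ := hf.exists_image hNW
  have h1 : ∀ x ∈ normalizerIn S Q, f x ∈ normalizerIn S Q' := by
    intro x hx
    refine ⟨hf.mem (hNW hx), ?_⟩
    have hfQ' : Finite Q' := H802.finite_of_le (fun y hy => by
      obtain ⟨x, hx, rfl⟩ := (hQ' y).1 hy
      exact hf.mem (hQW hx) : Q' ≤ S)
    refine H757.mem_normalizer_of_conj_mem fun y hy => ?_
    obtain ⟨u, hu, rfl⟩ := (hQ' y).1 hy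
    refine (hQ' _).2 ⟨x * u * x⁻¹, (Subgroup.mem_normalizer_iff.1 hx.2 u).1 hu, ?_⟩
    exact mp_conj_eq hf (hNW hx) (hQW hu)
  have hVle : V ≤ normalizerIn S Q' := by
    intro y hy
    obtain ⟨x, hx, rfl⟩ := (hV y).1 hy
    exact h1 x hx
  have hfin : Finite (normalizerIn S Q') := H802.finite_of_le inf_le_left
  have hVe : V = normalizerIn S Q' :=
    Subgroup.eq_of_le_of_card_ge hVle (hVc ▸ hQ.2 Q' hc)
  refine ⟨⟨fun y hy => ?_, fun R hR => ?_⟩, h1, fun y hy => ?_⟩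
  · obtain ⟨x, hx, rfl⟩ := (hQ' y).1 hy
    exact hf.mem (hQW hx)
  · rw [← hVe, hVc]
    exact hQ.2 R (H802.isConj_trans hc hR)
  · rw [← hVe] at hy
    exact (hV y).1 hy

theorem bc [Fact p.Prime] [Finite S] (hS : IsPGroup p S) {F : FusionSystem S}
    {E : FusionSystem T} (hF : F.IsSaturated p) (hT : F.StronglyClosed T) (hI : StrongInvC E F) {DD : FusionSystem S}
    (hDs : DD.IsSaturated p) (hDF : DD.IsSubsystemOf F) (hED : E.IsSubsystemOf DD)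
    (hD2 : ∀ (P : Subgroup Ω) (f : Ω → Ω), Mp DD P f → PP p P f → ∀ x ∈ P, x⁻¹ * f x ∈ T)
    {Q : Subgroup Ω} (hQ : F.IsFullyNormalized Q) (hC : centralizerIn T (Q ⊓ T) ≤ Q) {κ : Ω → Ω}
    (hκ : Mp F Q κ) (hpp : PP p Q κ) (hTr : ∀ x ∈ Q, x⁻¹ * κ x ∈ T) (hE : Mp E (Q ⊓ T) κ) :
    Mp DD Q κ := by
  have hQS := hQ.1
  have hTS := hT.1
  have hfQ : Finite Q := H802.finite_of_le hQS
  have hSn : S ≤ Subgroup.normalizer (T : Set Ω) := H759.StronglyClosed.le_normalizer hT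
  obtain ⟨Q₁, hc₁, hQ₁n⟩ := H802.exists_isFullyNormalized hS hDs (P := Q ⊓ T) (inf_le_left.trans hQS)
  obtain ⟨χ, hχ, hχQ, hχN⟩ := exists_mp_normalizer hS hDs hc₁ hQ₁n
  have hχF : Mp F _ χ := mp_mono hDF hχ
  have hQ₀N : Q ⊓ T ≤ normalizerIn S (Q ⊓ T) := le_inf (inf_le_left.trans hQS) Subgroup.le_normalizer
  have hNN : normalizerIn S Q ≤ normalizerIn S (Q ⊓ T) := by
    intro g hg
    have hfQ₀ : Finite ↥(Q ⊓ T) := H802.finite_of_le (inf_le_left.trans hQS)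
    refine ⟨hg.1, H757.mem_normalizer_of_conj_mem fun x hx => ⟨?_, ?_⟩⟩
    · exact (Subgroup.mem_normalizer_iff.1 hg.2 x).1 hx.1
    · exact H759.StronglyClosed.conj_mem hT hg.1 hx.2
  have hQN : Q ≤ normalizerIn S (Q ⊓ T) := (le_inf hQS Subgroup.le_normalizer).trans hNN
  obtain ⟨Q', hQ', hQ'S, -⟩ := hχ.exists_image hQN
  obtain ⟨hQ'n, hN1, hN2⟩ := normalizer_image hQ hχF hNN hQ'
  have hfQ' : Finite Q' := H802.finite_of_le hQ'S
  have hfQ₁ : Finite Q₁ := H802.finite_of_le hQ₁n.1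
  have hχT : ∀ x ∈ normalizerIn S (Q ⊓ T), (χ x ∈ T ↔ x ∈ T) := fun x hx =>
    ⟨mp_mem_of_stronglyClosed' hT hχF hx, mp_mem_of_stronglyClosed hT hχF hx⟩
  have hQ₁Q' : Q₁ ≤ Q' := by
    intro y hy
    obtain ⟨x, hx, rfl⟩ := (hχQ y).1 hy
    exact (hQ' _).2 ⟨x, hx.1, rfl⟩
  have hQ₁T : Q₁ ≤ T := by
    intro y hy
    obtain ⟨x, hx, rfl⟩ := (hχQ y).1 hy
    exact (hχT x (hQ₀N hx)).2 hx.2
  have hQ'T : ∀ y ∈ Q', y ∈ T → y ∈ Q₁ := by
    intro y hy hyT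
    obtain ⟨x, hx, rfl⟩ := (hQ' y).1 hy
    exact (hχQ _).2 ⟨x, ⟨hx, (hχT x (hQN hx)).1 hyT⟩, rfl⟩
  obtain ⟨d, hd, hdpp, hdχ⟩ := pp_transport hχF hQN hQ' hκ hpp
  -- `d` is trivial modulo `T`
  have hdT : ∀ y ∈ Q', y⁻¹ * d y ∈ T := by
    intro y hy
    obtain ⟨x, hx, rfl⟩ := (hQ' y).1 hy
    rw [hdχ x hx, ← hχF.inv (hQN hx), ← hχF.mul (Subgroup.inv_mem _ (hQN hx)) (hQN (hpp.1 x hx))]
    exact (hχT _ (mul_mem (Subgroup.inv_mem _ (hQN hx)) (hQN (hpp.1 x hx)))).2 (hTr x hx)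
  have hκT : ∀ x ∈ Q ⊓ T, κ x ∈ Q ⊓ T := fun x hx =>
    ⟨hpp.1 x hx.1, mp_mem_of_stronglyClosed hT hκ hx.1 hx.2⟩
  have hdE : Mp E Q₁ d := by
    refine hI (Q ⊓ T) (Q ⊓ T) Q₁ κ χ d le_rfl inf_le_right hE hκT (hχF.res hQ₀N) fun y hy => ?_
    obtain ⟨x, hx, rfl⟩ := (hχQ y).1 hy
    exact ⟨x, hx, rfl, hdχ x hx.1⟩
  have hdQ₁ : ∀ y ∈ Q₁, d y ∈ Q₁ := fun y hy =>
    hQ'T _ (hdpp.1 y (hQ₁Q' hy)) (mp_mem_of_stronglyClosed hT hd (hQ₁Q' hy) (hQ₁T hy))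
  have hdDD : Mp DD Q₁ d := mp_mono hED hdE
  have hrec := H802.isReceptive_of_isFullyNormalized hS hDs hQ₁n
  obtain ⟨N, ψ, hψ, hQ₁N, hψe, hN⟩ := H753.mp_extend hrec hdDD (fun y =>
    ⟨fun hy => hdDD.surj hdQ₁ hy, fun ⟨x, hx, h⟩ => h ▸ hdQ₁ x hx⟩)
  have hQ'nor : ∀ y ∈ Q', y ∈ Subgroup.normalizer (Q₁ : Set Ω) := by
    intro y hy
    obtain ⟨x, hx, rfl⟩ := (hQ' y).1 hy
    exact (hχN x (hQN hx)).2
  have hQ'N : Q' ≤ N := by
    intro g hg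
    refine hN g (hQ'S hg) (hQ'nor g hg) ⟨d g, hQ'S (hdpp.1 g hg), fun x hx => ?_⟩
    exact mp_conj_eq hd hg (hQ₁Q' hx)
  have hCN : centralizerIn S Q₁ ≤ N := by
    intro g hg
    refine hN g hg.1 (Subgroup.centralizer_le_normalizer _ hg.2) ⟨1, one_mem _, fun x hx => ?_⟩
    have h1 : g * x * g⁻¹ = x := by
      rw [← Subgroup.mem_centralizer_iff.1 hg.2 x hx]
      group
    rw [h1]
    simp
  have hWN : Q' ⊔ centralizerIn S Q₁ ≤ N := sup_le hQ'N hCN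
  have hψW : Mp DD (Q' ⊔ centralizerIn S Q₁) ψ := hψ.res hWN
  have hWS : Q' ⊔ centralizerIn S Q₁ ≤ S := hψW.le
  have hfW : Finite ↥(Q' ⊔ centralizerIn S Q₁) := H802.finite_of_le hWS
  -- a map agreeing with `d` on `Q₁` agrees with `d` on `Q'` modulo `C_S(Q₁)`
  have hmod : ∀ g : Ω → Ω, Mp DD (Q' ⊔ centralizerIn S Q₁) g → (∀ x ∈ Q₁, g x = d x) →
      ∀ x ∈ Q', (d x)⁻¹ * g x ∈ centralizerIn S Q₁ := by
    intro g hg hge x hx
    have hxW : x ∈ Q' ⊔ centralizerIn S Q₁ := (le_sup_left : Q' ≤ _) hx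
    refine ⟨mul_mem (Subgroup.inv_mem _ (hQ'S (hdpp.1 x hx))) (hg.mem hxW),
      Subgroup.mem_centralizer_iff.2 fun z hz => ?_⟩
    obtain ⟨y, hy, rfl⟩ := hdDD.surj hdQ₁ hz
    have hyW : y ∈ Q' ⊔ centralizerIn S Q₁ := (le_sup_left : Q' ≤ _) (hQ₁Q' hy)
    have hcy : x * y * x⁻¹ ∈ Q₁ := (Subgroup.mem_normalizer_iff.1 (hQ'nor x hx) y).1 hy
    have e1 : g (x * y * x⁻¹) = g x * d y * (g x)⁻¹ := by
      rw [mp_conj_eq hg hxW hyW, hge y hy]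
    have e2 : d (x * y * x⁻¹) = d x * d y * (d x)⁻¹ := mp_conj_eq hd hx (hQ₁Q' hy)
    rw [hge _ hcy, e2] at e1
    -- `d x * z * (d x)⁻¹ = g x * z * (g x)⁻¹`
    calc d y * ((d x)⁻¹ * g x) = (d x)⁻¹ * (d x * d y * (d x)⁻¹) * g x := by group
      _ = (d x)⁻¹ * (g x * d y * (g x)⁻¹) * g x := by rw [e1]
      _ = (d x)⁻¹ * g x * d y := by group
  have hψmem : ∀ x ∈ Q' ⊔ centralizerIn S Q₁, ψ x ∈ Q' ⊔ centralizerIn S Q₁ := by
    refine mp_sup_mem hψW (fun x hx => ?_) (fun x hx => ?_)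
    · have h1 := hmod ψ hψW hψe x hx
      have h2 : ψ x = d x * ((d x)⁻¹ * ψ x) := by group
      rw [h2]
      exact mul_mem ((le_sup_left : Q' ≤ _) (hdpp.1 x hx)) ((le_sup_right : centralizerIn S Q₁ ≤ _) h1)
    · refine (le_sup_right : centralizerIn S Q₁ ≤ Q' ⊔ centralizerIn S Q₁)
        ⟨hψ.mem (hCN hx), Subgroup.mem_centralizer_iff.2 fun z hz => ?_⟩
      obtain ⟨y, hy, rfl⟩ := hdDD.surj hdQ₁ hz
      rw [← hψe y hy, ← hψ.mul (hQ₁N hy) (hCN hx), ← hψ.mul (hCN hx) (hQ₁N hy),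
        Subgroup.mem_centralizer_iff.1 hx.2 y hy]
  obtain ⟨m, hgpp, hg, hge⟩ := exists_iter_pp (p := p) hψW hψmem
  set g := ψ^[m] with hgdef
  have hgQ₁ : ∀ x ∈ Q₁, g x = d x :=
    hge Q₁ d (hQ₁Q'.trans le_sup_left) (hdpp.res hQ₁Q' hdQ₁) hψe
  -- `C_T(Q₁) ≤ Q'`
  have hC1 : centralizerIn T Q₁ ≤ Q' := by
    by_contra hcon
    have hR : IsPGroup p ↥(Q' ⊔ centralizerIn T Q₁) :=
      isPGroup_mono hS (sup_le hQ'S (inf_le_left.trans hTS))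
    have hfR : Finite ↥(Q' ⊔ centralizerIn T Q₁) :=
      H802.finite_of_le (sup_le hQ'S (inf_le_left.trans hTS))
    obtain ⟨u, hu, huQ, hun⟩ := H757.exists_normalizes_of_not_le hR
      (U := centralizerIn T Q₁) (V := Q') le_sup_right le_sup_left (by
        have h1 : Q' ⊔ centralizerIn T Q₁ ≤ Subgroup.normalizer (centralizerIn T Q₁ : Set Ω) := by
          have hfC : Finite ↥(centralizerIn T Q₁) := H802.finite_of_le (inf_le_left.trans hTS)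
          refine sup_le (fun x hx => H757.mem_normalizer_of_conj_mem fun v hv => ⟨?_, ?_⟩)
            Subgroup.le_normalizer
          · exact H759.StronglyClosed.conj_mem hT (hQ'S hx) hv.1
          · refine Subgroup.mem_centralizer_iff.2 fun z hz => ?_
            have hz' : x⁻¹ * z * x ∈ Q₁ := by
              have h2 := (Subgroup.mem_normalizer_iff.1
                (Subgroup.inv_mem _ (hQ'nor x hx)) z).1 hz
              simpa using h2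
            have h3 := Subgroup.mem_centralizer_iff.1 hv.2 _ hz'
            calc z * (x * v * x⁻¹) = x * ((x⁻¹ * z * x) * v) * x⁻¹ := by group
              _ = x * (v * (x⁻¹ * z * x)) * x⁻¹ := by rw [h3]
              _ = x * v * x⁻¹ * z := by group
        intro r hr u hu
        exact (Subgroup.mem_normalizer_iff.1 (h1 hr) u).1 hu) hcon
    obtain ⟨v, hv, rfl⟩ := hN2 u ⟨hTS hu.1, hun⟩
    refine huQ ((hQ' _).2 ⟨v, hC ⟨(hχT v (hNN hv)).1 hu.1, ?_⟩, rfl⟩)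
    refine Subgroup.mem_centralizer_iff.2 fun z hz => ?_
    refine hχ.inj (mul_mem (hQ₀N hz) (hNN hv)) (mul_mem (hNN hv) (hQ₀N hz)) ?_
    rw [hχ.mul (hQ₀N hz) (hNN hv), hχ.mul (hNN hv) (hQ₀N hz)]
    exact Subgroup.mem_centralizer_iff.1 hu.2 _ ((hχQ _).2 ⟨z, hz, rfl⟩)
  -- `g` and `d` on `Q'`
  have hgd : ∀ x ∈ Q', (d x)⁻¹ * g x ∈ Q₁ := by
    intro x hx
    have h1 := hmod g hg hgQ₁ x hx
    have h2 : (d x)⁻¹ * g x ∈ T := by
      have h3 := mul_mem (Subgroup.inv_mem _ (hdT x hx)) (hD2 _ g hg hgpp x ((le_sup_left : Q' ≤ _) hx))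
      have h4 : (x⁻¹ * d x)⁻¹ * (x⁻¹ * g x) = (d x)⁻¹ * g x := by group
      rwa [h4] at h3
    exact hQ'T _ (hC1 ⟨h2, h1.2⟩) h2
  have hgQ' : ∀ x ∈ Q', g x ∈ Q' := fun x hx => by
    have h2 : g x = d x * ((d x)⁻¹ * g x) := by group
    rw [h2]
    exact mul_mem (hdpp.1 x hx) (hQ₁Q' (hgd x hx))
  have hgDD : Mp DD Q' g := hg.res le_sup_left
  have hgppQ : PP p Q' g := hgpp.res le_sup_left hgQ'
  obtain ⟨γ, hγ, hγg⟩ := hgDD.exists_aut hgQ'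
  obtain ⟨δ, hδ, hδd⟩ := hd.exists_aut hdpp.1
  have hγF : γ ∈ F.autGroup Q' := (mp_mono hDF hgDD).mem_autGroup hγg
  have hfM := finite_mulAut Q'
  have hV : IsPGroup p (trG F T Q') := trG_isPGroup hS hQ'S
  have hdiff : γ * δ⁻¹ ∈ trG F T Q' := by
    refine ⟨mul_mem hγF (Subgroup.inv_mem _ hδ), fun x hx => ?_, fun x => ?_⟩
    · have hx1 : (x : Ω) ∈ Q₁ := hQ'T x x.2 hx
      obtain ⟨y, hy, hyx⟩ := hdDD.surj hdQ₁ hx1
      have h1 : δ ⟨y, hQ₁Q' hy⟩ = x := Subtype.ext (by rw [← hδd y (hQ₁Q' hy), hyx])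
      have h2 : δ⁻¹ x = ⟨y, hQ₁Q' hy⟩ := H757.inv_apply_eq h1
      rw [MulAut.mul_apply, h2]
      apply Subtype.ext
      rw [← hγg y (hQ₁Q' hy), hgQ₁ y hy, hyx]
    · set y := δ⁻¹ x with hy
      have hxy : δ y = x := by rw [hy, MulAut.apply_inv_self]
      have e1 : ((γ * δ⁻¹) x : Q') = γ y := by rw [MulAut.mul_apply, ← hy]
      have e2 : (x : Ω) = d y := by rw [← hxy, hδd y y.2]
      rw [e1, e2, ← hγg y y.2]
      exact hQ₁T (hgd y y.2)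
  obtain ⟨v, hv, hve⟩ := H757.exists_conj_of_coset hV (κ := γ) (κ₁ := δ)
    (fun v hv => trG_normal hT hQ'S hγF hv) (hgppQ.orderOf_coprime hγg) (hdpp.orderOf_coprime hδd)
    (by
      have h1 := Subgroup.inv_mem _ hdiff
      simpa using h1)
  have hvS : v ∈ DD.autGroup Q' := by
    have h1 := trG_le hS hT (H802.isFullyAutomized_of_isFullyNormalized hS hF hQ'n) hv
    exact H802.autInducedBy_le_autGroup DD hQ'S h1
  have hδDD : δ ∈ DD.autGroup Q' := by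
    rw [hve]
    exact mul_mem (mul_mem hvS hγ) (Subgroup.inv_mem _ hvS)
  have hdfin : Mp DD Q' d := mp_of_autGroup hQ'S hδDD hδd
  -- pull back
  obtain ⟨χ', hχ', hl, hr⟩ := hχ.exists_symm hQN hQ'
  have h1 : Mp DD Q (fun x => χ' (d (χ x))) :=
    ((hχ.res hQN).comp hdfin fun x hx => (hQ' _).2 ⟨x, hx, rfl⟩).comp hχ'
      fun x hx => hdpp.1 _ ((hQ' _).2 ⟨x, hx, rfl⟩)
  refine h1.congr fun x hx => ?_
  show κ x = χ' (d (χ x))
  rw [hdχ x hx, hl _ (hpp.1 x hx)]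

end Cfsg.Agent.H758
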