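import Cfsg.Agent.H758.PSat

/-!
# The product system is saturated: conjugacy classes (helper758)
-/

set_option autoImplicit false

namespace Cfsg.Agent.H758

open Cfsg Cfsg.FusionSystem Cfsg.Agent.H752 Cfsg.Agent.H750

variable {Ω : Type*} [Group Ω] {S T : Subgroup Ω} {p : ℕ} {F : FusionSystem S}
  {E : FusionSystem T} {D : FusionSystem S}

theorem tc_of_iso [Finite S] (hT : F.StronglyClosed T) (hDF : D.IsSubsystemOf F) {P Q : Subgroup Ω}
    {f : Ω → Ω} (hf : Iso D P Q f) (h : H756.TC F T (P ⊓ T)) : H756.TC F T (Q ⊓ T) :=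
  cen_image hT (mp_mono hDF (mp_of_iso hf)) le_rfl (fun _ => hf.mem_iff) h

theorem tc_of_isConj [Finite S] (hT : F.StronglyClosed T) (hDF : D.IsSubsystemOf F)
    {P Q : Subgroup Ω} (hc : D.IsConj P Q) (h : H756.TC F T (P ⊓ T)) : H756.TC F T (Q ⊓ T) := by
  obtain ⟨f, hf⟩ := exists_iso_of_isConj hc
  exact tc_of_iso hT hDF hf h

theorem isSubsystemOf_self (F : FusionSystem S) : F.IsSubsystemOf F := fun _ _ h => h

variable [Finite S] [Fact p.Prime]

/-- **A conjugacy class of `D` of subgroups `P` with `P ∩ T` centric.** -/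
theorem class_sat (hD : ∀ P f, Mp D P f ↔ DP p F E P f) (hS : IsPGroup p S)
    (hE : E.IsNormalIn F p) (hDF : D.IsSubsystemOf F) {P : Subgroup Ω} (hPS : P ≤ S)
    (hcen : H756.TC F T (P ⊓ T)) (hbig : Big p D (Nat.card P)) :
    ∃ Q, D.IsConj P Q ∧ D.IsFullyAutomized p Q ∧ D.IsReceptive Q := by
  have hF := hE.1.2.1
  have hT : F.StronglyClosed T := hE.1.2.2.2.1
  have hTS := hT.1
  have hfP : Finite P := H802.finite_of_le hPS
  have hfM := finite_mulAut P
  rcases eq_or_lt_of_le (card_le_of_le (le_refl S) hPS) with he | hlt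
  · have h1 : P = S := eq_of_le_of_card le_rfl hPS he.ge
    subst h1
    refine ⟨P, H802.isConj_refl D le_rfl, isFullyAutomized_of_sylIn le_rfl ?_, ?_⟩
    · obtain ⟨Q, hc, ha, -⟩ := hF P le_rfl
      have h2 : Q = P := eq_of_le_of_card le_rfl ha.1 (H802.isConj_card_eq hc).le
      rw [h2] at ha
      exact (sylIn_of_isFullyAutomized ha).mono (H802.autInducedBy_le_autGroup D le_rfl)
        (H757.autGroup_le_of_isSubsystemOf hDF le_rfl le_rfl)
    · refine isReceptive_of_iso le_rfl fun Q' φ hφ N hQN hN => ?_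
      have h2 : Q' = P := eq_of_le_of_card le_rfl hφ.le_left hφ.card_eq.ge
      have h3 : N = Q' := le_antisymm (fun g hg => by rw [h2]; exact (hN g hg).1) hQN
      rw [h3]
      exact ⟨P, φ, hφ, fun _ _ => rfl⟩
  -- the top of the class
  obtain ⟨P₀, hP₀, htop⟩ := exists_top' hD hS hPS hlt hbig
  have hP₀S := H802.isConj_le_right hP₀
  obtain ⟨Q, hPQ, hQn, hQnT⟩ := exists_nice hS hF hT hP₀S
  obtain ⟨χ, hχ, hχQ, hχN⟩ := exists_mp_normalizer hS hF hPQ hQn
  obtain ⟨ν, hν, ψ, hψ, hχe⟩ := fact hS hF hE.1.2.2 (normalizerIn S P₀) χ hχ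
  have hνD : Mp D (normalizerIn S P₀) ν := (hD _ _).2 hν.dp
  have hPN := H802.le_normalizerIn hP₀S
  obtain ⟨P₁, hP₁, hP₁S, -⟩ := hνD.exists_image hPN
  obtain ⟨N₁, hN₁, hN₁S, -⟩ := hνD.exists_image (le_refl (normalizerIn S P₀))
  have hi : Iso D P₀ P₁ ν := iso_of_mp hνD hPN hP₁
  have hiN : Iso D (normalizerIn S P₀) N₁ ν := iso_of_mp hνD le_rfl hN₁
  have hN₁n : N₁ ≤ normalizerIn S P₁ := hiN.le_normalizerIn hi hPN inf_le_right
  have harr : Arr D P₀ P₁ := ⟨ν, N₁, hiN, hi⟩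
  have harr' : Arr D P₁ P₀ := htop P₁ (H802.isConj_trans hP₀ hi.isConj)
  have hNe : normalizerIn S P₁ = N₁ := by
    refine (eq_of_le_of_card inf_le_left hN₁n ?_).symm
    rw [← hiN.card_eq]
    exact harr'.card_le
  have hle : normalizerIn S P₁ ≤ normalizerIn S P₀ ⊔ T := fun y hy => by
    rw [hNe] at hy
    obtain ⟨x, hx, rfl⟩ := (hN₁ y).1 hy
    exact hν.mem_sup hx
  have hL : Lk F T P₁ Q ψ :=
    { mp := hψ.res (sup_le hle le_sup_right)
      le := hP₁S
      im := fun y => by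
        rw [hχQ]
        constructor
        · rintro ⟨x, hx, rfl⟩
          exact ⟨ν x, hi.mem hx, (hχe x (hPN hx)).symm⟩
        · rintro ⟨z, hz, rfl⟩
          obtain ⟨x, hx, rfl⟩ := hi.surj hz
          exact ⟨x, hx, hχe x (hPN hx)⟩
      fn := hQn
      fnT := hQnT }
  have hPP : D.IsConj P P₁ := H802.isConj_trans hP₀ hi.isConj
  have hc := H802.isConj_card_eq hPP
  have hcen₁ : H756.TC F T (P₁ ⊓ T) := tc_of_isConj hT hDF hPP hcen
  rw [hc] at hbig hlt
  have htop₁ : ∀ Q, D.IsConj P₁ Q → Arr D Q P₁ := fun Q hQ =>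
    (htop Q (H802.isConj_trans hPP hQ)).trans harr
  have hsyl := sylIn_top hD hS hE hDF hL hcen₁ hbig hlt htop₁
  exact ⟨P₁, hPP, isFullyAutomized_of_sylIn hP₁S hsyl,
    receptive_top hD hS hE hL hcen₁ hsyl htop₁⟩

/-- An element outside `Q` inducing an element of `O_p(Aut_D(Q))`. -/
theorem exists_core_elt (hD : ∀ P f, Mp D P f ↔ DP p F E P f) (hS : IsPGroup p S)
    (hE : E.IsInvariantIn F) (hF : F.IsSaturated p) (hDF : D.IsSubsystemOf F)
    {P : Subgroup Ω} (hPS : P ≤ S) (hcen : ¬ H756.TC F T (P ⊓ T)) :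
    ∃ Q, D.IsConj P Q ∧ ∃ g ∈ XL S (coreFam p D) Q, g ∉ Q := by
  have hT : F.StronglyClosed T := hE.2.1
  have hTS := hT.1
  obtain ⟨Q₀, hPQ, hQn, hQnT⟩ := exists_nice hS hF hT hPS
  obtain ⟨f, hf⟩ := exists_iso_of_isConj hPQ
  obtain ⟨ν, hν, ψ, hψ, hfe⟩ := fact hS hF hE P f (mp_of_iso hf)
  have hνD : Mp D P ν := (hD _ _).2 hν.dp
  obtain ⟨Q, hQ, hQS, -⟩ := hνD.exists_image le_rfl
  have hi : Iso D P Q ν := iso_of_mp hνD le_rfl hQ
  have hQPT : Q ≤ P ⊔ T := fun y hy => by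
    obtain ⟨x, hx, rfl⟩ := hi.surj hy
    exact hν.mem_sup hx
  have hψQ : ∀ y, y ∈ Q₀ ↔ ∃ x ∈ Q, ψ x = y := by
    intro y
    rw [hf.mem_iff]
    constructor
    · rintro ⟨x, hx, rfl⟩
      exact ⟨ν x, hi.mem hx, (hfe x hx).symm⟩
    · rintro ⟨z, hz, rfl⟩
      obtain ⟨x, hx, rfl⟩ := hi.surj hz
      exact ⟨x, hx, hfe x hx⟩
  have hTd : T ≤ P ⊔ T := le_sup_right
  -- `C_T(Q₀ ∩ T)` is not contained in `Q₀`
  have h1 : ¬ centralizerIn T (Q₀ ⊓ T) ≤ Q₀ ⊓ T := by
    intro hC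
    have h2 := tc_of_fn hS hF hT inf_le_right hQnT hC
    exact hcen (tc_of_isConj hT (isSubsystemOf_self F) (H802.isConj_symm hPQ) h2)
  have h2 : ¬ centralizerIn T (Q ⊓ T) ≤ Q := by
    intro hC
    refine h1 fun y hy => ⟨?_, hy.1⟩
    have hfT : Finite T := H802.finite_of_le hTS
    obtain ⟨t, ht, rfl⟩ := (hψ.res hTd).surj (fun x hx =>
      mp_mem_of_stronglyClosed hT hψ (hTd hx) hx) hy.1
    refine (hψQ _).2 ⟨t, hC ⟨ht, Subgroup.mem_centralizer_iff.2 fun x hx => ?_⟩, rfl⟩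
    have hxd := hQPT hx.1
    refine hψ.inj (mul_mem hxd (hTd ht)) (mul_mem (hTd ht) hxd) ?_
    rw [hψ.mul hxd (hTd ht), hψ.mul (hTd ht) hxd]
    exact Subgroup.mem_centralizer_iff.1 hy.2 _ ⟨(hψQ _).2 ⟨x, hx.1, rfl⟩,
      mp_mem_of_stronglyClosed hT hψ hxd hx.2⟩
  -- an element normalizing `Q`
  have hTD : D.StronglyClosed T := ⟨hTS, fun P hP φ hφ x => hT.2 P hP φ (hDF P hφ) x⟩
  have hfR : Finite ↥(Q ⊔ centralizerIn T (Q ⊓ T)) :=
    H802.finite_of_le (sup_le hQS (inf_le_left.trans hTS))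
  obtain ⟨u, hu, huQ, hun⟩ := H757.exists_normalizes_of_not_le (R := Q ⊔ centralizerIn T (Q ⊓ T))
    (U := centralizerIn T (Q ⊓ T)) (V := Q)
    (isPGroup_mono hS (sup_le hQS (inf_le_left.trans hTS))) le_sup_right le_sup_left (by
      have h1 : Q ⊔ centralizerIn T (Q ⊓ T) ≤
          Subgroup.normalizer (centralizerIn T (Q ⊓ T) : Set Ω) := by
        have hfC : Finite ↥(centralizerIn T (Q ⊓ T)) :=
          H802.finite_of_le (inf_le_left.trans hTS)
        refine sup_le (fun x hx => H757.mem_normalizer_of_conj_mem fun v hv => ⟨?_, ?_⟩)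
          Subgroup.le_normalizer
        · exact H759.StronglyClosed.conj_mem hT (hQS hx) hv.1
        · refine Subgroup.mem_centralizer_iff.2 fun z hz => ?_
          have hz' : x⁻¹ * z * x ∈ Q ⊓ T := by
            refine ⟨mul_mem (mul_mem (Subgroup.inv_mem _ hx) hz.1) hx, ?_⟩
            have h2 := H759.StronglyClosed.conj_mem hT (Subgroup.inv_mem _ (hQS hx)) hz.2
            simpa using h2
          have h3 := Subgroup.mem_centralizer_iff.1 hv.2 _ hz'
          calc z * (x * v * x⁻¹) = x * ((x⁻¹ * z * x) * v) * x⁻¹ := by group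
            _ = x * (v * (x⁻¹ * z * x)) * x⁻¹ := by rw [h3]
            _ = x * v * x⁻¹ * z := by group
      intro r hr u hu
      exact (Subgroup.mem_normalizer_iff.1 (h1 hr) u).1 hu) h2
  obtain ⟨c, hc⟩ := H757.exists_cj hun
  have hcD : c ∈ D.autGroup Q := hc.mem_autGroup hQS (hTS hu.1)
  have hcT : c ∈ trG D T Q := by
    refine ⟨hcD, fun x hx => Subtype.ext ?_, fun x => ?_⟩
    · rw [hc x]
      have h3 := Subgroup.mem_centralizer_iff.1 hu.2 _ (⟨x.2, hx⟩ : (x : Ω) ∈ Q ⊓ T)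
      rw [← h3]
      group
    · rw [hc x]
      have h5 : (x : Ω)⁻¹ * (u * x * u⁻¹) = ((x : Ω)⁻¹ * u * (x : Ω)⁻¹⁻¹) * u⁻¹ := by group
      rw [h5]
      exact mul_mem (H759.StronglyClosed.conj_mem hT (Subgroup.inv_mem _ (hQS x.2)) hu.1)
        (Subgroup.inv_mem _ hu.1)
  have hle : trG D T Q ≤ D.autGroup Q := fun γ hγ => hγ.1
  have hnorm : ((trG D T Q).subgroupOf (D.autGroup Q)).Normal := by
    refine ⟨fun n hn g => ?_⟩
    rw [Subgroup.mem_subgroupOf] at hn ⊢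
    exact trG_normal hTD hQS g.2 hn
  have hpg : IsPGroup p ((trG D T Q).subgroupOf (D.autGroup Q)) :=
    (trG_isPGroup hS hQS).comap_of_injective _ (Subgroup.subtype_injective _)
  have hcore : c ∈ coreFam p D Q := by
    have h3 := Lib.Cores.le_pCore hnorm hpg (x := ⟨c, hcD⟩) (by
      rw [Subgroup.mem_subgroupOf]
      exact hcT)
    exact ⟨⟨c, hcD⟩, h3, rfl⟩
  exact ⟨Q, hi.isConj, u, ⟨⟨hTS hu.1, hun⟩, c, hcore, fun x => hc x⟩, huQ⟩

/-- **The product system is saturated.** -/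
theorem sat_prod (hD : ∀ P f, Mp D P f ↔ DP p F E P f) (hS : IsPGroup p S)
    (hE : E.IsNormalIn F p) (hDF : D.IsSubsystemOf F) : D.IsSaturated p := by
  have hF := hE.1.2.1
  have hT : F.StronglyClosed T := hE.1.2.2.2.1
  have hTS := hT.1
  let ℋ : Set (Subgroup Ω) := {P | P ≤ S ∧ H756.TC F T (P ⊓ T)}
  have hfT : Finite T := H802.finite_of_le hTS
  have hTT : H756.TC F T T := ⟨le_rfl, fun f hf z hz _ => hf.surj (fun x hx =>
    mp_mem_of_stronglyClosed hT hf hx hx) hz⟩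
  have hgen : ∀ E' : FusionSystem S, (∀ X ∈ ℋ, D.Hom X ⊆ E'.Hom X) → D ≤ E' := by
    intro E' h P φ hφ
    have hnn : ∀ (P : Subgroup Ω) (ν : Ω → Ω), NN p F E P ν → Mp E' P ν := by
      intro P ν hν
      induction hν with
      | id g hP hg => exact (mp_id E' hP).congr hg
      | step Q f κ g _ hκ hm hg ih =>
        have h1 : Mp D Q κ := (hD _ _).2 (NN.of_gd hκ).dp
        obtain ⟨κ', hκ', he⟩ := h1
        have h2 : Mp E' Q κ := ⟨κ', h Q ⟨hκ.mp.le, hκ.cen⟩ hκ', he⟩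
        exact (ih.comp h2 hm).congr hg
    obtain ⟨s, hs, ν, hν, hφe⟩ := (hD _ _).1 (mp_ex hφ)
    have h1 := ((hnn P ν hν).comp (mp_conj E' (le_refl S) hs) fun x hx =>
      (hnn P ν hν).mem hx).congr hφe
    exact h1.mem_hom fun x hx => (ex_apply _ hx).symm
  have key : ∀ (m : ℕ) (P : Subgroup Ω), P ≤ S → Nat.card S - Nat.card P ≤ m →
      ∃ Q, D.IsConj P Q ∧ D.IsFullyAutomized p Q ∧ D.IsReceptive Q := by
    intro m
    induction m with
    | zero =>
      intro P hP hm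
      refine class_sat hD hS hE hDF hP ?_ fun R hR hc => ?_
      · have h1 : P = S := eq_of_le_of_card le_rfl hP (by
          have := card_le_of_le le_rfl hP
          omega)
        rw [h1, inf_eq_right.2 hTS]
        exact hTT
      · exfalso
        have h1 := card_le_of_le (S := S) le_rfl hR
        omega
    | succ m ih =>
      intro P hP hm
      have hbig : Big p D (Nat.card P) := by
        intro R hR hc
        have h1 := card_le_of_le (S := S) le_rfl hR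
        exact ih R hR (by omega)
      by_cases hPH : H756.TC F T (P ⊓ T)
      · exact class_sat hD hS hE hDF hP hPH hbig
      by_cases hPS : Nat.card P = Nat.card S
      · exact ih P hP (by omega)
      have hlt : Nat.card P < Nat.card S := lt_of_le_of_ne (card_le_of_le le_rfl hP) hPS
      have hgen' : ∀ (Q Q' : Subgroup Ω) (f : Ω → Ω), D.IsConj P Q → Iso D Q Q' f →
          Gen D Q Q' f :=
        fun Q Q' f hQ hf => gen_of_generated hlt ℋ
          (fun Q hQ h => hPH (tc_of_isConj hT hDF (H802.isConj_symm hQ) h.2)) hgen hQ hf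
      by_cases hcen : D.IsCentric P
      · obtain ⟨Q, hQ, g, hg, hgQ⟩ := exists_core_elt hD hS hE.1.2.2 hF hDF hP hPH
        exact sat_step hS (natFam_core hS D) hP hbig (good_core hS hcen) hgen' hQ hg hgQ
      · have : ∃ Q, D.IsConj P Q ∧ ¬ (centralizerIn S Q ≤ Q) := by
          by_contra hno
          push Not at hno
          exact hcen ⟨hP, hno⟩
        obtain ⟨Q, hQ, hQn⟩ := this
        obtain ⟨g, hg, hgQ⟩ := SetLike.not_le_iff_exists.1 hQn
        refine sat_step hS (natFam_inn D) hP hbig (good_inn P) hgen' hQ (g := g)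
          ⟨H802.centralizerIn_le_normalizerIn S Q hg, 1, one_mem _, fun x => ?_⟩ hgQ
        have h1 := (Subgroup.mem_centralizer_iff.1 hg.2) x x.2
        rw [MulAut.one_apply, ← h1]
        group
  intro P hP
  exact key _ P hP le_rfl

end Cfsg.Agent.H758
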