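import Cfsg.Agent.H758.PFact

/-!
# Extension of generators at nice subgroups (helper758)

`P` nice: `P` and `P ∩ T` are fully normalized.
-/

set_option autoImplicit false

namespace Cfsg.Agent.H758

open Cfsg Cfsg.FusionSystem Cfsg.Agent.H752

variable {Ω : Type*} [Group Ω] {S T : Subgroup Ω} {p : ℕ} {F : FusionSystem S}
  {E : FusionSystem T}

theorem normalizerIn_le_inf [Finite S] (hT : F.StronglyClosed T) {P : Subgroup Ω} (hPS : P ≤ S) :
    normalizerIn S P ≤ normalizerIn S (P ⊓ T) := by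
  intro g hg
  have hfQ₀ : Finite ↥(P ⊓ T) := H802.finite_of_le (inf_le_left.trans hPS)
  refine ⟨hg.1, H757.mem_normalizer_of_conj_mem fun x hx => ⟨?_, ?_⟩⟩
  · exact (Subgroup.mem_normalizer_iff.1 hg.2 x).1 hx.1
  · exact H759.StronglyClosed.conj_mem hT hg.1 hx.2

/-- Every subgroup is conjugate to a nice one. -/
theorem exists_nice [Finite S] [Fact p.Prime] (hS : IsPGroup p S) (hF : F.IsSaturated p)
    (hT : F.StronglyClosed T) {P : Subgroup Ω} (hPS : P ≤ S) :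
    ∃ Q, F.IsConj P Q ∧ F.IsFullyNormalized Q ∧ F.IsFullyNormalized (Q ⊓ T) := by
  obtain ⟨P₁, hc, hn⟩ := H802.exists_isFullyNormalized hS hF hPS
  have hP₁S := hn.1
  obtain ⟨U, hcU, hUn⟩ := H802.exists_isFullyNormalized hS hF (P := P₁ ⊓ T)
    (inf_le_left.trans hP₁S)
  obtain ⟨χ, hχ, hχU, hχN⟩ := exists_mp_normalizer hS hF hcU hUn
  have hNN := normalizerIn_le_inf hT hP₁S
  have hQN : P₁ ≤ normalizerIn S (P₁ ⊓ T) := (le_inf hP₁S Subgroup.le_normalizer).trans hNN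
  obtain ⟨Q, hQ, hQS, -⟩ := hχ.exists_image hQN
  obtain ⟨hQn, -, -⟩ := normalizer_image hn hχ hNN hQ
  have hU' : Q ⊓ T = U := by
    ext y
    rw [hχU]
    constructor
    · rintro ⟨hy, hyT⟩
      obtain ⟨x, hx, rfl⟩ := (hQ y).1 hy
      exact ⟨x, ⟨hx, mp_mem_of_stronglyClosed' hT hχ (hQN hx) hyT⟩, rfl⟩
    · rintro ⟨x, hx, rfl⟩
      exact ⟨(hQ _).2 ⟨x, hx.1, rfl⟩, mp_mem_of_stronglyClosed hT hχ (hQN hx.1) hx.2⟩
  exact ⟨Q, H802.isConj_trans hc (isConj_of_image hχ hQN hQ), hQn, by rw [hU']; exact hUn⟩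

/-- An element of order prime to `p` of `G` in `Δ B`, `Δ` a `p`-group normalizing... -/
theorem mem_of_coprime_mul {G : Type*} [Group G] [Fact p.Prime] {B : Subgroup G} {γ δ β : G}
    (h : γ = δ * β) (hβ : β ∈ B) (hδ : ∀ b ∈ B, δ⁻¹ * b * δ ∈ B) {k : ℕ} (hk : δ ^ p ^ k = 1)
    (hγ : (orderOf γ).Coprime p) : γ ∈ B := by
  have h1 : ∀ j : ℕ, ∃ b ∈ B, γ ^ j = δ ^ j * b := by
    intro j
    induction j with
    | zero => exact ⟨1, one_mem B, by simp⟩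
    | succ j ih =>
      obtain ⟨b, hb, h2⟩ := ih
      refine ⟨δ⁻¹ * b * δ * β, mul_mem (hδ b hb) hβ, ?_⟩
      rw [pow_succ, h2, pow_succ, h]
      group
  obtain ⟨b, hb, h2⟩ := h1 (p ^ k)
  rw [hk, one_mul] at h2
  obtain ⟨m, hm⟩ := exists_pow_eq_self_of_coprime (n := p ^ k) (x := γ)
    ((Nat.Coprime.pow_right k hγ).symm)
  rw [← hm, h2]
  exact pow_mem hb m

/-- A `p'`-automorphism of `W ≤ T` in `F` whose restriction to the fully normalized `T`-centric `U` lies in `E` lies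
in `E`. -/
theorem mp_of_res [Finite S] [Fact p.Prime] (hS : IsPGroup p S) (hE : E.IsNormalIn F p)
    {U W : Subgroup Ω} {g : Ω → Ω} (hU : F.IsFullyNormalized U) (hUT : H756.TC F T U)
    (hUW : U ≤ W) (hWn : W ≤ normalizerIn T U) (hg : Mp F W g) (hpp : PP p W g)
    (hgU : ∀ x ∈ U, g x ∈ U) (hgE : Mp E U g) : Mp E W g := by
  have hF := hE.1.2.1
  have hT : F.StronglyClosed T := hE.1.2.2.2.1
  have hTS := hT.1
  have hWT : W ≤ T := hWn.trans inf_le_left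
  have hWS := hWT.trans hTS
  have hfW : Finite W := H802.finite_of_le hWS
  have hfU : Finite U := H802.finite_of_le hU.1
  have hfT : Finite T := H802.finite_of_le hTS
  obtain ⟨-, -, -, hErec⟩ := H757.sylow_facts hS hE.1 hUT.le hU
  obtain ⟨γ, hγ, hγg⟩ := hg.exists_aut hpp.1
  obtain ⟨α, hα, hαg⟩ := hgE.exists_aut hgU
  have hex : H757.Ex α γ := fun x hx hxW => by rw [← hγg x hxW, ← hαg x hx]
  obtain ⟨β, hβ, hexβ⟩ := H757.exists_ext_aut hErec hUW (fun z hz => hUW (hUT.self hTS hz.1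
    fun x hx => Subgroup.mem_centralizer_iff.1 hz.2 x hx)) hWn hα (by
      intro v hv
      obtain ⟨n, hn, hc⟩ := H757.exists_cj_of_mem hv
      have h1 := H757.Cj.conj_of_ex hUW hex (n := ⟨n, hn⟩) hc
      exact h1.mem (γ ⟨n, hn⟩).2)
  have hβF : β ∈ F.autGroup W := H757.autGroup_le_of_isSubsystemOf hE.1.2.2.1 hWT hWS hβ
  have hδ : γ * β⁻¹ ∈ F.autGroup W := mul_mem hγ (Subgroup.inv_mem _ hβF)
  have hfix : ∀ (x : Ω) (hx : x ∈ U), (((γ * β⁻¹) ⟨x, hUW hx⟩ : W) : Ω) = x := by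
    intro x hx
    have h1 := (hex.mul hUW (hexβ.inv hUW)) x hx (hUW hx)
    rw [h1, mul_inv_cancel]
    rfl
  obtain ⟨k, hk⟩ := H756.pow_eq_one_of_fix hS hT hUT hUW hWT (hWn.trans inf_le_right) hδ hfix
  have h1 : γ ∈ E.autGroup W := by
    refine mem_of_coprime_mul (δ := γ * β⁻¹) (β := β) (by group) hβ (fun b hb => ?_) hk
      (hpp.orderOf_coprime hγg)
    have h2 := H757.autGroup_conj_mem hE.1.2.2 hWT (Subgroup.inv_mem _ hδ) hb
    rwa [inv_inv] at h2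
  exact mp_of_autGroup hWT h1 hγg

/-- **Extension of a generator at a nice subgroup.** -/
theorem GD.ext [Finite S] [Fact p.Prime] (hS : IsPGroup p S) (hE : E.IsNormalIn F p)
    {P N : Subgroup Ω} {a : Ω → Ω} (hP : F.IsFullyNormalized P)
    (hU : F.IsFullyNormalized (P ⊓ T)) (ha : GD p F E P a) (hPN : P ≤ N)
    (hCN : centralizerIn S P ≤ N) (hN : N ≤ normalizerIn S P)
    (hV : ∀ n ∈ N, ∃ n' ∈ N, ∀ x ∈ P, a (n * x * n⁻¹) = n' * a x * n'⁻¹) :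
    ∃ a', GD p F E N a' ∧ ∀ x ∈ P, a' x = a x := by
  have hF := hE.1.2.1
  have hT : F.StronglyClosed T := hE.1.2.2.2.1
  have hTS := hT.1
  have hPS := hP.1
  have hNS : N ≤ S := hN.trans inf_le_left
  have hfP : Finite P := H802.finite_of_le hPS
  have hfN : Finite N := H802.finite_of_le hNS
  set U := P ⊓ T with hUdef
  have hUP : U ≤ P := inf_le_left
  have hUT : U ≤ T := inf_le_right
  have hUS : U ≤ S := hUP.trans hPS
  have hfU : Finite U := H802.finite_of_le hUS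
  have hNN : normalizerIn S P ≤ normalizerIn S U := normalizerIn_le_inf hT hPS
  have hPNP : P ≤ normalizerIn S P := le_inf hPS Subgroup.le_normalizer
  have haU : ∀ x ∈ U, a x ∈ U := fun x hx => ⟨ha.pp.1 x hx.1, (ha.mem_T hx.1).2 hx.2⟩
  -- `N₁ = N C_S(U)`
  set N₁ := N ⊔ centralizerIn S U with hN₁def
  have hCn : centralizerIn S U ≤ normalizerIn S U := H802.centralizerIn_le_normalizerIn S U
  have hCnn : normalizerIn S U ≤ Subgroup.normalizer (centralizerIn S U : Set Ω) := by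
    intro g hg
    have hfC : Finite (centralizerIn S U) := H802.finite_of_le inf_le_left
    refine H757.mem_normalizer_of_conj_mem fun c hc => ?_
    refine ⟨mul_mem (mul_mem hg.1 hc.1) (Subgroup.inv_mem _ hg.1),
      Subgroup.mem_centralizer_iff.2 fun z hz => ?_⟩
    have h1 : g⁻¹ * z * g ∈ U := by
      have := (Subgroup.mem_normalizer_iff.1 (Subgroup.inv_mem _ hg.2) z).1 hz
      simpa using this
    have h2 := Subgroup.mem_centralizer_iff.1 hc.2 _ h1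
    calc z * (g * c * g⁻¹) = g * ((g⁻¹ * z * g) * c) * g⁻¹ := by group
      _ = g * (c * (g⁻¹ * z * g)) * g⁻¹ := by rw [h2]
      _ = g * c * g⁻¹ * z := by group
  have hN₁n : N₁ ≤ normalizerIn S U := sup_le (hN.trans hNN) hCn
  have hN₁m : ∀ x ∈ N₁, ∃ n ∈ N, ∃ c ∈ centralizerIn S U, n * c = x := fun x hx =>
    (H759.mem_sup_of_normalizes ((hN.trans hNN).trans hCnn)).1 hx
  have hN₁S : N₁ ≤ S := hN₁n.trans inf_le_left
  have hPN₁ : P ≤ N₁ := hPN.trans le_sup_left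
  have hfN₁ : Finite N₁ := H802.finite_of_le hN₁S
  obtain ⟨-, m, hm, hid⟩ := ha.pp
  obtain ⟨κ, hκ, hκN, hκe, ⟨m', hm', hid'⟩, hκT⟩ :=
    H757.exists_extension_of_normal (N := N₁) hS hE hUT hU ha.e haU hm
      (fun x hx => hid x hx.1) (hUP.trans hPN₁) le_sup_right hN₁n (by
      intro n hn
      obtain ⟨n₀, hn₀, c, hc, rfl⟩ := hN₁m n hn
      obtain ⟨n', hn', h1⟩ := hV n₀ hn₀
      refine ⟨n', (le_sup_left : N ≤ N₁) hn', fun x hx => ?_⟩
      have h2 : n₀ * c * x * (n₀ * c)⁻¹ = n₀ * x * n₀⁻¹ := by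
        have h3 := Subgroup.mem_centralizer_iff.1 hc.2 x hx
        calc n₀ * c * x * (n₀ * c)⁻¹ = n₀ * (c * x) * c⁻¹ * n₀⁻¹ := by group
          _ = n₀ * (x * c) * c⁻¹ * n₀⁻¹ := by rw [h3]
          _ = n₀ * x * n₀⁻¹ := by group
      rw [h2, h1 x hx.1])
  -- `κ` maps `P` to itself
  have hκa : ∀ x ∈ P, (a x)⁻¹ * κ x ∈ U := by
    intro x hx
    have h1 : (a x)⁻¹ * κ x ∈ T := by
      have h2 : (a x)⁻¹ * κ x = (x⁻¹ * a x)⁻¹ * (x⁻¹ * κ x) := by group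
      rw [h2]
      exact mul_mem (Subgroup.inv_mem _ (ha.tr x hx)) (hκT x (hPN₁ hx))
    refine ha.cen.self hTS h1 fun u hu => ?_
    -- `κ x` and `a x` act in the same way on `U`
    obtain ⟨v, hv, rfl⟩ := ha.e.surj haU hu
    have h3 : x * v * x⁻¹ ∈ U :=
      (Subgroup.mem_normalizer_iff.1 (hNN (hPNP hx)).2 v).1 hv
    have h4 : a (x * v * x⁻¹) = a x * a v * (a x)⁻¹ := mp_conj_eq ha.mp hx hv.1
    have h5 : κ (x * v * x⁻¹) = κ x * κ v * (κ x)⁻¹ := mp_conj_eq hκ (hPN₁ hx) (hPN₁ hv.1)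
    rw [hκe _ h3, hκe v hv, h4] at h5
    calc a v * ((a x)⁻¹ * κ x) = (a x)⁻¹ * (a x * a v * (a x)⁻¹) * κ x := by group
      _ = (a x)⁻¹ * (κ x * a v * (κ x)⁻¹) * κ x := by rw [h5]
      _ = (a x)⁻¹ * κ x * a v := by group
  have hκP : ∀ x ∈ P, κ x ∈ P := fun x hx => by
    have h1 : κ x = a x * ((a x)⁻¹ * κ x) := by group
    rw [h1]
    exact mul_mem (ha.pp.1 x hx) (hUP (hκa x hx))
  -- `N₃ = N₁ ∩ N_S(P)`
  set N₃ := N₁ ⊓ normalizerIn S P with hN₃def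
  have hN₃S : N₃ ≤ S := inf_le_left.trans hN₁S
  have hfN₃ : Finite N₃ := H802.finite_of_le hN₃S
  have hPN₃ : P ≤ N₃ := le_inf hPN₁ hPNP
  have hNN₃ : N ≤ N₃ := le_inf le_sup_left hN
  have hκN₃ : ∀ x ∈ N₃, κ x ∈ N₃ := by
    intro x hx
    refine ⟨hκN x hx.1, hN₁S (hκN x hx.1), H757.mem_normalizer_of_conj_mem fun y hy => ?_⟩
    obtain ⟨z, hz, rfl⟩ := (hκ.res hPN₁).surj hκP hy
    rw [← mp_conj_eq hκ hx.1 (hPN₁ hz)]
    exact hκP _ ((Subgroup.mem_normalizer_iff.1 hx.2.2 z).1 hz)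
  obtain ⟨κ₃, hκ₃, hκ₃e⟩ := (hκ.res (inf_le_left : N₃ ≤ N₁)).exists_aut hκN₃
  have hpp₃ : PP p N₃ κ := ⟨hκN₃, m', hm', fun x hx => hid' x hx.1⟩
  have hppP : PP p P κ := hpp₃.res hPN₃ hκP
  obtain ⟨δ, hδ, hδe⟩ := (hκ.res hPN₁).exists_aut hκP
  obtain ⟨α, hα, hαe⟩ := ha.mp.exists_aut ha.pp.1
  have hV' := trG_isPGroup (T := T) hS (F := F) hPS
  have hfM := finite_mulAut P
  obtain ⟨v, hv, hve⟩ := H757.exists_conj_of_coset hV' (κ := δ) (κ₁ := α)
    (fun v hv => trG_normal hT hPS hδ hv) (hppP.orderOf_coprime hδe)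
    (ha.pp.orderOf_coprime hαe) (by
      refine ⟨mul_mem hα (Subgroup.inv_mem _ hδ), fun x hx => ?_, fun x => ?_⟩
      · obtain ⟨y, hy, hyx⟩ := ha.e.surj haU (show (x : Ω) ∈ U from ⟨x.2, hx⟩)
        have h1 : δ ⟨y, hy.1⟩ = x := Subtype.ext (by rw [← hδe y hy.1, hκe y hy, hyx])
        rw [MulAut.mul_apply, H757.inv_apply_eq h1]
        apply Subtype.ext
        rw [← hαe y hy.1, hyx]
      · set y := δ⁻¹ x with hy
        have hxy : δ y = x := by rw [hy, MulAut.apply_inv_self]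
        have e1 : ((α * δ⁻¹) x : P) = α y := by rw [MulAut.mul_apply, ← hy]
        have e2 : (x : Ω) = κ y := by rw [← hxy, hδe y y.2]
        rw [e1, e2, ← hαe y y.2]
        have h2 := hUT (hκa y y.2)
        have h3 : (κ (y : Ω))⁻¹ * a y = ((a (y : Ω))⁻¹ * κ y)⁻¹ := by group
        rw [h3]
        exact Subgroup.inv_mem _ h2)
  obtain ⟨s, hs, hsv⟩ := H757.exists_cj_of_mem
    (trG_le hS hT (H802.isFullyAutomized_of_isFullyNormalized hS hF hP) hv)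
  have hsn : s ∈ normalizerIn S P := ⟨hs, hsv.mem_normalizer⟩
  have hsN₃ : s ∈ N₃ := by
    refine ⟨(le_sup_right : centralizerIn S U ≤ N₁) ⟨hs, Subgroup.mem_centralizer_iff.2
      fun z hz => ?_⟩, hsn⟩
    have h1 := hsv ⟨z, hz.1⟩
    rw [hv.2.1 ⟨z, hz.1⟩ hz.2] at h1
    have h2 : z = s * z * s⁻¹ := h1
    calc z * s = s * z * s⁻¹ * s := by rw [← h2]
      _ = s * z := by group
  -- `a' = c_s κ c_s⁻¹`
  obtain ⟨ρ, hρ⟩ := H757.exists_cj (P := N₃) (Subgroup.le_normalizer hsN₃)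
  have hρF : ρ ∈ F.autGroup N₃ := hρ.mem_autGroup hN₃S hs
  set α' := ρ * κ₃ * ρ⁻¹ with hα'def
  have hα' : α' ∈ F.autGroup N₃ := mul_mem (mul_mem hρF hκ₃) (Subgroup.inv_mem _ hρF)
  have hval : ∀ (x : Ω) (hx : x ∈ N₃), ex (fun x => ((α' x : N₃) : Ω)) x = (α' ⟨x, hx⟩ : N₃) :=
    fun x hx => ex_apply _ hx
  set a' := ex (fun x => ((α' x : N₃) : Ω)) with ha'def
  have hκ₃T : H757.Tr T κ₃ := fun x => by rw [← hκ₃e x x.2]; exact hκT x x.2.1
  have hα'T : H757.Tr T α' := H757.Tr.conj hT hN₃S hρF hκ₃T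
  have hα'c : (orderOf α').Coprime p := by
    have h1 : orderOf α' = orderOf κ₃ := by
      rw [hα'def, ← MulAut.conj_apply]
      exact orderOf_injective (MulAut.conj ρ).toMonoidHom (MulAut.conj ρ).injective κ₃
    rw [h1]
    exact hpp₃.orderOf_coprime hκ₃e
  have hex' : H757.Ex α α' := by
    rw [hve]
    have h1 : H757.Ex δ κ₃ := fun x hx hxN => by rw [← hκ₃e x hxN, ← hδe x hx]
    have h2 : H757.Ex v ρ := hsv.ex hρ
    exact (h2.mul hPN₃ h1).mul hPN₃ (h2.inv hPN₃)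
  have ha'P : ∀ x ∈ P, a' x = a x := fun x hx => by
    rw [hval x (hPN₃ hx), hex' x hx (hPN₃ hx), hαe x hx]
  have ha'F : Mp F N₃ a' := (mp_iff_autGroup hN₃S α').1 hα'
  have ha'N : ∀ n ∈ N, a' n ∈ N := by
    intro n hn
    obtain ⟨n', hn', h1⟩ := hV n hn
    have hnn := hN hn
    have h2 : n'⁻¹ * a' n ∈ centralizerIn S P := by
      refine ⟨mul_mem (Subgroup.inv_mem _ (hNS hn')) (ha'F.mem (hNN₃ hn)),
        Subgroup.mem_centralizer_iff.2 fun y hy => ?_⟩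
      obtain ⟨x, hx, rfl⟩ := ha.mp.surj ha.pp.1 hy
      have h3 := h1 x hx
      have h4 : n * x * n⁻¹ ∈ P := (Subgroup.mem_normalizer_iff.1 hnn.2 x).1 hx
      rw [← ha'P _ h4, mp_conj_eq ha'F (hNN₃ hn) (hPN₃ hx), ha'P x hx] at h3
      calc a x * (n'⁻¹ * a' n) = n'⁻¹ * (n' * a x * n'⁻¹) * a' n := by group
        _ = n'⁻¹ * (a' n * a x * (a' n)⁻¹) * a' n := by rw [h3]
        _ = n'⁻¹ * a' n * a x := by group
    have h3 : a' n = n' * (n'⁻¹ * a' n) := by group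
    rw [h3]
    exact mul_mem hn' (hCN h2)
  have hppN : PP p N a' := (pp_of_aut hval hα'c).res hNN₃ ha'N
  have htr : ∀ x ∈ N, x⁻¹ * a' x ∈ T := fun x hx => by
    rw [hval x (hNN₃ hx)]
    exact hα'T ⟨x, hNN₃ hx⟩
  have hNT : ∀ x ∈ N ⊓ T, a' x ∈ N ⊓ T := fun x hx =>
    ⟨ha'N x hx.1, mp_mem_of_stronglyClosed hT ha'F (hNN₃ hx.1) hx.2⟩
  refine ⟨a', ⟨ha'F.res hNN₃, hppN, htr, ?_, ha.cen.mono (inf_le_inf_right T hPN) inf_le_right⟩,
    ha'P⟩
  exact mp_of_res hS hE hU ha.cen (inf_le_inf_right T hPN)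
    (le_inf inf_le_right ((inf_le_left.trans (hN.trans hNN)).trans inf_le_right))
    (ha'F.res (inf_le_left.trans hNN₃)) (hppN.res inf_le_left hNT) (fun x hx => by
      rw [ha'P x hx.1]; exact haU x hx) (ha.e.congr fun x hx => ha'P x hx.1)

end Cfsg.Agent.H758
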