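import Cfsg.Agent.H758.PGen

/-!
# Factorization of maps of `F` through the product system (helper758)

Every map of `F` on `P` is `ψ ∘ ν` with `ν` a composite of generators and `ψ` a map of `F` on `P T`.
-/

set_option autoImplicit false

namespace Cfsg.Agent.H758

open Cfsg Cfsg.FusionSystem Cfsg.Agent.H752

variable {Ω : Type*} [Group Ω] {S T : Subgroup Ω} {p : ℕ} {F : FusionSystem S}
  {E : FusionSystem T}

/-- `f = ψ ν` on `P`. -/
def FF (p : ℕ) (F : FusionSystem S) (E : FusionSystem T) (P : Subgroup Ω) (f : Ω → Ω) : Prop :=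
  ∃ ν, NN p F E P ν ∧ ∃ ψ, Mp F (P ⊔ T) ψ ∧ ∀ x ∈ P, f x = ψ (ν x)

theorem FF.congr {P : Subgroup Ω} {f g : Ω → Ω} (h : FF p F E P f) (he : ∀ x ∈ P, g x = f x) :
    FF p F E P g := by
  obtain ⟨ν, hν, ψ, hψ, h⟩ := h
  exact ⟨ν, hν, ψ, hψ, fun x hx => (he x hx).trans (h x hx)⟩

theorem FF.res {P R : Subgroup Ω} {f : Ω → Ω} (h : FF p F E P f) (hR : R ≤ P) :
    FF p F E R f := by
  obtain ⟨ν, hν, ψ, hψ, h⟩ := h
  exact ⟨ν, hν.res hR, ψ, hψ.res (sup_le_sup_right hR T), fun x hx => h x (hR hx)⟩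

/-- The data of a factorization. -/
theorem FF.data [Finite S] (hT : F.StronglyClosed T) {P : Subgroup Ω} {ν ψ : Ω → Ω}
    (hν : NN p F E P ν) (hψ : Mp F (P ⊔ T) ψ) :
    ∃ (P₁ W : Subgroup Ω) (ψ' : Ω → Ω), (∀ y, y ∈ P₁ ↔ ∃ x ∈ P, ν x = y) ∧ P₁ ≤ P ⊔ T ∧
      (∀ y, y ∈ W ↔ ∃ x ∈ P ⊔ T, ψ x = y) ∧ Mp F W ψ' ∧ (∀ x ∈ P ⊔ T, ψ' (ψ x) = x) ∧
      (∀ y ∈ W, ψ' y ∈ P ⊔ T ∧ ψ (ψ' y) = y) ∧ T ≤ W := by
  obtain ⟨P₁, hP₁, -, -⟩ := hν.mp.exists_image le_rfl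
  obtain ⟨W, hW, -, -⟩ := hψ.exists_image le_rfl
  obtain ⟨ψ', hψ', hl, hr⟩ := hψ.exists_symm le_rfl hW
  refine ⟨P₁, W, ψ', hP₁, fun y hy => ?_, hW, hψ', hl, hr, fun t ht => ?_⟩
  · obtain ⟨x, hx, rfl⟩ := (hP₁ y).1 hy
    exact hν.mem_sup hx
  · have hfT : Finite T := H802.finite_of_le hT.1
    have hTm : ∀ t ∈ T, ψ t ∈ T := fun t ht =>
      mp_mem_of_stronglyClosed hT hψ ((le_sup_right : T ≤ P ⊔ T) ht) ht
    obtain ⟨x, hx, rfl⟩ := (hψ.res (le_sup_right : T ≤ P ⊔ T)).surj hTm ht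
    exact (hW _).2 ⟨x, (le_sup_right : T ≤ P ⊔ T) hx, rfl⟩

theorem FF.comp [Finite S] (hT : F.StronglyClosed T) (hI : StrongInvC E F) {P Q : Subgroup Ω}
    {f g : Ω → Ω} (h : FF p F E P f) (h' : FF p F E Q g) (hm : ∀ x ∈ P, f x ∈ Q) :
    FF p F E P (fun x => g (f x)) := by
  obtain ⟨ν, hν, ψ, hψ, h⟩ := h
  obtain ⟨μ, hμ, θ, hθ, h'⟩ := h'
  obtain ⟨P₁, W, ψ', hP₁, hP₁T, hW, hψ', hl, hr, hTW⟩ := FF.data hT hν hψ
  obtain ⟨P₂, hP₂, -, -⟩ := hψ.exists_image hP₁T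
  have hP₂Q : P₂ ≤ Q := fun y hy => by
    obtain ⟨z, hz, rfl⟩ := (hP₂ y).1 hy
    obtain ⟨x, hx, rfl⟩ := (hP₁ z).1 hz
    rw [← h x hx]
    exact hm x hx
  have hP₂W : P₂ ≤ W := fun y hy => by
    obtain ⟨z, hz, rfl⟩ := (hP₂ y).1 hy
    exact (hW _).2 ⟨z, hP₁T hz, rfl⟩
  have h1 : NN p F E P₁ (fun y => ψ' (μ (ψ y))) :=
    (hμ.res hP₂Q).transport hT hI hψ' hP₂W hTW fun y hy =>
      ⟨ψ y, (hP₂ _).2 ⟨y, hy, rfl⟩, hl y (hP₁T hy), rfl⟩
  have hψQ : ∀ x ∈ P ⊔ T, ψ x ∈ Q ⊔ T := by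
    refine mp_sup_mem hψ (fun x hx => ?_) fun t ht => (le_sup_right : T ≤ Q ⊔ T)
      (mp_mem_of_stronglyClosed hT hψ ((le_sup_right : T ≤ P ⊔ T) ht) ht)
    have h2 := hν.tr x hx
    have h3 : x = ν x * (x⁻¹ * ν x)⁻¹ := by group
    have h4 : ψ x = ψ (ν x) * ψ ((x⁻¹ * ν x)⁻¹) := by
      conv_lhs => rw [h3]
      exact hψ.mul (hν.mem_sup hx) ((le_sup_right : T ≤ P ⊔ T) (Subgroup.inv_mem _ h2))
    rw [h4, ← h x hx]
    exact mul_mem ((le_sup_left : Q ≤ _) (hm x hx)) ((le_sup_right : T ≤ Q ⊔ T)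
      (mp_mem_of_stronglyClosed hT hψ ((le_sup_right : T ≤ P ⊔ T) (Subgroup.inv_mem _ h2))
        (Subgroup.inv_mem _ h2)))
  refine ⟨_, hν.comp h1 fun x hx => (hP₁ _).2 ⟨x, hx, rfl⟩, fun x => θ (ψ x),
    hψ.comp hθ hψQ, fun x hx => ?_⟩
  show g (f x) = θ (ψ (ψ' (μ (ψ (ν x)))))
  have h5 : ψ (ν x) ∈ P₂ := (hP₂ _).2 ⟨ν x, (hP₁ _).2 ⟨x, hx, rfl⟩, rfl⟩
  have h6 : μ (ψ (ν x)) ∈ W := by
    have h7 := (hμ.res hP₂Q).mem_sup h5
    exact (sup_le hP₂W hTW) h7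
  rw [(hr _ h6).2, h' _ (hm x hx), h x hx]

theorem FF.symm [Finite S] [Fact p.Prime] (hT : F.StronglyClosed T) (hI : StrongInvC E F)
    {P R : Subgroup Ω} {f g : Ω → Ω} (h : FF p F E P f)
    (hg : ∀ y ∈ R, ∃ x ∈ P, f x = y ∧ g y = x) : FF p F E R g := by
  obtain ⟨ν, hν, ψ, hψ, h⟩ := h
  obtain ⟨P₁, W, ψ', hP₁, hP₁T, hW, hψ', hl, hr, hTW⟩ := FF.data hT hν hψ
  obtain ⟨ν', hν', hl', hr'⟩ := hν.mp.exists_symm le_rfl hP₁
  have h1 : NN p F E P₁ ν' := hν.symm P₁ ν' fun y hy => by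
    obtain ⟨x, hx, rfl⟩ := (hP₁ y).1 hy
    exact ⟨x, hx, rfl, hl' x hx⟩
  have hRW : R ≤ W := fun y hy => by
    obtain ⟨x, hx, rfl, -⟩ := hg y hy
    rw [h x hx]
    exact (hW _).2 ⟨_, hν.mem_sup hx, rfl⟩
  have h2 : NN p F E R (fun y => ψ (g y)) := by
    refine h1.transport hT hI hψ hP₁T le_sup_right fun y hy => ?_
    obtain ⟨x, hx, rfl, h3⟩ := hg y hy
    refine ⟨ν x, (hP₁ _).2 ⟨x, hx, rfl⟩, (h x hx).symm, ?_⟩
    rw [h3, hl' x hx]
  refine ⟨_, h2, ψ', hψ'.res (sup_le hRW hTW), fun y hy => ?_⟩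
  obtain ⟨x, hx, -, h3⟩ := hg y hy
  show g y = ψ' (ψ (g y))
  rw [hl _ (by rw [h3]; exact (le_sup_left : P ≤ _) hx)]

theorem ff_of_le {P : Subgroup Ω} {f : Ω → Ω} (hf : Mp F P f) (hT : T ≤ P) : FF p F E P f :=
  ⟨fun x => x, NN.id _ hf.le fun _ _ => rfl, f, by rwa [sup_eq_left.2 hT], fun _ _ => rfl⟩

theorem ff_of_nn {P : Subgroup Ω} {f : Ω → Ω} (hTS : T ≤ S) (hf : NN p F E P f) :
    FF p F E P f :=
  ⟨f, hf, fun x => x, mp_id F (sup_le hf.mp.le hTS), fun _ _ => rfl⟩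

section Step

variable [Finite S] [Fact p.Prime] {Q : Subgroup Ω}

/-- An automorphism which extends to a larger subgroup factors. -/
theorem ff_of_ext (IH : ∀ (R : Subgroup Ω) (f : Ω → Ω), Mp F R f → Nat.card Q < Nat.card R →
    FF p F E R f) {f : Ω → Ω} {N : Subgroup Ω} {ψ : Ω → Ω} (hψ : Mp F N ψ) (hQN : Q < N)
    (hψe : ∀ x ∈ Q, ψ x = f x) : FF p F E Q f := by
  have hfN : Finite N := H802.finite_of_le hψ.le
  have h1 : Nat.card Q < Nat.card N := by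
    refine lt_of_le_of_ne (Subgroup.card_le_of_le hQN.le) fun he => hQN.ne ?_
    exact Subgroup.eq_of_le_of_card_ge hQN.le he.ge
  exact ((IH N ψ hψ h1).res hQN.le).congr fun x hx => (hψe x hx).symm

/-- Extension when an element `t` outside `Q` is admissible. -/
theorem ff_of_adm (IH : ∀ (R : Subgroup Ω) (f : Ω → Ω), Mp F R f → Nat.card Q < Nat.card R →
    FF p F E R f) (hQr : F.IsReceptive Q) {β : MulAut Q} (hβ : β ∈ F.autGroup Q) {t : Ω}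
    (htS : t ∈ S) (htQ : t ∉ Q) {c : MulAut Q} (hc : H757.Cj t c)
    (hcβ : β * c * β⁻¹ ∈ autInducedBy S Q) :
    FF p F E Q (ex fun x => ((β x : Q) : Ω)) := by
  have hQS := hQr.1
  have hfQ : Finite Q := H802.finite_of_le hQS
  have hm := (mp_iff_autGroup hQS β).1 hβ
  have hval : ∀ (x : Ω) (hx : x ∈ Q), ex (fun x => ((β x : Q) : Ω)) x = (β ⟨x, hx⟩ : Q) :=
    fun x hx => ex_apply _ hx
  obtain ⟨N, ψ, hψ, hQN, hψe, hN⟩ := H753.mp_extend hQr hm (fun y =>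
    ⟨fun hy => hm.surj (fun x hx => by rw [hval x hx]; exact (β _).2) hy,
      fun ⟨x, hx, h⟩ => h ▸ (by rw [hval x hx]; exact (β _).2)⟩)
  have htn := hc.mem_normalizer
  have htN : t ∈ N := by
    obtain ⟨g, hg, hgc⟩ := H757.exists_cj_of_mem hcβ
    refine hN t htS htn ⟨g, hg, fun x hx => ?_⟩
    have h11 : t * x * t⁻¹ ∈ Q := (Subgroup.mem_normalizer_iff.1 htn x).1 hx
    have h9 := hgc (β ⟨x, hx⟩)
    have h10 : (β * c * β⁻¹) (β ⟨x, hx⟩) = β (c ⟨x, hx⟩) := by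
      simp [MulAut.mul_apply]
    rw [h10] at h9
    rw [hval _ h11, hval x hx]
    have h12 : (⟨t * x * t⁻¹, h11⟩ : Q) = c ⟨x, hx⟩ := Subtype.ext (hc ⟨x, hx⟩).symm
    rw [h12, h9]
  exact ff_of_ext IH hψ (lt_of_le_of_ne hQN fun he => htQ (he ▸ htN)) hψe

/-- The case `C_T(Q ∩ T) ≰ Q`. -/
theorem ff_of_not_centralizer_le (hS : IsPGroup p S) (hT : F.StronglyClosed T)
    (IH : ∀ (R : Subgroup Ω) (f : Ω → Ω), Mp F R f → Nat.card Q < Nat.card R → FF p F E R f)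
    (hQa : F.IsFullyAutomized p Q) (hQr : F.IsReceptive Q) (hC : ¬ centralizerIn T (Q ⊓ T) ≤ Q)
    {α : MulAut Q} (hα : α ∈ F.autGroup Q) : FF p F E Q (ex fun x => ((α x : Q) : Ω)) := by
  have hTS := hT.1
  have hQS := hQr.1
  have hR : IsPGroup p ↥(Q ⊔ centralizerIn T (Q ⊓ T)) :=
    isPGroup_mono hS (sup_le hQS (inf_le_left.trans hTS))
  have hfR : Finite ↥(Q ⊔ centralizerIn T (Q ⊓ T)) :=
    H802.finite_of_le (sup_le hQS (inf_le_left.trans hTS))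
  obtain ⟨u, hu, huQ, hun⟩ := H757.exists_normalizes_of_not_le hR
    (U := centralizerIn T (Q ⊓ T)) (V := Q) le_sup_right le_sup_left (by
      have h1 : Q ⊔ centralizerIn T (Q ⊓ T) ≤
          Subgroup.normalizer (centralizerIn T (Q ⊓ T) : Set Ω) := by
        have hfC : Finite ↥(centralizerIn T (Q ⊓ T)) :=
          H802.finite_of_le (inf_le_left.trans hTS)
        refine sup_le (fun x hx => H757.mem_normalizer_of_conj_mem fun v hv => ⟨?_, ?_⟩)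
          Subgroup.le_normalizer
        · exact H759.StronglyClosed.conj_mem hT (hQS hx) hv.1
        · refine Subgroup.mem_centralizer_iff.2 fun z hz => ?_
          have hz' : x⁻¹ * z * x ∈ Q ⊓ T := by
            refine ⟨mul_mem (mul_mem (Subgroup.inv_mem _ hx) hz.1) hx, ?_⟩
            have h2 := H759.StronglyClosed.conj_mem hT (Subgroup.inv_mem _ (hQS hx)) hz.2
            simpa using h2
          have h3 := Subgroup.mem_centralizer_iff.1 hv.2 _ hz'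
          calc z * (x * v * x⁻¹) = x * ((x⁻¹ * z * x) * v) * x⁻¹ := by group
            _ = x * (v * (x⁻¹ * z * x)) * x⁻¹ := by rw [h3]
            _ = x * v * x⁻¹ * z := by group
      intro r hr u hu
      exact (Subgroup.mem_normalizer_iff.1 (h1 hr) u).1 hu) hC
  obtain ⟨c, hc⟩ := H757.exists_cj hun
  have hcF : c ∈ F.autGroup Q := hc.mem_autGroup hQS (hTS hu.1)
  have hcT : ∀ x : Q, (x : Ω)⁻¹ * (c x : Q) ∈ T := by
    intro x
    rw [hc x]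
    have h5 : (x : Ω)⁻¹ * (u * x * u⁻¹) = ((x : Ω)⁻¹ * u * (x : Ω)⁻¹⁻¹) * u⁻¹ := by group
    rw [h5]
    exact mul_mem (H759.StronglyClosed.conj_mem hT (Subgroup.inv_mem _ (hQS x.2)) hu.1)
      (Subgroup.inv_mem _ hu.1)
  refine ff_of_adm IH hQr hα (hTS hu.1) huQ hc (trG_le hS hT hQa (trG_normal hT hQS hα ?_))
  refine ⟨hcF, fun x hx => Subtype.ext ?_, hcT⟩
  rw [hc x]
  have h3 := Subgroup.mem_centralizer_iff.1 hu.2 _ (⟨x.2, hx⟩ : (x : Ω) ∈ Q ⊓ T)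
  rw [← h3]
  group

end Step

/-- If `C_T(U) ≤ U` for a fully normalized `U ≤ T` then `U` is `T`-centric. -/
theorem tc_of_fn [Finite S] [Fact p.Prime] (hS : IsPGroup p S) (hF : F.IsSaturated p)
    (hT : F.StronglyClosed T) {U : Subgroup Ω} (hUT : U ≤ T) (hU : F.IsFullyNormalized U)
    (hC : centralizerIn T U ≤ U) : H756.TC F T U := by
  refine ⟨hUT, fun f hf z hz hc => ?_⟩
  obtain ⟨V, hV, -, -⟩ := hf.exists_image le_rfl
  have h1 := H757.centralizer_le_of_isConj hS hF hT hU hC (isConj_of_image hf le_rfl hV)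
  refine (hV z).1 (h1 ⟨hz, Subgroup.mem_centralizer_iff.2 fun y hy => ?_⟩)
  obtain ⟨x, hx, rfl⟩ := (hV y).1 hy
  exact hc x hx

/-- **Factorization.** -/
theorem fact [Finite S] [Fact p.Prime] (hS : IsPGroup p S) (hF : F.IsSaturated p)
    (hE : E.IsInvariantIn F) : ∀ (P : Subgroup Ω) (f : Ω → Ω), Mp F P f → FF p F E P f := by
  have hT := hE.2.1
  have hTS := hT.1
  have hfT : Finite T := H802.finite_of_le hTS
  have hI : StrongInvC E F := (isInvariantIn_iff_strongInvC hS hF hE.1 hT).1 hE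
  refine mp_induction F hS hF (FF p F E) ?_ ?_ ?_ ?_ ?_
  · intro P f g _ h1 he
    exact h1.congr he
  · intro P R f _ h1 hR
    exact h1.res hR
  · intro P Q f g _ _ h1 h2 hm
    exact h1.comp hT hI h2 hm
  · intro P R f g _ h1 _ hinv
    exact h1.symm hT hI hinv
  · intro Q hQa hQr IH α hα f hf
    have hQS : Q ≤ S := hQa.1
    have hfQ : Finite Q := H802.finite_of_le hQS
    have hfm : Mp F Q f := mp_of_autGroup hQS hα hf
    by_cases hTQ : T ≤ Q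
    · exact ff_of_le hfm hTQ
    have hQn := H802.isFullyNormalized_of_automized_receptive hS hQa hQr
    have hmp : ∀ β ∈ F.autGroup Q, Mp F Q (ex fun x => ((β x : Q) : Ω)) := fun β hβ =>
      (mp_iff_autGroup hQS β).1 hβ
    have hval : ∀ (β : MulAut Q) (x : Ω) (hx : x ∈ Q), ex (fun x => ((β x : Q) : Ω)) x =
        (β ⟨x, hx⟩ : Q) := fun β x hx => ex_apply _ hx
    have hQmem : ∀ κ ∈ F.autGroup Q, ∀ x (hx : x ∈ Q), x ∈ T → ((κ ⟨x, hx⟩ : Q) : Ω) ∈ T :=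
      fun κ hκ x hx hxT => aut_mem_T hT hQS hκ ⟨x, hx⟩ hxT
    have hQlt : Q < S := lt_of_le_of_ne hQS fun he => hTQ (he ▸ hTS)
    by_cases hC : centralizerIn T (Q ⊓ T) ≤ Q
    swap
    · exact (ff_of_not_centralizer_le hS hT IH hQa hQr hC hα).congr fun x hx => by
        rw [hf x hx, hval α x hx]
    by_cases hTC : H756.TC F T (Q ⊓ T)
    swap
    · -- replace `Q` by a conjugate `Q'` with `Q' ∩ T` fully normalized
      obtain ⟨U, hcU, hUn⟩ := H802.exists_isFullyNormalized hS hF (P := Q ⊓ T)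
        (inf_le_left.trans hQS)
      obtain ⟨χ, hχ, hχU, hχN⟩ := exists_mp_normalizer hS hF hcU hUn
      have hQ₀N : Q ⊓ T ≤ normalizerIn S (Q ⊓ T) :=
        le_inf (inf_le_left.trans hQS) Subgroup.le_normalizer
      have hNN : normalizerIn S Q ≤ normalizerIn S (Q ⊓ T) := by
        intro g hg
        have hfQ₀ : Finite ↥(Q ⊓ T) := H802.finite_of_le (inf_le_left.trans hQS)
        refine ⟨hg.1, H757.mem_normalizer_of_conj_mem fun x hx => ⟨?_, ?_⟩⟩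
        · exact (Subgroup.mem_normalizer_iff.1 hg.2 x).1 hx.1
        · exact H759.StronglyClosed.conj_mem hT hg.1 hx.2
      have hQN : Q ≤ normalizerIn S (Q ⊓ T) := (le_inf hQS Subgroup.le_normalizer).trans hNN
      have hQlt' : Q < normalizerIn S (Q ⊓ T) := by
        refine lt_of_lt_of_le ?_ hNN
        obtain ⟨g, hg, hgQ, hgn⟩ := H759.exists_mem_normalizer_not_mem hS le_rfl hQlt
        exact lt_of_le_of_ne (le_inf hQS Subgroup.le_normalizer) fun he =>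
          hgQ (he ▸ (⟨hg, hgn⟩ : g ∈ normalizerIn S Q))
      obtain ⟨Q', hQ', hQ'S, hcard⟩ := hχ.exists_image hQN
      obtain ⟨hQ'n, -, -⟩ := normalizer_image hQn hχ hNN hQ'
      have hfQ' : Finite Q' := H802.finite_of_le hQ'S
      have hU' : Q' ⊓ T = U := by
        ext y
        rw [hχU]
        constructor
        · rintro ⟨hy, hyT⟩
          obtain ⟨x, hx, rfl⟩ := (hQ' y).1 hy
          exact ⟨x, ⟨hx, mp_mem_of_stronglyClosed' hT hχ (hQN hx) hyT⟩, rfl⟩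
        · rintro ⟨x, hx, rfl⟩
          exact ⟨(hQ' _).2 ⟨x, hx.1, rfl⟩, mp_mem_of_stronglyClosed hT hχ (hQ₀N hx) hx.2⟩
      have hC' : ¬ centralizerIn T (Q' ⊓ T) ≤ Q' := by
        intro hC'
        have h1 : centralizerIn T U ≤ U := by
          rw [← hU']
          exact fun z hz => ⟨hC' hz, hz.1⟩
        have hUT : U ≤ T := by rw [← hU']; exact inf_le_right
        have h2 := tc_of_fn hS hF hT hUT hUn h1
        obtain ⟨χ', hχ', hl, hr⟩ := hχ.exists_symm hQ₀N hχU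
        refine hTC (h2.image hT hχ' fun y => ⟨fun hy => ⟨χ y, (hχU _).2 ⟨y, hy, rfl⟩, hl y hy⟩, ?_⟩)
        rintro ⟨z, hz, rfl⟩
        exact (hr z hz).1
      have hχQ : FF p F E Q χ := ff_of_ext IH hχ hQlt' fun _ _ => rfl
      obtain ⟨χ', hχ', hl, hr⟩ := hχ.exists_symm hQN hQ'
      have hχ'Q : FF p F E Q' χ' := hχQ.symm hT hI fun y hy => by
        obtain ⟨x, hx, rfl⟩ := (hQ' y).1 hy
        exact ⟨x, hx, rfl, hl x hx⟩
      have hfQQ : ∀ x ∈ Q, f x ∈ Q := fun x hx => by rw [hf x hx]; exact (α _).2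
      have hg : Mp F Q' (fun y => χ (f (χ' y))) :=
        (hχ'.comp hfm fun y hy => (hr y hy).1).comp hχ fun y hy => hQN (hfQQ _ (hr y hy).1)
      have hgm : ∀ y ∈ Q', χ (f (χ' y)) ∈ Q' := fun y hy =>
        (hQ' _).2 ⟨_, hfQQ _ (hr y hy).1, rfl⟩
      obtain ⟨γ, hγ, hγg⟩ := hg.exists_aut hgm
      have h1 := ff_of_not_centralizer_le (E := E) hS hT (fun R f hf hc => IH R f hf (by
          rw [← hcard]; exact hc)) (H802.isFullyAutomized_of_isFullyNormalized hS hF hQ'n)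
        (H802.isReceptive_of_isFullyNormalized hS hF hQ'n) hC' hγ
      have h2 : FF p F E Q' (fun y => χ (f (χ' y))) := h1.congr fun y hy => by
        rw [hγg y hy, ex_apply _ hy]
      have h3 := (hχQ.comp hT hI h2 fun x hx => (hQ' _).2 ⟨x, hx, rfl⟩).comp hT hI hχ'Q
        fun x hx => hgm _ ((hQ' _).2 ⟨x, hx, rfl⟩)
      refine h3.congr fun x hx => ?_
      show f x = χ' (χ (f (χ' (χ x))))
      rw [hl x hx, hl _ (hfQQ x hx)]
    -- the subgroup of good automorphisms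
    let L : Subgroup (MulAut Q) :=
      { carrier := {β | β ∈ F.autGroup Q ∧ FF p F E Q (ex fun x => ((β x : Q) : Ω))}
        one_mem' := ⟨one_mem _, (ff_of_nn hTS (NN.id _ hQS fun _ _ => rfl :
            NN p F E Q (fun x => x))).congr fun x hx => by rw [hval 1 x hx]; rfl⟩
        mul_mem' := by
          rintro a b ⟨ha, ha'⟩ ⟨hb, hb'⟩
          refine ⟨mul_mem ha hb, (hb'.comp hT hI ha' fun x hx => ?_).congr fun x hx => ?_⟩
          · rw [hval b x hx]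
            exact (b _).2
          · rw [hval (a * b) x hx, hval b x hx, hval a _ (b ⟨x, hx⟩).2]
            rfl
        inv_mem' := by
          rintro a ⟨ha, ha'⟩
          refine ⟨Subgroup.inv_mem _ ha, ha'.symm hT hI fun y hy =>
            ⟨((a⁻¹ ⟨y, hy⟩ : Q) : Ω), (a⁻¹ _).2, ?_, ?_⟩⟩
          · rw [hval a _ (a⁻¹ ⟨y, hy⟩).2]
            show ((a (a⁻¹ ⟨y, hy⟩) : Q) : Ω) = y
            rw [MulAut.apply_inv_self]
          · rw [hval a⁻¹ y hy] }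
    have hcjT : ∀ t ∈ T, ∀ c : MulAut Q, H757.Cj t c → c ∈ F.autGroup Q ∧
        ∀ x : Q, (x : Ω)⁻¹ * (c x : Q) ∈ T := by
      intro t ht c hc
      refine ⟨hc.mem_autGroup hQS (hTS ht), fun x => ?_⟩
      rw [hc x]
      have h5 : (x : Ω)⁻¹ * (t * x * t⁻¹) = ((x : Ω)⁻¹ * t * (x : Ω)⁻¹⁻¹) * t⁻¹ := by group
      rw [h5]
      exact mul_mem (H759.StronglyClosed.conj_mem hT (Subgroup.inv_mem _ (hQS x.2)) ht)
        (Subgroup.inv_mem _ ht)
    suffices hαL : α ∈ L from hαL.2.congr fun x hx => by rw [hf x hx, hval α x hx]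
    -- the group `K`
    let K : Subgroup (MulAut Q) :=
      { carrier := {κ | κ ∈ F.autGroup Q ∧ (∀ x : Q, (x : Ω)⁻¹ * (κ x : Q) ∈ T) ∧
          Mp E (Q ⊓ T) (ex fun x => ((κ x : Q) : Ω))}
        one_mem' := ⟨one_mem _, fun x => by simp, (mp_id E inf_le_right).congr fun x hx => by
          rw [hval 1 x hx.1]; rfl⟩
        mul_mem' := by
          rintro a b ⟨ha, ha1, ha'⟩ ⟨hb, hb1, hb'⟩
          refine ⟨mul_mem ha hb, H757.Tr.mul ha1 hb1, (hb'.comp ha' fun x hx => ?_).congr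
            fun x hx => ?_⟩
          · rw [hval b x hx.1]
            exact ⟨(b _).2, hQmem b hb x hx.1 hx.2⟩
          · rw [hval (a * b) x hx.1, hval b x hx.1, hval a _ (b ⟨x, hx.1⟩).2]
            rfl
        inv_mem' := by
          rintro a ⟨ha, ha1, ha'⟩
          refine ⟨Subgroup.inv_mem _ ha, H757.Tr.inv ha1, ha'.symm fun y hy =>
            ⟨((a⁻¹ ⟨y, hy.1⟩ : Q) : Ω),
            ⟨(a⁻¹ _).2, hQmem a⁻¹ (Subgroup.inv_mem _ ha) y hy.1 hy.2⟩, ?_, ?_⟩⟩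
          · rw [hval a _ (a⁻¹ ⟨y, hy.1⟩).2]
            show ((a (a⁻¹ ⟨y, hy.1⟩) : Q) : Ω) = y
            rw [MulAut.apply_inv_self]
          · rw [hval a⁻¹ y hy.1] }
    have hKA : K ≤ F.autGroup Q := fun k hk => hk.1
    have hKn : ∀ a ∈ F.autGroup Q, ∀ k ∈ K, a * k * a⁻¹ ∈ K := by
      rintro a ha k ⟨hk, hk1, hk'⟩
      refine ⟨mul_mem (mul_mem ha hk) (Subgroup.inv_mem _ ha), H757.Tr.conj hT hQS ha hk1, ?_⟩
      refine hI (Q ⊓ T) (Q ⊓ T) (Q ⊓ T) _ _ _ le_rfl inf_le_right hk' (fun x hx => ?_)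
        ((hmp a ha).res inf_le_left) fun y hy => ⟨((a⁻¹ ⟨y, hy.1⟩ : Q) : Ω),
          ⟨(a⁻¹ _).2, hQmem a⁻¹ (Subgroup.inv_mem _ ha) y hy.1 hy.2⟩, ?_, ?_⟩
      · rw [hval k x hx.1]
        exact ⟨(k _).2, hQmem k hk x hx.1 hx.2⟩
      · rw [hval a _ (a⁻¹ ⟨y, hy.1⟩).2]
        show ((a (a⁻¹ ⟨y, hy.1⟩) : Q) : Ω) = y
        rw [MulAut.apply_inv_self]
      · rw [hval (a * k * a⁻¹) y hy.1, hval k _ (a⁻¹ ⟨y, hy.1⟩).2, hval a _ (k _).2]
        rfl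
    have hfM := finite_mulAut Q
    have hSyl : H802.SylIn p (autInducedBy S Q ⊓ K) K :=
      (H750.sylIn_of_isFullyAutomized hQa).inf_normal hKA hKn
    have hKL : K ≤ L := by
      refine le_of_sylIn_of_coprime hSyl ?_ ?_
      · rintro c ⟨hc, hcK⟩
        obtain ⟨s, hs, hcs⟩ := H757.exists_cj_of_mem hc
        exact ⟨hcK.1, ff_of_ext IH (mp_conj F le_rfl hs) hQlt fun x hx => by
          rw [hval c x hx]; exact (hcs ⟨x, hx⟩).symm⟩
      · rintro κ ⟨hκ, hκ1, hκE⟩ hκc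
        exact ⟨hκ, ff_of_nn hTS (NN.of_gd ⟨hmp κ hκ, pp_of_aut (hval κ) hκc, fun x hx => by
          rw [hval κ x hx]; exact hκ1 ⟨x, hx⟩, hκE, hTC⟩)⟩
    obtain ⟨k, hk, hkα⟩ := H757.frattini_in hSyl (hKn α hα)
    have hkαF : k * α ∈ F.autGroup Q := mul_mem (hKA hk) hα
    -- an element of `N_T(Q)` outside `Q`
    have hkαL : k * α ∈ L := by
      have hlt := card_lt_card_sup hS hT hQS hTQ
      obtain ⟨t, ht, htQ⟩ : ∃ t ∈ T ⊓ Subgroup.normalizer (Q : Set Ω), t ∉ Q := by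
        by_contra hcon
        push Not at hcon
        have h1 : Q ⊔ (T ⊓ Subgroup.normalizer (Q : Set Ω)) = Q := sup_eq_left.2 hcon
        rw [h1] at hlt
        exact lt_irrefl _ hlt
      obtain ⟨c, hc⟩ := H757.exists_cj ht.2
      obtain ⟨hcF, hcT⟩ := hcjT t ht.1 c hc
      have hcK : c ∈ K := by
        refine ⟨hcF, hcT, (mp_conj E (P := Q ⊓ T) inf_le_right ht.1).congr fun x hx => ?_⟩
        rw [hval c x hx.1]
        exact hc ⟨x, hx.1⟩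
      exact ⟨hkαF, ff_of_adm IH hQr hkαF (hTS ht.1) htQ hc (hkα c ⟨hc.mem (hTS ht.1), hcK⟩).1⟩
    have h1 : α = k⁻¹ * (k * α) := by group
    rw [h1]
    exact mul_mem (Subgroup.inv_mem _ (hKL hk)) hkαL

end Cfsg.Agent.H758
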