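import Cfsg.Agent.H758.SIStar
import Cfsg.Agent.S5093

/-!
# Two lemmas on finite groups (helper758)

`sylow_le_of_hyper`: from the hyperfocal subgroup theorem. `alperin_ext`: an Alperin type induction.
-/

set_option autoImplicit false

namespace Cfsg.Agent.H758

open Cfsg Cfsg.FusionSystem

/-- A Sylow `p`-subgroup `R` of `A = O^p(A)` lies in `V` if all commutators `[Q, a]`, `Q ≤ R`, `a` a `p'`-element
normalizing `Q`, do. -/
theorem sylow_le_of_hyper {G : Type*} [Group G] [Finite G] {p : ℕ} [Fact p.Prime]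
    {A R V : Subgroup G} (hR : H802.SylIn p R A)
    (hgen : A ≤ Subgroup.closure {c | c ∈ A ∧ (orderOf c).Coprime p})
    (h : ∀ Q : Subgroup G, Q ≤ R → ∀ a ∈ A, (orderOf a).Coprime p → (∀ q ∈ Q, a * q * a⁻¹ ∈ Q) →
      ∀ q ∈ Q, q⁻¹ * (a * q * a⁻¹) ∈ V) : R ≤ V := by
  obtain ⟨R', hR'⟩ := hR.exists_sylow
  have h1 := S5093.result (G := A) p R'
  have hres : pResidual p A = ⊤ := by
    rw [eq_top_iff]
    rintro ⟨a, ha⟩ -
    have h2 : Subgroup.closure {c | c ∈ A ∧ (orderOf c).Coprime p} ≤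
        (pResidual p A).map A.subtype := by
      refine (Subgroup.closure_le _).2 ?_
      rintro c ⟨hc, hcc⟩
      refine ⟨⟨c, hc⟩, Subgroup.subset_closure ?_, rfl⟩
      show (orderOf (⟨c, hc⟩ : A)).Coprime p
      rwa [Subgroup.orderOf_mk]
    obtain ⟨b, hb, hba⟩ := h2 (hgen ha)
    have h3 : b = ⟨a, ha⟩ := Subtype.ext hba
    rwa [← h3]
  rw [hres, inf_top_eq] at h1
  have h2 : (groupFusionSystem (R' : Subgroup A)).hyperfocalSubgroup p ≤ V.subgroupOf A := by
    refine H747.hyperfocal_le fun P hP α hα hc x => ?_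
    rw [H802.mem_autGroup_iff _ hP] at hα
    obtain ⟨-, -, g, hg⟩ := hα
    have hfP : Finite P := inferInstance
    obtain ⟨m, hm, hm'⟩ := H792.exists_pow_coprime (p := p) g hc
    have h3 : α ^ m = α := by
      conv_rhs => rw [← pow_one α]
      exact pow_eq_pow_iff_modEq.2 hm'
    have h4 : ∀ (j : ℕ) (x : P), (((α ^ j) x : P) : A) = g ^ j * x * (g ^ j)⁻¹ := by
      intro j
      induction j with
      | zero => intro x; simp
      | succ j ih =>
        intro x
        have h5 : ((α x : P) : A) = g * x * g⁻¹ := hg x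
        rw [pow_succ, MulAut.mul_apply, ih, h5, pow_succ]
        group
    have h5 : ∀ x : P, ((α x : P) : A) = g ^ m * x * (g ^ m)⁻¹ := fun x => by rw [← h4, h3]
    rw [Subgroup.mem_subgroupOf]
    have hPR : P.map A.subtype ≤ R := by
      rintro _ ⟨y, hy, rfl⟩
      have h6 := hP hy
      rw [hR'] at h6
      exact h6
    have h7 := h (P.map A.subtype) hPR ((g ^ m : A) : G) (g ^ m).2 (by rwa [Subgroup.orderOf_coe])
      (by
        rintro _ ⟨y, hy, rfl⟩
        refine ⟨(α ⟨y, hy⟩ : P), (α ⟨y, hy⟩).2, ?_⟩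
        rw [h5]
        rfl) (x : A) ⟨x, x.2, rfl⟩
    rw [h5]
    exact h7
  rw [h1] at h2
  intro r hr
  have hrA := hR.le hr
  have h3 : (⟨r, hrA⟩ : A) ∈ (R' : Subgroup A) := by
    rw [hR', Subgroup.mem_subgroupOf]
    exact hr
  exact h2 h3

/-- Conjugates. -/
def cj {G : Type*} [Group G] (a : G) (B : Subgroup G) : Subgroup G :=
  B.map (MulAut.conj a).toMonoidHom

theorem mem_cj {G : Type*} [Group G] {a : G} {B : Subgroup G} {x : G} :
    x ∈ cj a B ↔ ∃ b ∈ B, a * b * a⁻¹ = x := Iff.rfl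

theorem cj_mul {G : Type*} [Group G] (a b : G) (B : Subgroup G) : cj (a * b) B = cj a (cj b B) := by
  ext x
  simp only [mem_cj]
  constructor
  · rintro ⟨y, hy, rfl⟩
    exact ⟨_, ⟨y, hy, rfl⟩, by group⟩
  · rintro ⟨_, ⟨y, hy, rfl⟩, rfl⟩
    exact ⟨y, hy, by group⟩

theorem cj_one {G : Type*} [Group G] (B : Subgroup G) : cj (1 : G) B = B := by
  ext x
  simp [mem_cj]

theorem cj_inv_cj {G : Type*} [Group G] (a : G) (B : Subgroup G) : cj a⁻¹ (cj a B) = B := by
  rw [← cj_mul, inv_mul_cancel, cj_one]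

theorem cj_mono {G : Type*} [Group G] (a : G) {B C : Subgroup G} (h : B ≤ C) : cj a B ≤ cj a C :=
  Subgroup.map_mono h

theorem card_cj {G : Type*} [Group G] (a : G) (B : Subgroup G) : Nat.card (cj a B) = Nat.card B :=
  H802.card_map_conj a B

theorem mem_normalizer_of_cj {G : Type*} [Group G] {a : G} {B : Subgroup G} (h : cj a B = B) :
    a ∈ Subgroup.normalizer (B : Set G) := by
  rw [Subgroup.mem_normalizer_iff]
  intro x
  constructor
  · intro hx
    rw [← h]
    exact ⟨x, hx, rfl⟩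
  · intro hx
    rw [← h] at hx
    obtain ⟨y, hy, hyx⟩ := hx
    have h1 : a * y * a⁻¹ = a * x * a⁻¹ := hyx
    have h2 : y = x := mul_left_cancel (mul_right_cancel h1)
    rwa [← h2]

theorem cj_of_mem_normalizer {G : Type*} [Group G] {a : G} {B : Subgroup G}
    (h : a ∈ Subgroup.normalizer (B : Set G)) : cj a B = B := by
  ext x
  rw [mem_cj]
  constructor
  · rintro ⟨y, hy, rfl⟩
    exact (Subgroup.mem_normalizer_iff.1 h y).1 hy
  · intro hx
    refine ⟨a⁻¹ * x * a, ?_, by group⟩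
    have h1 := (Subgroup.mem_normalizer_iff.1 (Subgroup.inv_mem _ h) x).1 hx
    simpa using h1

/-- **Alperin type induction.** `R` a Sylow `p`-subgroup of `A`. A property of pairs `(B, a)`, `B ≤ R`, `a B a⁻¹ ≤ R`,
compatible with composition, inverse and restriction, holding for `a ∈ R` and for `p'`-elements normalizing `B`, holds
always. -/
theorem alperin_ext {G : Type*} [Group G] [Finite G] {p : ℕ} [Fact p.Prime] {A R : Subgroup G}
    (hR : H802.SylIn p R A) (M : Subgroup G → G → Prop)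
    (h1 : ∀ B : Subgroup G, B ≤ R → ∀ r ∈ R, M B r)
    (h2 : ∀ B : Subgroup G, B ≤ R → ∀ c ∈ A, (orderOf c).Coprime p → cj c B = B → M B c)
    (h3 : ∀ (B : Subgroup G) (a b : G), B ≤ R → a ∈ A → b ∈ A → cj a B ≤ R → cj (b * a) B ≤ R →
      M B a → M (cj a B) b → M B (b * a))
    (h4 : ∀ (B C : Subgroup G) (a : G), B ≤ C → C ≤ R → a ∈ A → cj a C ≤ R → M C a → M B a)
    (h5 : ∀ (B : Subgroup G) (a : G), B ≤ R → a ∈ A → cj a B ≤ R → M B a → M (cj a B) a⁻¹) :
    ∀ (B : Subgroup G) (a : G), B ≤ R → a ∈ A → cj a B ≤ R → M B a := by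
  -- elements normalizing `B`, when `N_R(B)` is Sylow in `N_A(B)`
  have hnorm : ∀ B : Subgroup G, B ≤ R →
      H802.SylIn p (R ⊓ Subgroup.normalizer (B : Set G)) (A ⊓ Subgroup.normalizer (B : Set G)) →
      ∀ m ∈ A, cj m B = B → M B m := by
    intro B hB hs m hm hmB
    let L : Subgroup G :=
      { carrier := {c | c ∈ A ∧ cj c B = B ∧ M B c}
        one_mem' := ⟨one_mem _, cj_one B, h1 B hB 1 (one_mem R)⟩
        mul_mem' := by
          rintro a b ⟨ha, haB, ha'⟩ ⟨hb, hbB, hb'⟩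
          have h6 : cj (a * b) B = B := by rw [cj_mul, hbB, haB]
          exact ⟨mul_mem ha hb, h6, h3 B b a hB hb ha (by rw [hbB]; exact hB) (by rw [h6]; exact hB)
            hb' (by rw [hbB]; exact ha')⟩
        inv_mem' := by
          rintro a ⟨ha, haB, ha'⟩
          refine ⟨Subgroup.inv_mem _ ha, ?_, ?_⟩
          · conv_lhs => rw [← haB]
            exact cj_inv_cj a B
          · have h6 := h5 B a hB ha (by rw [haB]; exact hB) ha'
            rwa [haB] at h6 }
    have hKL : A ⊓ Subgroup.normalizer (B : Set G) ≤ L := by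
      refine le_of_sylIn_of_coprime hs ?_ ?_
      · intro r hr
        exact ⟨hR.le hr.1, cj_of_mem_normalizer hr.2, h1 B hB r hr.1⟩
      · intro k hk hkc
        exact ⟨hk.1, cj_of_mem_normalizer hk.2, h2 B hB k hk.1 hkc (cj_of_mem_normalizer hk.2)⟩
    exact (hKL ⟨hm, mem_normalizer_of_cj hmB⟩).2.2
  have key : ∀ (n : ℕ) (B : Subgroup G) (a : G), Nat.card R - Nat.card B ≤ n → B ≤ R → a ∈ A →
      cj a B ≤ R → M B a := by
    intro n
    induction n with
    | zero =>
      intro B a hn hB ha haB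
      have hBR : B = R := Subgroup.eq_of_le_of_card_ge hB (by omega)
      subst hBR
      have haB' : cj a B = B := Subgroup.eq_of_le_of_card_ge haB (card_cj a B).ge
      refine hnorm B le_rfl ?_ a ha haB'
      have hBn : B ⊓ Subgroup.normalizer (B : Set G) = B := inf_eq_left.2 Subgroup.le_normalizer
      rw [hBn]
      exact hR.mono (le_inf hR.le Subgroup.le_normalizer) inf_le_left
    | succ n ih =>
      intro B a hn hB ha haB
      by_cases hBR : Nat.card R ≤ Nat.card B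
      · exact ih B a (by omega) hB ha haB
      have hpR := hR.isPGroup
      have hcardB := card_cj a B
      -- normalizers grow
      have hgrow : ∀ C : Subgroup G, C ≤ R → Nat.card C = Nat.card B →
          C ≤ R ⊓ Subgroup.normalizer (C : Set G) ∧
          Nat.card R - Nat.card ↥(R ⊓ Subgroup.normalizer (C : Set G)) ≤ n := by
        intro C hC hCc
        have hle : C ≤ R ⊓ Subgroup.normalizer (C : Set G) := le_inf hC Subgroup.le_normalizer
        refine ⟨hle, ?_⟩
        obtain ⟨g, hg, hgC, hgn⟩ := H759.exists_mem_normalizer_not_mem hpR (le_refl R)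
          (lt_of_le_of_ne hC fun he => by rw [← he] at hBR; omega)
        have hlt : Nat.card C < Nat.card ↥(R ⊓ Subgroup.normalizer (C : Set G)) := by
          refine lt_of_le_of_ne (Subgroup.card_le_of_le hle) fun he => hgC ?_
          rw [Subgroup.eq_of_le_of_card_ge hle he.ge]
          exact ⟨hg, hgn⟩
        omega
      obtain ⟨a₁, ha₁, hB₁R, hs⟩ := H757.exists_conj_fully hR hB
      set B₁ := B.map (MulAut.conj a₁).toMonoidHom with hB₁def
      have hB₁ : cj a₁ B = B₁ := rfl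
      -- moving `N_R(C)` into `N_R(B₁)`
      have hmove : ∀ (C : Subgroup G) (c : G), C ≤ R → c ∈ A → cj c C = B₁ →
          ∃ b ∈ A, cj b C = B₁ ∧ cj b (R ⊓ Subgroup.normalizer (C : Set G)) ≤ R := by
        intro C c hC hc hcC
        have h6 : cj c (R ⊓ Subgroup.normalizer (C : Set G)) ≤
            A ⊓ Subgroup.normalizer (B₁ : Set G) := by
          rintro _ ⟨x, hx, rfl⟩
          refine ⟨mul_mem (mul_mem hc (hR.le hx.1)) (Subgroup.inv_mem _ hc), ?_⟩
          refine mem_normalizer_of_cj ?_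
          rw [← hcC, ← cj_mul]
          show cj (c * x * c⁻¹ * c) C = cj c C
          rw [inv_mul_cancel_right, cj_mul, cj_of_mem_normalizer hx.2]
        obtain ⟨k, hk, hk'⟩ := hs.exists_conj h6 ((hpR.to_le inf_le_left).map _)
        refine ⟨k * c, mul_mem hk.1 hc, ?_, ?_⟩
        · rw [cj_mul, hcC, cj_of_mem_normalizer hk.2]
        · rw [cj_mul]
          rintro _ ⟨y, hy, rfl⟩
          exact (hk' y hy).1
      obtain ⟨b₁, hb₁, hb₁B, hb₁N⟩ := hmove B a₁ hB ha₁ hB₁
      obtain ⟨b₂, hb₂, hb₂B, hb₂N⟩ := hmove (cj a B) (b₁ * a⁻¹) haB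
        (mul_mem hb₁ (Subgroup.inv_mem _ ha)) (by rw [cj_mul, cj_inv_cj, hb₁B])
      obtain ⟨hg1, hg2⟩ := hgrow B hB rfl
      obtain ⟨hg3, hg4⟩ := hgrow (cj a B) haB hcardB
      have hM1 : M B b₁ := h4 B _ b₁ hg1 inf_le_left hb₁ hb₁N (ih _ b₁ hg2 inf_le_left hb₁ hb₁N)
      have hM2 : M (cj a B) b₂ :=
        h4 _ _ b₂ hg3 inf_le_left hb₂ hb₂N (ih _ b₂ hg4 inf_le_left hb₂ hb₂N)
      have hM2' : M B₁ b₂⁻¹ := by
        have h6 := h5 (cj a B) b₂ haB hb₂ (by rw [hb₂B]; exact hB₁R) hM2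
        rwa [hb₂B] at h6
      set m := b₂ * a * b₁⁻¹ with hmdef
      have hmA : m ∈ A := mul_mem (mul_mem hb₂ ha) (Subgroup.inv_mem _ hb₁)
      have hb₁' : cj b₁⁻¹ B₁ = B := by rw [← hb₁B, cj_inv_cj]
      have hb₂' : cj b₂⁻¹ B₁ = cj a B := by rw [← hb₂B, cj_inv_cj]
      have hmB : cj m B₁ = B₁ := by rw [hmdef, cj_mul, cj_mul, hb₁', hb₂B]
      have hM3 := hnorm B₁ hB₁R hs m hmA hmB
      have h6 : M B (m * b₁) := h3 B b₁ m hB hb₁ hmA (by rw [hb₁B]; exact hB₁R)
        (by rw [cj_mul, hb₁B, hmB]; exact hB₁R) hM1 (by rw [hb₁B]; exact hM3)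
      have h7 : cj (m * b₁) B = B₁ := by rw [cj_mul, hb₁B, hmB]
      have h8 : M B (b₂⁻¹ * (m * b₁)) := h3 B (m * b₁) b₂⁻¹ hB (mul_mem hmA hb₁)
        (Subgroup.inv_mem _ hb₂) (by rw [h7]; exact hB₁R) (by rw [cj_mul, h7, hb₂']; exact haB) h6
        (by rw [h7]; exact hM2')
      have h9 : b₂⁻¹ * (m * b₁) = a := by rw [hmdef]; group
      rwa [h9] at h8
  exact fun B a => key _ B a le_rfl

end Cfsg.Agent.H758
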