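import Cfsg.Agent.H758.PTop

/-!
# The product system at a subgroup linked to a nice subgroup (helper758)
-/

set_option autoImplicit false

namespace Cfsg.Agent.H758

open Cfsg Cfsg.FusionSystem Cfsg.Agent.H752 Cfsg.Agent.H750

variable {Ω : Type*} [Group Ω] {S T : Subgroup Ω} {p : ℕ} {F : FusionSystem S}
  {E : FusionSystem T} {D : FusionSystem S}

/-- `P` is linked to the nice subgroup `Q` by `ψ`. -/
structure Lk (F : FusionSystem S) (T P Q : Subgroup Ω) (ψ : Ω → Ω) : Prop where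
  mp : Mp F (normalizerIn S P ⊔ T) ψ
  le : P ≤ S
  im : ∀ y, y ∈ Q ↔ ∃ x ∈ P, ψ x = y
  fn : F.IsFullyNormalized Q
  fnT : F.IsFullyNormalized (Q ⊓ T)

variable {P Q : Subgroup Ω} {ψ : Ω → Ω}

theorem Lk.le_dom (h : Lk F T P Q ψ) : P ≤ normalizerIn S P ⊔ T :=
  (H802.le_normalizerIn h.le).trans le_sup_left

theorem Lk.mem_T (hT : F.StronglyClosed T) (h : Lk F T P Q ψ) {x : Ω}
    (hx : x ∈ normalizerIn S P ⊔ T) : ψ x ∈ T ↔ x ∈ T :=
  ⟨mp_mem_of_stronglyClosed' hT h.mp hx, mp_mem_of_stronglyClosed hT h.mp hx⟩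

/-- An element of the domain whose image normalizes `Q` normalizes `P`. -/
theorem Lk.mem_normalizer [Finite S] (h : Lk F T P Q ψ) {w : Ω} (hw : w ∈ normalizerIn S P ⊔ T)
    (hn : ψ w ∈ Subgroup.normalizer (Q : Set Ω)) : w ∈ normalizerIn S P := by
  refine ⟨h.mp.le hw, H802.mem_normalizer_of_conj_mem h.le fun x hx => ?_⟩
  have hxd := h.le_dom hx
  have h1 : ψ (w * x * w⁻¹) ∈ Q := by
    rw [mp_conj_eq h.mp hw hxd]
    exact (Subgroup.mem_normalizer_iff.1 hn _).1 ((h.im _).2 ⟨x, hx, rfl⟩)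
  obtain ⟨y, hy, hye⟩ := (h.im _).1 h1
  have h2 := h.mp.inj (h.le_dom hy) (mul_mem (mul_mem hw hxd) (Subgroup.inv_mem _ hw)) hye
  rwa [← h2]

theorem Lk.image_normalizer [Finite S] (h : Lk F T P Q ψ) {w : Ω} (hw : w ∈ normalizerIn S P) :
    ψ w ∈ normalizerIn S Q := by
  have hwd : w ∈ normalizerIn S P ⊔ T := (le_sup_left : normalizerIn S P ≤ _) hw
  refine ⟨h.mp.mem hwd, H802.mem_normalizer_of_conj_mem h.fn.1 fun y hy => ?_⟩
  obtain ⟨x, hx, rfl⟩ := (h.im y).1 hy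
  rw [← mp_conj_eq h.mp hwd (h.le_dom hx)]
  exact (h.im _).2 ⟨_, (Subgroup.mem_normalizer_iff.1 hw.2 x).1 hx, rfl⟩

theorem Lk.exists_T [Finite S] (hT : F.StronglyClosed T) (h : Lk F T P Q ψ) {y : Ω} (hy : y ∈ T) :
    ∃ x ∈ T, ψ x = y := by
  have hfT : Finite T := H802.finite_of_le hT.1
  exact (h.mp.res (le_sup_right : T ≤ _)).surj (fun x hx =>
    (h.mem_T hT ((le_sup_right : T ≤ normalizerIn S P ⊔ T) hx)).2 hx) hy

/-- **Extension of generators.** -/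
theorem GD.ext_linked [Finite S] [Fact p.Prime] (hS : IsPGroup p S) (hE : E.IsNormalIn F p)
    (hL : Lk F T P Q ψ) {κ : Ω → Ω} (hκ : GD p F E P κ) {N : Subgroup Ω} (hPN : P ≤ N)
    (hCN : centralizerIn S P ≤ N) (hN : N ≤ normalizerIn S P)
    (hV : ∀ n ∈ N, ∃ n' ∈ N, ∀ x ∈ P, κ (n * x * n⁻¹) = n' * κ x * n'⁻¹) :
    ∃ κ', GD p F E N κ' ∧ ∀ x ∈ P, κ' x = κ x := by
  have hF := hE.1.2.1
  have hT : F.StronglyClosed T := hE.1.2.2.2.1
  have hTS := hT.1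
  have hI : StrongInvC E F :=
    (isInvariantIn_iff_strongInvC hS hF hE.1.2.2.1 hT).1 hE.1.2.2
  have hPd := hL.le_dom
  have hNd : N ≤ normalizerIn S P ⊔ T := hN.trans le_sup_left
  obtain ⟨κ₁, hκ₁, hκ₁e⟩ := hκ.transport hT hI hL.mp hPd hL.im
  obtain ⟨N', hN', hN'S, -⟩ := hL.mp.exists_image hNd
  have hN'n : N' ≤ normalizerIn S Q := fun y hy => by
    obtain ⟨n, hn, rfl⟩ := (hN' y).1 hy
    exact hL.image_normalizer (hN hn)
  have hQS := hL.fn.1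
  have hQN' : Q ≤ N' := fun y hy => by
    obtain ⟨x, hx, rfl⟩ := (hL.im y).1 hy
    exact (hN' _).2 ⟨x, hPN hx, rfl⟩
  have hCn : centralizerIn S Q ≤ normalizerIn S Q := H802.centralizerIn_le_normalizerIn S Q
  have hCnn : normalizerIn S Q ≤ Subgroup.normalizer (centralizerIn S Q : Set Ω) := by
    intro g hg
    have hfC : Finite (centralizerIn S Q) := H802.finite_of_le inf_le_left
    refine H757.mem_normalizer_of_conj_mem fun c hc => ?_
    refine ⟨mul_mem (mul_mem hg.1 hc.1) (Subgroup.inv_mem _ hg.1),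
      Subgroup.mem_centralizer_iff.2 fun z hz => ?_⟩
    have h1 : g⁻¹ * z * g ∈ Q := by
      have := (Subgroup.mem_normalizer_iff.1 (Subgroup.inv_mem _ hg.2) z).1 hz
      simpa using this
    have h2 := Subgroup.mem_centralizer_iff.1 hc.2 _ h1
    calc z * (g * c * g⁻¹) = g * ((g⁻¹ * z * g) * c) * g⁻¹ := by group
      _ = g * (c * (g⁻¹ * z * g)) * g⁻¹ := by rw [h2]
      _ = g * c * g⁻¹ * z := by group
  set N₁ := N' ⊔ centralizerIn S Q with hN₁def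
  have hN₁n : N₁ ≤ normalizerIn S Q := sup_le hN'n hCn
  have hN₁m : ∀ x ∈ N₁, ∃ n ∈ N', ∃ c ∈ centralizerIn S Q, n * c = x := fun x hx =>
    (H759.mem_sup_of_normalizes (hN'n.trans hCnn)).1 hx
  obtain ⟨κ₂, hκ₂, hκ₂e⟩ := hκ₁.ext hS hE hL.fn hL.fnT (hQN'.trans le_sup_left)
    (le_sup_right : centralizerIn S Q ≤ N₁) hN₁n (by
      intro n₁ hn₁
      obtain ⟨n', hn', c, hc, rfl⟩ := hN₁m n₁ hn₁
      obtain ⟨n, hn, rfl⟩ := (hN' n').1 hn'
      obtain ⟨m, hm, hme⟩ := hV n hn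
      refine ⟨ψ m, (le_sup_left : N' ≤ N₁) ((hN' _).2 ⟨m, hm, rfl⟩), fun y hy => ?_⟩
      obtain ⟨x, hx, rfl⟩ := (hL.im y).1 hy
      have h2 : ψ n * c * ψ x * (ψ n * c)⁻¹ = ψ n * ψ x * (ψ n)⁻¹ := by
        have h3 := Subgroup.mem_centralizer_iff.1 hc.2 (ψ x) hy
        calc ψ n * c * ψ x * (ψ n * c)⁻¹ = ψ n * (c * ψ x) * c⁻¹ * (ψ n)⁻¹ := by group
          _ = ψ n * (ψ x * c) * c⁻¹ * (ψ n)⁻¹ := by rw [h3]
          _ = ψ n * ψ x * (ψ n)⁻¹ := by group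
      have hx' : n * x * n⁻¹ ∈ P := (Subgroup.mem_normalizer_iff.1 (hN hn).2 x).1 hx
      rw [h2, ← mp_conj_eq hL.mp (hNd hn) (hPd hx), hκ₁e _ hx', hme x hx, hκ₁e x hx,
        mp_conj_eq hL.mp (hNd hm) (hPd (hκ.pp.1 x hx))])
  -- restrict to the image of the domain
  obtain ⟨W, hW, hWS, -⟩ := hL.mp.exists_image (le_refl (normalizerIn S P ⊔ T))
  obtain ⟨ψi, hψi, hl, hr⟩ := hL.mp.exists_symm le_rfl hW
  have hTW : T ≤ W := fun y hy => by
    obtain ⟨x, hx, rfl⟩ := hL.exists_T hT hy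
    exact (hW _).2 ⟨x, (le_sup_right : T ≤ normalizerIn S P ⊔ T) hx, rfl⟩
  have hκ₃ := hκ₂.inf hTW
  have hN'W : N' ≤ W := fun y hy => by
    obtain ⟨n, hn, rfl⟩ := (hN' y).1 hy
    exact (hW _).2 ⟨n, hNd hn, rfl⟩
  have he : N₁ ⊓ W = N' := by
    refine le_antisymm ?_ (le_inf le_sup_left hN'W)
    rintro z ⟨hz, hzW⟩
    obtain ⟨w, hw, rfl⟩ := (hW z).1 hzW
    have hwn := hL.mem_normalizer hw (hN₁n hz).2
    obtain ⟨n', hn', c, hc, hnc⟩ := hN₁m _ hz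
    obtain ⟨n, hn, rfl⟩ := (hN' n').1 hn'
    have hnw : n⁻¹ * w ∈ normalizerIn S P := mul_mem (Subgroup.inv_mem _ (hN hn)) hwn
    have hnwd : n⁻¹ * w ∈ normalizerIn S P ⊔ T := (le_sup_left : normalizerIn S P ≤ _) hnw
    have h1 : ψ (n⁻¹ * w) = c := by
      rw [hL.mp.mul (Subgroup.inv_mem _ (hNd hn)) hw, hL.mp.inv (hNd hn), ← hnc]
      group
    have h2 : n⁻¹ * w ∈ centralizerIn S P := by
      refine ⟨hnw.1, Subgroup.mem_centralizer_iff.2 fun x hx => ?_⟩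
      have hxd := hPd hx
      refine hL.mp.inj (mul_mem hxd hnwd) (mul_mem hnwd hxd) ?_
      rw [hL.mp.mul hxd hnwd, hL.mp.mul hnwd hxd, h1]
      exact Subgroup.mem_centralizer_iff.1 hc.2 _ ((hL.im _).2 ⟨x, hx, rfl⟩)
    have h3 : w = n * (n⁻¹ * w) := by group
    exact (hN' _).2 ⟨w, by rw [h3]; exact mul_mem hn (hCN h2), rfl⟩
  rw [he] at hκ₃
  have hNim : ∀ y, y ∈ N ↔ ∃ x ∈ N', ψi x = y := by
    intro y
    constructor
    · intro hy
      exact ⟨ψ y, (hN' _).2 ⟨y, hy, rfl⟩, hl y (hNd hy)⟩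
    · rintro ⟨z, hz, rfl⟩
      obtain ⟨n, hn, rfl⟩ := (hN' z).1 hz
      rw [hl n (hNd hn)]
      exact hn
  obtain ⟨κ₄, hκ₄, hκ₄e⟩ := hκ₃.transport hT hI hψi hN'W hNim
  refine ⟨κ₄, hκ₄, fun x hx => ?_⟩
  have h1 := hκ₄e (ψ x) (hQN' ((hL.im _).2 ⟨x, hx, rfl⟩))
  rw [hl x (hPd hx), hκ₂e _ ((hL.im _).2 ⟨x, hx, rfl⟩), hκ₁e x hx,
    hl _ (hPd (hκ.pp.1 x hx))] at h1
  exact h1

/-- The isomorphism of automorphism groups. -/
theorem Lk.exists_equiv (h : Lk F T P Q ψ) : ∃ e : P ≃* Q, ∀ x : P, ((e x : Q) : Ω) = ψ x :=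
  (iso_of_mp h.mp h.le_dom h.im).exists_equiv

theorem sylIn_az [Finite S] [Fact p.Prime] (hS : IsPGroup p S) (hE : E.IsNormalIn F p)
    (hL : Lk F T P Q ψ) (hc : H756.TC F T (P ⊓ T)) :
    H802.SylIn p (autInducedBy T P ⊓ Az p F E P) (Az p F E P) := by
  have hF := hE.1.2.1
  have hT : F.StronglyClosed T := hE.1.2.2.2.1
  have hTS := hT.1
  have hI : StrongInvC E F :=
    (isInvariantIn_iff_strongInvC hS hF hE.1.2.2.1 hT).1 hE.1.2.2
  have hPd := hL.le_dom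
  obtain ⟨e, he⟩ := hL.exists_equiv
  have hcQ : H756.TC F T (Q ⊓ T) := cen_image hT hL.mp hPd hL.im hc
  have h1 := sylIn_map (MulAut.congr e).symm (sylIn_az_nice hS hE hL.fn hL.fnT hcQ)
  obtain ⟨ψi, hψi, hl, hr⟩ := hL.mp.exists_symm hPd hL.im
  have hes : ∀ y : Q, ((e.symm y : P) : Ω) = ψi y := by
    intro y
    obtain ⟨x, rfl⟩ := e.surjective y
    rw [e.symm_apply_apply, he, hl x x.2]
  have hPim : ∀ y, y ∈ P ↔ ∃ x ∈ Q, ψi x = y := fun y =>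
    ⟨fun hy => ⟨ψ y, (hL.im _).2 ⟨y, hy, rfl⟩, hl y hy⟩, fun ⟨z, hz, e⟩ => e ▸ (hr z hz).1⟩
  have hsymm : ∀ β : MulAut Q, (MulAut.congr e).symm β = MulAut.congr e.symm β := fun β => rfl
  have hcongr : ∀ α : MulAut P, (MulAut.congr e).symm (MulAut.congr e α) = α := fun α =>
    MulEquiv.symm_apply_apply _ _
  have hAz : (Az p F E Q).map (MulAut.congr e).symm.toMonoidHom = Az p F E P := by
    ext α
    constructor
    · rintro ⟨β, hβ, rfl⟩
      exact az_congr hT hI hψi le_rfl hPim hes hβ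
    · intro hα
      exact ⟨MulAut.congr e α, az_congr hT hI hL.mp hPd hL.im he hα, hcongr α⟩
  have hcj : ∀ (α : MulAut P) (t : Ω), t ∈ normalizerIn S P ⊔ T → H757.Cj t α →
      H757.Cj (ψ t) (MulAut.congr e α) := by
    intro α t ht hα y
    obtain ⟨x, rfl⟩ := e.surjective y
    have h3 : (MulAut.congr e α) (e x) = e (α x) := by simp [MulAut.congr]
    rw [h3, he, he, hα x, mp_conj_eq hL.mp ht (hPd x.2)]
  have hAT : (autInducedBy T Q).map (MulAut.congr e).symm.toMonoidHom = autInducedBy T P := by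
    ext α
    constructor
    · rintro ⟨β, hβ, rfl⟩
      obtain ⟨y, hy, hyβ⟩ := H757.exists_cj_of_mem hβ
      obtain ⟨t, ht, rfl⟩ := hL.exists_T hT hy
      have htd : t ∈ normalizerIn S P ⊔ T := (le_sup_right : T ≤ normalizerIn S P ⊔ T) ht
      have htn := hL.mem_normalizer htd hyβ.mem_normalizer
      obtain ⟨c, hc'⟩ := H757.exists_cj htn.2
      have h4 : MulAut.congr e c = β := (hcj c t htd hc').eq hyβ
      show (MulAut.congr e).symm β ∈ _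
      rw [← h4, hcongr]
      exact hc'.mem ht
    · intro hα
      obtain ⟨t, ht, htα⟩ := H757.exists_cj_of_mem hα
      have htd : t ∈ normalizerIn S P ⊔ T := (le_sup_right : T ≤ normalizerIn S P ⊔ T) ht
      exact ⟨MulAut.congr e α, (hcj α t htd htα).mem ((hL.mem_T hT htd).2 ht), hcongr α⟩
  rw [Subgroup.map_inf _ _ _ (MulAut.congr e).symm.injective, hAz, hAT] at h1
  exact h1

end Cfsg.Agent.H758
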