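import Cfsg.Agent.H758.PUniq

/-!
# The product of a normal subsystem with a subgroup (helper758)
-/

set_option autoImplicit false

namespace Cfsg.Agent.H758

open Cfsg Cfsg.FusionSystem Cfsg.Agent.H752 Cfsg.Agent.H750

variable {Ω : Type*} [Group Ω] {S T R : Subgroup Ω} {p : ℕ} {F : FusionSystem S}
  {E : FusionSystem T}

theorem product_main [Finite S] [Fact p.Prime] (hS : IsPGroup p S) (hE : E.IsNormalIn F p)
    (hTR : T ≤ R) (hRS : R ≤ S) : ∃ D : FusionSystem R, Good p F E D ∧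
      ∀ D' : FusionSystem R, Good p F E D' → ∀ P : Subgroup Ω, D'.Hom P = D.Hom P := by
  have hEs : E.IsSaturated p := hE.1.1
  have hF := hE.1.2.1
  have hInv := hE.1.2.2
  have hT : F.StronglyClosed T := hInv.2.1
  have hTS := hT.1
  have hfT : Finite T := H802.finite_of_le hTS
  have hTp : IsPGroup p T := isPGroup_mono hS hTS
  have hfR : Finite R := H802.finite_of_le hRS
  have hRp : IsPGroup p R := isPGroup_mono hS hRS
  have hI : StrongInvC E F := (isInvariantIn_iff_strongInvC hS hF hInv.1 hT).1 hInv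
  -- the product system `W = E S`
  set W := prodSys (p := p) hT hI with hWdef
  have hD : ∀ P f, Mp W P f ↔ DP p F E P f := fun P f => mp_prodSys
  have hWF : W.IsSubsystemOf F := prodSys_le hT hI
  have hWs : W.IsSaturated p := sat_prod hD hS hE hWF
  have hEW : E.HasPPowerIndexIn W p := prodSys_index hS hT hI hInv hEs
  have hTW : W.StronglyClosed T := ⟨hTS, fun P hP φ hφ x => hT.2 P hP φ (hWF P hφ) x⟩
  have hWh : W.hyperfocalSubgroup p = E.hyperfocalSubgroup p := hyperfocal_eq hS hWs hEs hTW hEW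
  have hAT : E.hyperfocalSubgroup p ≤ T := H747.hyperfocal_le_base E p
  have hAR := hAT.trans hTR
  have hfA : Finite (E.hyperfocalSubgroup p) := H802.finite_of_le (hAT.trans hTS)
  obtain ⟨D, ⟨hDs, hDi⟩, -⟩ := S5113.result p hS W hWs R hRS (hWh.le.trans hAR)
  obtain ⟨d1, d2, d3⟩ := (pPower_iff hRS).1 hDi
  obtain ⟨w1, w2, w3⟩ := (pPower_iff hTS).1 hEW
  have hDF : D.IsSubsystemOf F := fun P φ hφ => hWF P (d1 P hφ)
  have hED : E.HasPPowerIndexIn D p := by
    refine (pPower_iff hTR).2 ⟨hom_subset_of_mp (le_of_pPower hS hTR hRS hEs (fun P f hf =>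
      mp_mono w1 hf) hDi), fun P f hf hpp => w2 P f (mp_mono d1 hf) hpp,
      fun P f hP hf hpp => w3 P f hP (mp_mono d1 hf) hpp⟩
  refine ⟨D, good_of_pPower hS hT hEs hTR hRS hDs hDF hED, fun D' hD' P => ?_⟩
  obtain ⟨hD's, hD'F, hD'h, hD'r⟩ := hD'
  -- the residual
  obtain ⟨E₁, ⟨hE₁s, hE₁i⟩, -⟩ := S5113.result p hTp E hEs (E.hyperfocalSubgroup p) hAT le_rfl
  have hres : E.IsPResidual p E₁ := ⟨hE₁s, hE₁i⟩
  have hAF : F.StronglyClosed (E.hyperfocalSubgroup p) := res_stronglyClosed hS hInv hEs hres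
  have hI₁ : StrongInvC E₁ F := res_strongInv hS hInv hEs hres
  have hE₁W : E₁.HasPPowerIndexIn W p := pPower_trans hTS hAT hEW hE₁i hWh.le
  obtain ⟨v1, v2, v3⟩ := (pPower_iff (hAT.trans hTS)).1 hE₁W
  have hE₁D' : E₁.HasPPowerIndexIn D' p := by
    have hle' : D'.hyperfocalSubgroup p ≤ R := H747.hyperfocal_le_base D' p
    obtain ⟨D₁, ⟨hD₁s, hD₁i⟩, -⟩ := S5113.result p hRp D' hD's (D'.hyperfocalSubgroup p)
      hle' le_rfl
    have heq := hD'r D₁ E₁ ⟨hD₁s, hD₁i⟩ hres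
    obtain ⟨u1, u2, u3⟩ := (pPower_iff hle').1 hD₁i
    refine (pPower_iff hAR).2 ⟨fun P φ hφ => u1 P (by rw [heq]; exact hφ), fun P f hf hpp x hx => ?_,
      fun P f hP hf hpp => ?_⟩
    · rw [← hD'h]
      exact u2 P f hf hpp x hx
    · obtain ⟨φ, hφ, h⟩ := u3 P f (by rw [hD'h]; exact hP) hf hpp
      exact ⟨φ, by rw [← heq]; exact hφ, h⟩
  have hW' : ∀ P f, Mp D' P f → Mp W P f :=
    le_prod hD hS hE hWF hWs hAF hI₁ v1 v2 hAR hRS hD's hD'F hE₁D'
  have hD'D : ∀ P f, Mp D' P f → Mp D P f := le_of_pPower hS le_rfl hRS hD's hW' hDi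
  have hE₁D : E₁.HasPPowerIndexIn D p := by
    refine (pPower_iff hAR).2 ⟨hom_subset_of_mp (le_of_pPower hS hAR hRS hE₁s (fun P f hf =>
      mp_mono v1 hf) hDi), fun P f hf hpp => v2 P f (mp_mono d1 hf) hpp,
      fun P f hP hf hpp => v3 P f hP (mp_mono d1 hf) hpp⟩
  have hAD : D.StronglyClosed (E.hyperfocalSubgroup p) :=
    ⟨hAR, fun P hP φ hφ x => hAF.2 P hP φ (hDF P hφ) x⟩
  have hI₁D : StrongInvC E₁ D := fun P Q R f g h h1 h2 h3 h4 h5 h6 =>
    hI₁ P Q R f g h h1 h2 h3 h4 (mp_mono hDF h5) h6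
  have hDD' := le_of_index hRp hAD hDs hI₁D hE₁D hD's (hom_subset_of_mp hD'D) hE₁D'
  exact Set.Subset.antisymm (hom_subset_of_mp hD'D P) (hom_subset_of_mp hDD' P)

end Cfsg.Agent.H758
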