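import Cfsg.Agent.H758.PClass
import Cfsg.Agent.H758.ProdOf

/-!
# The residual of an invariant subsystem is invariant (helper758)
-/

set_option autoImplicit false

namespace Cfsg.Agent.H758

open Cfsg Cfsg.FusionSystem Cfsg.Agent.H752

variable {Ω : Type*} [Group Ω] {S T : Subgroup Ω} {p : ℕ} {F : FusionSystem S}
  {E : FusionSystem T}

/-- The hyperfocal subgroup of an invariant subsystem is mapped to itself by the automorphisms of `T` in `F`. -/
theorem res_image [Finite S] (hE : E.IsInvariantIn F) {a : Ω → Ω} (ha : Mp F T a) {x : Ω}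
    (hx : x ∈ E.hyperfocalSubgroup p) : a x ∈ E.hyperfocalSubgroup p := by
  have hT := hE.2.1
  have hTS := hT.1
  have hfT : Finite T := H802.finite_of_le hTS
  have hI : InvC E F := (isInvariantIn_iff.1 hE).2.2.1
  let H : Subgroup Ω :=
    { carrier := {x | x ∈ T ∧ a x ∈ E.hyperfocalSubgroup p}
      one_mem' := ⟨one_mem _, by rw [ha.one]; exact one_mem _⟩
      mul_mem' := by
        rintro x y ⟨hx, hx'⟩ ⟨hy, hy'⟩
        exact ⟨mul_mem hx hy, by rw [ha.mul hx hy]; exact mul_mem hx' hy'⟩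
      inv_mem' := by
        rintro x ⟨hx, hx'⟩
        exact ⟨Subgroup.inv_mem _ hx, by rw [ha.inv hx]; exact Subgroup.inv_mem _ hx'⟩ }
  suffices h : E.hyperfocalSubgroup p ≤ H from (h hx).2
  refine hyperfocal_le_of_pp fun P f hf hpp x hx => ?_
  have hPT : P ≤ T := hf.le
  have haP := ha.res hPT
  obtain ⟨P', hP', -, -⟩ := haP.exists_image le_rfl
  obtain ⟨f', hf', hpp', hfe⟩ := pp_transport (p := p) (ψ := a) haP le_rfl hP' (mp_mono hE.1 hf) hpp
  have hfE : Mp E P' f' := by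
    refine hI P P' f a f' hf ha fun y hy => ?_
    obtain ⟨x, hx, rfl⟩ := (hP' y).1 hy
    exact ⟨x, hx, rfl, hfe x hx⟩
  have hfP' : Finite P' := H802.finite_of_le hfE.le
  have h1 := mem_hyperfocal_of_pp hfE hpp' ((hP' _).2 ⟨x, hx, rfl⟩)
  rw [hfe x hx] at h1
  refine ⟨mul_mem (Subgroup.inv_mem _ (hPT hx)) (hf.mem hx), ?_⟩
  rw [ha.mul (Subgroup.inv_mem _ (hPT hx)) (hf.mem hx), ha.inv (hPT hx)]
  exact h1

variable [Finite S] [Fact p.Prime]

/-- Properties of the residual inside `E`. -/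
theorem res_normal (hS : IsPGroup p S) (hTS : T ≤ S) (hEs : E.IsSaturated p)
    {E₁ : FusionSystem (E.hyperfocalSubgroup p)} (h1 : E.IsPResidual p E₁) :
    E₁.IsNormalIn E p := by
  have hfT : Finite T := H802.finite_of_le hTS
  have hI : E.IsInvariantIn E := by
    refine (isInvariantIn_iff_strongInvC (isPGroup_mono hS hTS) hEs (isSubsystemOf_self E)
      ⟨le_rfl, fun P hP φ hφ x => (E.le_of_mem hφ).2 x⟩).2 ?_
    intro P Q R f g h hPQ hQT hf hfQ hg hR
    have hcl : ∀ y ∈ R, ∃ x, x ∈ P ∧ g x = y ∧ h y = g (f x) := fun y hy => by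
      obtain ⟨x, hx, h1, h2⟩ := hR y hy
      exact ⟨x, hx, h1, h2⟩
    obtain ⟨R', hR', -, -⟩ := hg.exists_image hPQ
    obtain ⟨g', hg', hl, hr⟩ := hg.exists_symm hPQ hR'
    have hRR' : R ≤ R' := fun y hy => by
      obtain ⟨x, hx, h1, -⟩ := hR y hy
      exact (hR' y).2 ⟨x, hx, h1⟩
    refine (((hg'.comp hf fun y hy => (hr y hy).1).comp hg fun y hy =>
      hfQ _ (hr y hy).1).res hRR').congr fun y hy => ?_
    obtain ⟨x, hx, rfl, h2⟩ := hR y hy
    rw [h2, hl x hx]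
  exact isNormalIn_of_pPowerIndex (isPGroup_mono hS hTS) hEs (H747.hyperfocal_le_base E p)
    (fun s hs t ht => hyperfocal_conj_mem hI hs t ht) le_rfl h1.1 h1.2

theorem res_stronglyClosed (hS : IsPGroup p S) (hE : E.IsInvariantIn F) (hEs : E.IsSaturated p)
    {E₁ : FusionSystem (E.hyperfocalSubgroup p)} (h1 : E.IsPResidual p E₁) :
    F.StronglyClosed (E.hyperfocalSubgroup p) := by
  have hT := hE.2.1
  have hTS := hT.1
  have hfT : Finite T := H802.finite_of_le hTS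
  have hle : E.hyperfocalSubgroup p ≤ T := H747.hyperfocal_le_base E p
  have hAE : E.StronglyClosed (E.hyperfocalSubgroup p) := (res_normal hS hTS hEs h1).1.2.2.2.1
  have hfr := (isInvariantIn_iff.1 hE).2.2.2
  refine ⟨hle.trans hTS, fun P hP φ hφ x => ?_⟩
  obtain ⟨a, ha, f₀, hf₀, he⟩ := hfr P (ex φ) (hP.trans hle) (mp_ex hφ)
  have h2 : φ x = a (f₀ x) := by rw [← ex_coe φ x, he x x.2]
  rw [h2]
  exact res_image hE ha (mp_mem_of_stronglyClosed hAE hf₀ x.2 (hP x.2))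

theorem res_strongInv (hS : IsPGroup p S) (hE : E.IsInvariantIn F) (hEs : E.IsSaturated p)
    {E₁ : FusionSystem (E.hyperfocalSubgroup p)} (h1 : E.IsPResidual p E₁) :
    StrongInvC E₁ F := by
  have hT := hE.2.1
  have hTS := hT.1
  have hfT : Finite T := H802.finite_of_le hTS
  have hle : E.hyperfocalSubgroup p ≤ T := H747.hyperfocal_le_base E p
  have hn := res_normal hS hTS hEs h1
  have hAE : E.StronglyClosed (E.hyperfocalSubgroup p) := hn.1.2.2.2.1
  have hfA : Finite (E.hyperfocalSubgroup p) := H802.finite_of_le (hle.trans hTS)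
  have hfr := (isInvariantIn_iff.1 hE).2.2.2
  have hI : InvC E F := (isInvariantIn_iff.1 hE).2.2.1
  have hE₁E : StrongInvC E₁ E :=
    (isInvariantIn_iff_strongInvC (isPGroup_mono hS hTS) hEs hn.1.2.2.1 hAE).1 hn.1.2.2
  obtain ⟨k1, k2, k3⟩ := (pPower_iff hle).1 h1.2
  -- conjugation by automorphisms of `T`
  have key : ∀ a : Ω → Ω, Mp F T a → ∀ (P : Subgroup Ω) (f : Ω → Ω), Mp E₁ P f →
      ∀ (R : Subgroup Ω) (h : Ω → Ω), (∀ y ∈ R, ∃ x ∈ P, a x = y ∧ h y = a (f x)) →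
        Mp E₁ R h := by
    intro a ha
    have haA := ha.res hle
    have hpred : SysPred E₁ (E.hyperfocalSubgroup p) (fun P f => Mp E₁ P f ∧
        ∀ (R : Subgroup Ω) (h : Ω → Ω), (∀ y ∈ R, ∃ x ∈ P, a x = y ∧ h y = a (f x)) →
          Mp E₁ R h) := by
      refine ⟨fun h => h.1, fun h => h.1.le, fun h x hx => h.1.mem hx, ?_, ?_, ?_, ?_⟩
      · rintro P f g ⟨h2, h3⟩ he
        refine ⟨h2.congr he, fun R h hR => h3 R h fun y hy => ?_⟩
        obtain ⟨x, hx, h4, h5⟩ := hR y hy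
        exact ⟨x, hx, h4, by rw [h5, he x hx]⟩
      · intro P t hP ht
        refine ⟨mp_conj E₁ hP ht, fun R h hR => ?_⟩
        have hRA : R ≤ E.hyperfocalSubgroup p := fun y hy => by
          obtain ⟨x, hx, rfl, -⟩ := hR y hy
          exact res_image hE ha (hP hx)
        refine (mp_conj E₁ hRA (res_image hE ha ht)).congr fun y hy => ?_
        obtain ⟨x, hx, rfl, h2⟩ := hR y hy
        rw [h2]
        exact mp_conj_eq haA ht (hP hx)
      · rintro P Q f g ⟨hf, hf'⟩ ⟨hg, hg'⟩ hm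
        refine ⟨hf.comp hg hm, fun R h hR => ?_⟩
        classical
        have hch : ∀ y ∈ R, ∃ x, x ∈ P ∧ a x = y ∧ h y = a (g (f x)) := fun y hy => by
          obtain ⟨x, hx, h1, h2⟩ := hR y hy
          exact ⟨x, hx, h1, h2⟩
        choose! inv hi1 hi2 hi3 using hch
        have h2 : Mp E₁ R (fun y => a (f (inv y))) := hf' R _ fun y hy =>
          ⟨inv y, hi1 y hy, hi2 y hy, rfl⟩
        obtain ⟨R', hR', -, -⟩ := (haA.res hg.le).exists_image le_rfl
        obtain ⟨ai, hai, hl, hr⟩ := (haA.res hg.le).exists_symm le_rfl hR'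
        have h3 : Mp E₁ R' (fun z => a (g (ai z))) := hg' R' _ fun z hz => by
          obtain ⟨x, hx, rfl⟩ := (hR' z).1 hz
          exact ⟨x, hx, rfl, by rw [hl x hx]⟩
        refine (h2.comp h3 fun y hy => (hR' _).2 ⟨_, hm _ (hi1 y hy), rfl⟩).congr fun y hy => ?_
        show h y = a (g (ai (a (f (inv y)))))
        rw [hl _ (hm _ (hi1 y hy)), hi3 y hy]
      · rintro P R f g ⟨hf, hf'⟩ hR hg
        refine ⟨hf.symm fun y hy => ?_, fun R₂ h hR₂ => ?_⟩
        · obtain ⟨x, hx, rfl⟩ := (hR y).1 hy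
          exact ⟨x, hx, rfl, hg x hx⟩
        · obtain ⟨P', hP', -, -⟩ := (haA.res hf.le).exists_image le_rfl
          obtain ⟨ai, hai, hl, hr⟩ := (haA.res hf.le).exists_symm le_rfl hP'
          have h3 : Mp E₁ P' (fun z => a (f (ai z))) := hf' P' _ fun z hz => by
            obtain ⟨x, hx, rfl⟩ := (hP' z).1 hz
            exact ⟨x, hx, rfl, by rw [hl x hx]⟩
          refine h3.symm fun y hy => ?_
          obtain ⟨z, hz, rfl, h4⟩ := hR₂ y hy
          obtain ⟨x, hx, rfl⟩ := (hR z).1 hz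
          refine ⟨a x, (hP' _).2 ⟨x, hx, rfl⟩, ?_, ?_⟩
          · show a (f (ai (a x))) = a (f x)
            rw [hl x hx]
          · rw [h4, hg x hx]
    have hAp : IsPGroup p (E.hyperfocalSubgroup p) := isPGroup_mono hS (hle.trans hTS)
    intro P f hf
    obtain ⟨φ, hφ, hφf⟩ := hf
    have h2 := H802.le_of_centric hAp h1.1 (subSys hpred) (fun Q hQ hQc _ => ?_) P hφ
    · have h3 := (mp_subSys hpred).1 (⟨φ, h2, hφf⟩ : Mp (subSys hpred) P f)
      exact h3.2
    · have hQA := hQ.1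
      have hfQ : Finite Q := H802.finite_of_le hQA
      have hfM := finite_mulAut Q
      have hsyl := H750.sylIn_of_isFullyAutomized
        (H802.isFullyAutomized_of_isFullyNormalized hAp h1.1 hQ)
      refine le_of_sylIn_of_coprime hsyl (H802.autInducedBy_le_autGroup _ hQA) fun α hα hc => ?_
      have hαE := (mp_iff_autGroup hQA α).1 hα
      rw [mp_iff_autGroup hQA]
      refine (mp_subSys hpred).2 ⟨hαE, fun R h hR => ?_⟩
      have hval : ∀ (x : Ω) (hx : x ∈ Q), ex (fun x => ((α x : Q) : Ω)) x = (α ⟨x, hx⟩ : Q) :=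
        fun x hx => ex_apply _ hx
      have hpp := pp_of_aut hval hc
      obtain ⟨Q', hQ', -, -⟩ := (haA.res hQA).exists_image le_rfl
      obtain ⟨f', hf', hpp', hfe⟩ := pp_transport (p := p) (ψ := a) (haA.res hQA) le_rfl hQ'
        (mp_mono hE.1 (mp_mono k1 hαE)) hpp
      have hfE : Mp E Q' f' := by
        refine hI Q Q' _ a f' (mp_mono k1 hαE) ha fun y hy => ?_
        obtain ⟨x, hx, rfl⟩ := (hQ' y).1 hy
        exact ⟨x, hx, rfl, hfe x hx⟩
      have hQ'A : Q' ≤ E.hyperfocalSubgroup p := fun y hy => by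
        obtain ⟨x, hx, rfl⟩ := (hQ' y).1 hy
        exact res_image hE ha (hQA hx)
      have h2 := k3 Q' f' hQ'A hfE hpp'
      have hRQ' : R ≤ Q' := fun y hy => by
        obtain ⟨x, hx, h3, -⟩ := hR y hy
        exact (hQ' y).2 ⟨x, hx, h3⟩
      refine (h2.res hRQ').congr fun y hy => ?_
      obtain ⟨x, hx, rfl, h3⟩ := hR y hy
      rw [h3, hfe x hx]
  -- general maps
  intro P Q R f g h hPQ hQA hf hfQ hg hR
  obtain ⟨a, ha, e, he, hge⟩ := hfr Q g (hQA.trans hle) hg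
  obtain ⟨P', hP', -, -⟩ := he.exists_image hPQ
  obtain ⟨ei, hei, hl, hr⟩ := he.exists_symm hPQ hP'
  have h2 : Mp E₁ P' (fun y => e (f (ei y))) := by
    refine hE₁E P Q P' f e _ hPQ hQA hf hfQ he fun y hy => ?_
    obtain ⟨x, hx, rfl⟩ := (hP' y).1 hy
    exact ⟨x, hx, rfl, by rw [hl x hx]⟩
  refine key a ha P' _ h2 R h fun y hy => ?_
  obtain ⟨x, hx, rfl, h3⟩ := hR y hy
  refine ⟨e x, (hP' _).2 ⟨x, hx, rfl⟩, (hge x (hPQ hx)).symm, ?_⟩
  rw [h3, hge _ (hfQ x hx), hl x hx]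

end Cfsg.Agent.H758
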