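import Cfsg.Agent.H758.PLoc
import Cfsg.Agent.H750.SatCritE

/-!
# The product system is saturated (helper758)
-/

set_option autoImplicit false

namespace Cfsg.Agent.H758

open Cfsg Cfsg.FusionSystem Cfsg.Agent.H752 Cfsg.Agent.H750

variable {Ω : Type*} [Group Ω] {S T : Subgroup Ω} {p : ℕ} {F : FusionSystem S}
  {E : FusionSystem T} {D : FusionSystem S}

/-- The property of an automorphism to lie in the group generated by the generators and `Aut_S(P)`. -/
theorem am_sup [Finite S] {P : Subgroup Ω} (hPS : P ≤ S) :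
    AM p F E D P (fun f => ∃ γ ∈ Az p F E P ⊔ autInducedBy S P, ∀ x ∈ P, f x = fn γ x) where
  congr := by
    rintro f g he ⟨γ, hγ, h⟩
    exact ⟨γ, hγ, fun x hx => (he x hx).trans (h x hx)⟩
  comp := by
    rintro f g hf hg ⟨γ, hγ, h⟩ ⟨δ, hδ, h'⟩
    refine ⟨δ * γ, mul_mem hδ hγ, fun x hx => ?_⟩
    show g (f x) = _
    rw [h' _ (hf.mem hx), h x hx, fn_mul _ _ hx]
  inv := by
    rintro f g hf hg he ⟨γ, hγ, h⟩
    refine ⟨γ⁻¹, Subgroup.inv_mem _ hγ, fun y hy => ?_⟩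
    obtain ⟨x, hx, rfl⟩ := hf.surj hy
    rw [he x hx, h x hx, fn_inv_fn γ hx]
  gd := by
    intro κ hκ
    have hfP : Finite P := H802.finite_of_le hPS
    obtain ⟨γ, hγ, h⟩ := hκ.mp.exists_aut hκ.pp.1
    have h1 : ∀ x ∈ P, κ x = fn γ x := fun x hx => by rw [fn_apply γ hx, h x hx]
    exact ⟨γ, (le_sup_left : Az p F E P ≤ _) (Subgroup.subset_closure
      (hκ.congr fun x hx => (h1 x hx).symm)), h1⟩
  conj := by
    intro s hs
    obtain ⟨c, hc⟩ := H757.exists_cj hs.2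
    refine ⟨c, (le_sup_right : autInducedBy S P ≤ _) (hc.mem hs.1), fun x hx => ?_⟩
    show s * x * s⁻¹ = _
    rw [fn_apply c hx, hc ⟨x, hx⟩]

variable [Finite S] [Fact p.Prime] {P Q : Subgroup Ω} {ψ : Ω → Ω}

theorem aut_le_top (hD : ∀ P f, Mp D P f ↔ DP p F E P f) (hS : IsPGroup p S)
    (hE : E.IsNormalIn F p) (hDF : D.IsSubsystemOf F) (hPS : P ≤ S)
    (hcen : H756.TC F T (P ⊓ T)) (hbig : Big p D (Nat.card P)) (hlt : Nat.card P < Nat.card S)
    (htop : ∀ Q, D.IsConj P Q → Arr D Q P) {α : MulAut P} (hα : α ∈ D.autGroup P) :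
    ∃ c ∈ autInducedBy S P, ∃ a ∈ Az p F E P, c * a = α := by
  have hF := hE.1.2.1
  have hT : F.StronglyClosed T := hE.1.2.2.2.1
  have hI : StrongInvC E F :=
    (isInvariantIn_iff_strongInvC hS hF hE.1.2.2.1 hT).1 hE.1.2.2
  obtain ⟨f, hf, hfe⟩ := exists_iso_of_aut hPS hα
  obtain ⟨γ, hγ, h⟩ := aut_top hD hS hT hI hDF (am_sup hPS) hcen hbig hlt htop hf
  have h1 : γ = α := by
    ext x
    rw [← hfe x, h x x.2, fn_apply γ x.2]
  rw [h1] at hγ
  have hfP : Finite P := H802.finite_of_le hPS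
  have hfM := finite_mulAut P
  have h2 : autInducedBy S P ≤ Subgroup.normalizer (Az p F E P : Set (MulAut P)) := fun c hc =>
    H757.mem_normalizer_of_conj_mem fun k hk =>
      az_normal hT hI hPS (H802.autInducedBy_le_autGroup F hPS hc) hk
  rw [sup_comm] at hγ
  exact (H759.mem_sup_of_normalizes h2).1 hγ

theorem sylIn_top (hD : ∀ P f, Mp D P f ↔ DP p F E P f) (hS : IsPGroup p S)
    (hE : E.IsNormalIn F p) (hDF : D.IsSubsystemOf F) (hL : Lk F T P Q ψ)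
    (hcen : H756.TC F T (P ⊓ T)) (hbig : Big p D (Nat.card P)) (hlt : Nat.card P < Nat.card S)
    (htop : ∀ Q, D.IsConj P Q → Arr D Q P) :
    H802.SylIn p (autInducedBy S P) (D.autGroup P) := by
  have hPS := hL.le
  have hT : F.StronglyClosed T := hE.1.2.2.2.1
  have hfP : Finite P := H802.finite_of_le hPS
  have hfM := finite_mulAut P
  obtain ⟨X, hX, hsyl⟩ := H802.exists_sylIn (p := p) (B := autInducedBy S P)
    (K := D.autGroup P) (H802.autInducedBy_le_autGroup D hPS) (H802.isPGroup_autInducedBy hS P)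
  have h1 : X ⊓ Az p F E P = autInducedBy T P ⊓ Az p F E P := by
    refine (sylIn_az hS hE hL hcen).eq_of_le inf_le_right
      (hsyl.isPGroup.to_le inf_le_left) (inf_le_inf_right _ fun c hc => hX ?_)
    obtain ⟨g, hg, h⟩ := H757.exists_cj_of_mem hc
    exact h.mem (hT.1 hg)
  have h2 : X = autInducedBy S P := by
    refine le_antisymm (fun σ hσ => ?_) hX
    obtain ⟨c, hc, a, ha, rfl⟩ := aut_le_top hD hS hE hDF hPS hcen hbig hlt htop (hsyl.le hσ)
    have h3 : a ∈ X := by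
      have h4 : a = c⁻¹ * (c * a) := by group
      rw [h4]
      exact mul_mem (Subgroup.inv_mem _ (hX hc)) hσ
    have h5 : a ∈ autInducedBy T P ⊓ Az p F E P := by rw [← h1]; exact ⟨h3, ha⟩
    obtain ⟨g, hg, h⟩ := H757.exists_cj_of_mem h5.1
    exact mul_mem hc (h.mem (hT.1 hg))
  rwa [h2] at hsyl

/-! ### Extensions -/

/-- `α` extends to a subgroup containing all elements of `N_S(P)` which induce elements of `B`. -/
def Me (D : FusionSystem S) (P : Subgroup Ω) (B : Subgroup (MulAut P)) (α : MulAut P) : Prop :=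
  ∃ (N : Subgroup Ω) (f : Ω → Ω), Mp D N f ∧ P ≤ N ∧ N ≤ normalizerIn S P ∧
    (∀ g ∈ normalizerIn S P, ∀ c ∈ B, H757.Cj g c → g ∈ N) ∧ ∀ x ∈ P, f x = fn α x

omit [Finite S] in
theorem cj_image {N : Subgroup Ω} {f : Ω → Ω} (hf : Mp D N f) (hPN : P ≤ N) {a : MulAut P}
    (hfa : ∀ x ∈ P, f x = fn a x) {g : Ω} (hg : g ∈ N) {c : MulAut P} (hc : H757.Cj g c) :
    H757.Cj (f g) (a * c * a⁻¹) := by
  intro y
  obtain ⟨x, rfl⟩ := a.surjective y
  have h1 : (a * c * a⁻¹) (a x) = a (c x) := by simp [MulAut.mul_apply]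
  have h2 : ∀ x : P, ((a x : P) : Ω) = f x := fun x => by rw [hfa x x.2, fn_apply a x.2]
  rw [h1, h2, h2, hc x, mp_conj_eq hf hg (hPN x.2)]

theorem me_all (hD : ∀ P f, Mp D P f ↔ DP p F E P f) (hS : IsPGroup p S)
    (hE : E.IsNormalIn F p) (hL : Lk F T P Q ψ) (hcen : H756.TC F T (P ⊓ T))
    (hsyl : H802.SylIn p (autInducedBy S P) (D.autGroup P)) :
    ∀ (B : Subgroup (MulAut P)) (a : MulAut P), B ≤ autInducedBy S P → a ∈ D.autGroup P →
      cj a B ≤ autInducedBy S P → Me D P B a := by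
  have hPS := hL.le
  have hF := hE.1.2.1
  have hT : F.StronglyClosed T := hE.1.2.2.2.1
  have hI : StrongInvC E F :=
    (isInvariantIn_iff_strongInvC hS hF hE.1.2.2.1 hT).1 hE.1.2.2
  have hfP : Finite P := H802.finite_of_le hPS
  have hfM := finite_mulAut P
  have hPN := H802.le_normalizerIn hPS
  -- images of elements of the domain
  have himg : ∀ (N : Subgroup Ω) (f : Ω → Ω) (a : MulAut P), Mp D N f → P ≤ N →
      N ≤ normalizerIn S P → (∀ x ∈ P, f x = fn a x) → ∀ x ∈ N, f x ∈ normalizerIn S P := by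
    intro N f a hf hPN hN hfa x hx
    obtain ⟨c, hc⟩ := H757.exists_cj (hN hx).2
    exact ⟨hf.mem hx, (cj_image hf hPN hfa hx hc).mem_normalizer⟩
  refine alperin_ext hsyl (Me D P) ?_ ?_ ?_ ?_ ?_
  · -- elements induced by `S`
    intro B _ r hr
    obtain ⟨s, hs, hsr⟩ := H757.exists_cj_of_mem hr
    refine ⟨normalizerIn S P, fun x => s * x * s⁻¹, mp_conj D inf_le_left hs, hPN, le_rfl,
      fun g hg _ _ _ => hg, fun x hx => ?_⟩
    rw [fn_apply r hx, hsr ⟨x, hx⟩]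
  · -- `p'`-elements
    intro B hB c hc hcc hcB
    have h1 : DP p F E P (fn c) := (hD _ _).1 ((mp_iff_autGroup hPS c).1 hc)
    have h2 := gd_of_pp hS hT hI h1 (pp_of_aut (fun x hx => fn_apply c hx) hcc) hcen
    obtain ⟨κ, hκ, hκe⟩ := h2.ext_linked hS hE hL (le_nb hPS) centralizer_le_nb nb_le
      (nb_hyp hPS hB fun b hb => by
        rw [← hcB]
        exact ⟨b, hb, rfl⟩)
    exact ⟨Nb S P B, κ, (hD _ _).2 (NN.of_gd hκ).dp, le_nb hPS, nb_le, fun g hg d hd hgd =>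
      ⟨hg, d, (le_sup_left : B ≤ _) hd, hgd⟩, hκe⟩
  · -- composition
    rintro B a b hB ha hb haB hbaB ⟨N, f, hf, hPN, hN, hNB, hfa⟩ ⟨N', f', hf', hPN', hN', hNB', hfb⟩
    let N'' : Subgroup Ω :=
      { carrier := {x | x ∈ N ∧ f x ∈ N'}
        one_mem' := ⟨one_mem _, by rw [hf.one]; exact one_mem _⟩
        mul_mem' := by
          rintro x y ⟨hx, hx'⟩ ⟨hy, hy'⟩
          exact ⟨mul_mem hx hy, by rw [hf.mul hx hy]; exact mul_mem hx' hy'⟩
        inv_mem' := by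
          rintro x ⟨hx, hx'⟩
          exact ⟨Subgroup.inv_mem _ hx, by rw [hf.inv hx]; exact Subgroup.inv_mem _ hx'⟩ }
    have hle : N'' ≤ N := fun x hx => hx.1
    refine ⟨N'', fun x => f' (f x), (hf.res hle).comp hf' fun x hx => hx.2, fun x hx =>
      ⟨hPN hx, hPN' ?_⟩, hle.trans hN, fun g hg c hc hgc => ?_, fun x hx => ?_⟩
    · rw [hfa x hx]
      exact fn_mem a hx
    · have hgN := hNB g hg c hc hgc
      exact ⟨hgN, hNB' _ (himg N f a hf hPN hN hfa g hgN) _ ⟨c, hc, rfl⟩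
        (cj_image hf hPN hfa hgN hgc)⟩
    · show f' (f x) = _
      rw [hfa x hx, hfb _ (fn_mem a hx), fn_mul _ _ hx]
  · -- restriction
    rintro B C a hBC - - - ⟨N, f, hf, hPN, hN, hNC, hfa⟩
    exact ⟨N, f, hf, hPN, hN, fun g hg c hc hgc => hNC g hg c (hBC hc) hgc, hfa⟩
  · -- inverse
    rintro B a hB ha haB ⟨N, f, hf, hPN, hN, hNB, hfa⟩
    obtain ⟨N', hN', -, -⟩ := hf.exists_image le_rfl
    obtain ⟨g, hg, hl, hr⟩ := hf.exists_symm le_rfl hN'
    have hCN : centralizerIn S P ≤ N := fun z hz => hNB z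
      (H802.centralizerIn_le_normalizerIn S P hz) 1 (one_mem _) fun x => by
        have h1 := Subgroup.mem_centralizer_iff.1 hz.2 x x.2
        rw [← h1]
        simp
    have hPmem : ∀ x ∈ P, f x ∈ P := fun x hx => by rw [hfa x hx]; exact fn_mem a hx
    have hCmem : ∀ z ∈ centralizerIn S P, f z ∈ centralizerIn S P := by
      intro z hz
      refine ⟨hf.mem (hCN hz), Subgroup.mem_centralizer_iff.2 fun y hy => ?_⟩
      obtain ⟨x, hx, rfl⟩ := (hf.res hPN).surj hPmem hy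
      rw [← hf.mul (hPN hx) (hCN hz), ← hf.mul (hCN hz) (hPN hx),
        Subgroup.mem_centralizer_iff.1 hz.2 x hx]
    have hCN' : centralizerIn S P ≤ N' := fun y hy => by
      have hfC : Finite (centralizerIn S P) := H802.finite_of_le inf_le_left
      obtain ⟨z, hz, rfl⟩ := (hf.res hCN).surj hCmem hy
      exact (hN' _).2 ⟨z, hCN hz, rfl⟩
    have hPN' : P ≤ N' := fun y hy => by
      obtain ⟨x, hx, rfl⟩ := (hf.res hPN).surj hPmem hy
      exact (hN' _).2 ⟨x, hPN hx, rfl⟩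
    refine ⟨N', g, hg, hPN', fun y hy => ?_, ?_, fun y hy => ?_⟩
    · obtain ⟨x, hx, rfl⟩ := (hN' y).1 hy
      exact himg N f a hf hPN hN hfa x hx
    · rintro h hh _ ⟨c, hc, rfl⟩ hhc
      obtain ⟨n, hn, hnc⟩ := H757.exists_cj_of_mem (hB hc)
      have hnn : n ∈ normalizerIn S P := ⟨hn, hnc.mem_normalizer⟩
      have hnN := hNB n hnn c hc hnc
      have h1 : H757.Cj (f n) (a * c * a⁻¹) := cj_image hf hPN hfa hnN hnc
      have h2 : h⁻¹ * f n ∈ centralizerIn S P := by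
        refine ⟨mul_mem (Subgroup.inv_mem _ hh.1) (hf.mem hnN),
          Subgroup.mem_centralizer_iff.2 fun y hy => ?_⟩
        have h3 := h1 ⟨y, hy⟩
        have h4 : (((a * c * a⁻¹) ⟨y, hy⟩ : P) : Ω) = h * y * h⁻¹ := hhc ⟨y, hy⟩
        rw [h4] at h3
        have h5 : h * y * h⁻¹ = f n * y * (f n)⁻¹ := h3
        calc y * (h⁻¹ * f n) = h⁻¹ * (h * y * h⁻¹) * f n := by group
          _ = h⁻¹ * (f n * y * (f n)⁻¹) * f n := by rw [h5]
          _ = h⁻¹ * f n * y := by group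
      have h3 : h = f n * (h⁻¹ * f n)⁻¹ := by group
      rw [h3]
      exact mul_mem ((hN' _).2 ⟨n, hnN, rfl⟩) (Subgroup.inv_mem _ (hCN' h2))
    · obtain ⟨x, hx, rfl⟩ := (hf.res hPN).surj hPmem hy
      rw [hl x (hPN hx), hfa x hx, fn_inv_fn a hx]

theorem receptive_top (hD : ∀ P f, Mp D P f ↔ DP p F E P f) (hS : IsPGroup p S)
    (hE : E.IsNormalIn F p) (hL : Lk F T P Q ψ) (hcen : H756.TC F T (P ⊓ T))
    (hsyl : H802.SylIn p (autInducedBy S P) (D.autGroup P))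
    (htop : ∀ Q, D.IsConj P Q → Arr D Q P) : D.IsReceptive P := by
  have hPS := hL.le
  refine isReceptive_of_iso hPS fun Q' φ hφ N hQN hN => ?_
  have hQ'S := hφ.le_left
  have hNn : N ≤ normalizerIn S Q' := fun g hg => ⟨(hN g hg).1, (hN g hg).2.1⟩
  have hQ'n := H802.le_normalizerIn hQ'S
  obtain ⟨ω, W, hω, hωQ⟩ := htop Q' (H802.isConj_symm hφ.isConj)
  obtain ⟨ωi, hωi, hωiω, hωωi⟩ := hωQ.exists_inv
  obtain ⟨a, ha, hae⟩ := (hωi.trans hφ).exists_aut
  have haf : ∀ x ∈ P, fn a x = φ (ωi x) := fun x hx => by rw [fn_apply a hx, hae ⟨x, hx⟩]; rfl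
  obtain ⟨V, hV, -⟩ := hω.restrict hNn
  have hVS := hV.le_right
  have hcj : cj a (autInducedBy V P) ≤ autInducedBy S P := by
    rintro _ ⟨c, hc, rfl⟩
    obtain ⟨v, hv, hvc⟩ := H757.exists_cj_of_mem hc
    obtain ⟨g, hg, rfl⟩ := hV.surj hv
    obtain ⟨-, hgn, h, hh, hhe⟩ := hN g hg
    refine H757.Cj.mem (g := h) (fun y => ?_) hh
    obtain ⟨x, rfl⟩ := a.surjective y
    show (((a * c * a⁻¹) (a x) : P) : Ω) = _
    have h1 : (a * c * a⁻¹) (a x) = a (c x) := by simp [MulAut.mul_apply]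
    obtain ⟨z, hz, hzx⟩ := hωQ.surj x.2
    have h2 : ((c x : P) : Ω) = ω (g * z * g⁻¹) := by
      rw [hvc x, ← hzx, hω.map_conj (hNn hg) (hQ'n hz)]
    have hz' : g * z * g⁻¹ ∈ Q' := (Subgroup.mem_normalizer_iff.1 hgn z).1 hz
    have h3 : ((a (c x) : P) : Ω) = φ (g * z * g⁻¹) := by
      rw [hae (c x)]
      show φ (ωi ((c x : P) : Ω)) = _
      rw [h2, hωiω _ hz']
    have h4 : ((a x : P) : Ω) = φ z := by
      rw [hae x]
      show φ (ωi (x : Ω)) = _
      rw [← hzx, hωiω z hz]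
    rw [h1, h3, h4, hhe z hz]
  have hBS : autInducedBy V P ≤ autInducedBy S P := fun c hc => by
    obtain ⟨v, hv, hvc⟩ := H757.exists_cj_of_mem hc
    exact hvc.mem (hVS hv)
  obtain ⟨N₁, f₁, hf₁, hPN₁, -, hNB, hf₁e⟩ := me_all hD hS hE hL hcen hsyl _ a hBS ha hcj
  have hVN₁ : V ≤ N₁ := by
    intro v hv
    obtain ⟨g, hg, rfl⟩ := hV.surj hv
    have h1 : ω g ∈ normalizerIn S P :=
      hω.le_normalizerIn hωQ hQ'n inf_le_right (hω.mem (hNn hg))
    obtain ⟨c, hc⟩ := H757.exists_cj h1.2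
    exact hNB _ h1 c (hc.mem hv) hc
  obtain ⟨N₁', hN₁', -, -⟩ := hf₁.exists_image hVN₁
  refine ⟨N₁', f₁ ∘ ω, hV.trans (iso_of_mp hf₁ hVN₁ hN₁'), fun x hx => ?_⟩
  show f₁ (ω x) = φ x
  rw [hf₁e _ (hωQ.mem hx), haf _ (hωQ.mem hx), hωiω x hx]

end Cfsg.Agent.H758
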