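import Cfsg.Agent.H758.PExt
import Cfsg.Agent.H758.PGrp
import Cfsg.Agent.H750.SatCritB

/-!
# The group generated by the generators on `P`, and its Sylow subgroups (helper758)
-/

set_option autoImplicit false

namespace Cfsg.Agent.H758

open Cfsg Cfsg.FusionSystem Cfsg.Agent.H752

variable {Ω : Type*} [Group Ω] {S T : Subgroup Ω} {p : ℕ} {F : FusionSystem S}
  {E : FusionSystem T}

/-- An automorphism as a function on the ambient group. -/
noncomputable abbrev fn {P : Subgroup Ω} (α : MulAut P) : Ω → Ω := ex fun x => ((α x : P) : Ω)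

theorem fn_apply {P : Subgroup Ω} (α : MulAut P) {x : Ω} (hx : x ∈ P) :
    fn α x = (α ⟨x, hx⟩ : P) := ex_apply _ hx

theorem fn_mem {P : Subgroup Ω} (α : MulAut P) {x : Ω} (hx : x ∈ P) : fn α x ∈ P := by
  rw [fn_apply α hx]
  exact (α _).2

theorem fn_mul {P : Subgroup Ω} (α β : MulAut P) {x : Ω} (hx : x ∈ P) :
    fn (α * β) x = fn α (fn β x) := by
  rw [fn_apply _ hx, fn_apply _ hx, fn_apply _ (β ⟨x, hx⟩).2]
  rfl

theorem fn_inv_fn {P : Subgroup Ω} (α : MulAut P) {x : Ω} (hx : x ∈ P) :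
    fn α⁻¹ (fn α x) = x := by
  rw [← fn_mul _ _ hx, inv_mul_cancel, fn_apply _ hx]
  rfl

theorem fn_fn_inv {P : Subgroup Ω} (α : MulAut P) {x : Ω} (hx : x ∈ P) :
    fn α (fn α⁻¹ x) = x := by
  rw [← fn_mul _ _ hx, mul_inv_cancel, fn_apply _ hx]
  rfl

theorem iso_of_mp {P Q W : Subgroup Ω} {f : Ω → Ω} (hf : Mp F W f) (hP : P ≤ W)
    (hQ : ∀ y, y ∈ Q ↔ ∃ x ∈ P, f x = y) : H750.Iso F P Q f := by
  obtain ⟨φ, hφ, h1⟩ := hf.res hP
  refine ⟨φ, hφ, ?_, h1⟩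
  ext y
  rw [hQ]
  constructor
  · rintro ⟨x, rfl⟩
    exact ⟨x, x.2, (h1 x x.2).symm⟩
  · rintro ⟨x, hx, rfl⟩
    exact ⟨⟨x, hx⟩, h1 x hx⟩

theorem mp_of_iso {P Q : Subgroup Ω} {f : Ω → Ω} (hf : H750.Iso F P Q f) : Mp F P f := by
  obtain ⟨φ, hφ, -, h1⟩ := hf
  exact ⟨φ, hφ, h1⟩

/-- The group generated by the generators on `P`. -/
def Az (p : ℕ) (F : FusionSystem S) (E : FusionSystem T) (P : Subgroup Ω) : Subgroup (MulAut P) :=
  Subgroup.closure {α | GD p F E P (fn α)}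

theorem az_le {P : Subgroup Ω} (hPS : P ≤ S) : Az p F E P ≤ F.autGroup P :=
  (Subgroup.closure_le _).2 fun α hα => (mp_iff_autGroup hPS α).2 (GD.mp hα)

/-- The group of all automorphisms trivial modulo `T` with restriction in `E`. -/
theorem exists_kz (hT : F.StronglyClosed T) {P : Subgroup Ω} (hPS : P ≤ S) :
    ∃ K : Subgroup (MulAut P), ∀ κ, κ ∈ K ↔ κ ∈ F.autGroup P ∧ H757.Tr T κ ∧
      Mp E (P ⊓ T) (fn κ) := by
  have hQmem : ∀ κ ∈ F.autGroup P, ∀ x ∈ P ⊓ T, fn κ x ∈ P ⊓ T := fun κ hκ x hx => by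
    refine ⟨fn_mem κ hx.1, ?_⟩
    rw [fn_apply κ hx.1]
    exact aut_mem_T hT hPS hκ ⟨x, hx.1⟩ hx.2
  refine ⟨{ carrier := {κ | κ ∈ F.autGroup P ∧ H757.Tr T κ ∧ Mp E (P ⊓ T) (fn κ)}
            one_mem' := ⟨one_mem _, H757.Tr.one, (mp_id E inf_le_right).congr fun x hx => by
              rw [fn_apply 1 hx.1]; rfl⟩
            mul_mem' := ?_
            inv_mem' := ?_ }, fun κ => Iff.rfl⟩
  · rintro a b ⟨ha, ha1, ha'⟩ ⟨hb, hb1, hb'⟩
    exact ⟨mul_mem ha hb, ha1.mul hb1, (hb'.comp ha' (hQmem b hb)).congr fun x hx =>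
      fn_mul a b hx.1⟩
  · rintro a ⟨ha, ha1, ha'⟩
    exact ⟨Subgroup.inv_mem _ ha, ha1.inv, ha'.symm fun y hy =>
      ⟨fn a⁻¹ y, hQmem a⁻¹ (Subgroup.inv_mem _ ha) y hy, fn_fn_inv a hy.1, rfl⟩⟩

theorem az_props (hT : F.StronglyClosed T) {P : Subgroup Ω} (hPS : P ≤ S) {α : MulAut P}
    (hα : α ∈ Az p F E P) : H757.Tr T α ∧ Mp E (P ⊓ T) (fn α) := by
  obtain ⟨K, hK⟩ := exists_kz (E := E) hT hPS
  have h1 : Az p F E P ≤ K := (Subgroup.closure_le _).2 fun κ hκ => (hK κ).2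
    ⟨(mp_iff_autGroup hPS κ).2 (GD.mp hκ), fun x => by
      have := GD.tr hκ x x.2
      rwa [fn_apply κ x.2] at this, GD.e hκ⟩
  exact ((hK α).1 (h1 hα)).2

theorem gd_of_mem_az (hT : F.StronglyClosed T) {P : Subgroup Ω} (hPS : P ≤ S) {α : MulAut P}
    (hα : α ∈ Az p F E P) (hc : (orderOf α).Coprime p) (hcen : H756.TC F T (P ⊓ T)) :
    GD p F E P (fn α) := by
  obtain ⟨h1, h2⟩ := az_props hT hPS hα
  exact ⟨(mp_iff_autGroup hPS α).1 (az_le hPS hα), pp_of_aut (fun x hx => fn_apply α hx) hc,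
    fun x hx => by rw [fn_apply α hx]; exact h1 ⟨x, hx⟩, h2, hcen⟩

/-- Transport by a map of `F`. -/
theorem az_congr [Finite S] (hT : F.StronglyClosed T) (hI : StrongInvC E F) {P Q W : Subgroup Ω}
    {ψ : Ω → Ω} (hψ : Mp F W ψ) (hPW : P ≤ W) (hQ : ∀ y, y ∈ Q ↔ ∃ x ∈ P, ψ x = y) {e : P ≃* Q}
    (he : ∀ x : P, ((e x : Q) : Ω) = ψ x) {α : MulAut P} (hα : α ∈ Az p F E P) :
    MulAut.congr e α ∈ Az p F E Q := by
  have h1 : Az p F E P ≤ (Az p F E Q).comap (MulAut.congr e).toMonoidHom := by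
    refine (Subgroup.closure_le _).2 fun κ hκ => Subgroup.subset_closure ?_
    obtain ⟨κ', hκ', h2⟩ := GD.transport hT hI hψ hPW hQ hκ
    refine hκ'.congr fun y hy => ?_
    obtain ⟨x, hx⟩ := e.surjective ⟨y, hy⟩
    rw [fn_apply _ hy, ← hx]
    show (((MulAut.congr e κ) (e x) : Q) : Ω) = κ' y
    have h3 : (MulAut.congr e κ) (e x) = e (κ x) := by simp [MulAut.congr]
    have h4 : y = ψ x := by rw [← he x, hx]
    rw [h3, he, h4, h2 x x.2, fn_apply κ x.2]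
  exact h1 hα

theorem az_normal [Finite S] (hT : F.StronglyClosed T) (hI : StrongInvC E F) {P : Subgroup Ω}
    (hPS : P ≤ S) {a k : MulAut P} (ha : a ∈ F.autGroup P) (hk : k ∈ Az p F E P) :
    a * k * a⁻¹ ∈ Az p F E P := by
  have hm := (mp_iff_autGroup hPS a).1 ha
  have h1 := az_congr (Q := P) hT hI hm le_rfl (fun y => ⟨fun hy => ⟨fn a⁻¹ y, fn_mem _ hy,
    fn_fn_inv a hy⟩, fun ⟨x, hx, h⟩ => h ▸ fn_mem a hx⟩) (e := a) (fun x => (fn_apply a x.2).symm) hk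
  have h2 : MulAut.congr a k = a * k * a⁻¹ := by
    ext x
    simp [MulAut.congr]
  rwa [h2] at h1

/-- `P` and all `g ∈ N_S(P)` inducing an element of `B`. -/
def Nb (S P : Subgroup Ω) (B : Subgroup (MulAut P)) : Subgroup Ω where
  carrier := {g | g ∈ normalizerIn S P ∧ ∃ c ∈ B ⊔ autInducedBy P P, H757.Cj g c}
  one_mem' := ⟨one_mem _, 1, one_mem _, H757.Cj.one⟩
  mul_mem' := by
    rintro a b ⟨ha, c, hc, hac⟩ ⟨hb, d, hd, hbd⟩
    exact ⟨mul_mem ha hb, c * d, mul_mem hc hd, hac.mul hbd⟩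
  inv_mem' := by
    rintro a ⟨ha, c, hc, hac⟩
    exact ⟨Subgroup.inv_mem _ ha, c⁻¹, Subgroup.inv_mem _ hc, hac.inv⟩

theorem mem_nb {P : Subgroup Ω} {B : Subgroup (MulAut P)} {g : Ω} :
    g ∈ Nb S P B ↔ g ∈ normalizerIn S P ∧ ∃ c ∈ B ⊔ autInducedBy P P, H757.Cj g c := Iff.rfl

theorem nb_le {P : Subgroup Ω} {B : Subgroup (MulAut P)} : Nb S P B ≤ normalizerIn S P :=
  fun _ h => h.1

theorem le_nb {P : Subgroup Ω} (hPS : P ≤ S) {B : Subgroup (MulAut P)} : P ≤ Nb S P B := by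
  intro g hg
  obtain ⟨c, hc⟩ := H757.exists_cj (P := P) (Subgroup.le_normalizer hg)
  exact ⟨⟨hPS hg, Subgroup.le_normalizer hg⟩, c, (le_sup_right : _ ≤ B ⊔ autInducedBy P P)
    (hc.mem hg), hc⟩

theorem centralizer_le_nb {P : Subgroup Ω} {B : Subgroup (MulAut P)} :
    centralizerIn S P ≤ Nb S P B := by
  intro g hg
  refine ⟨H802.centralizerIn_le_normalizerIn S P hg, 1, one_mem _, fun x => ?_⟩
  have h1 := Subgroup.mem_centralizer_iff.1 hg.2 x x.2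
  rw [← h1]
  simp

/-- The conjugate of an inner automorphism. -/
theorem inn_conj {P : Subgroup Ω} (a : MulAut P) {c : MulAut P} (hc : c ∈ autInducedBy P P) :
    a * c * a⁻¹ ∈ autInducedBy P P := by
  obtain ⟨n, hn, hcn⟩ := H757.exists_cj_of_mem hc
  exact (H757.Cj.conj_of_ex (N := P) le_rfl (γ := a) (α := a) (fun _ _ _ => rfl)
    (n := ⟨n, hn⟩) hcn).mem (a ⟨n, hn⟩).2

/-- If `a` normalizes `B ≤ Aut_S(P)` then `a` satisfies the hypothesis of the extension theorem for `Nb S P B`. -/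
theorem nb_hyp {P : Subgroup Ω} (hPS : P ≤ S) {B : Subgroup (MulAut P)}
    (hB : B ≤ autInducedBy S P) {a : MulAut P} (ha : ∀ b ∈ B, a * b * a⁻¹ ∈ B) :
    ∀ n ∈ Nb S P B, ∃ n' ∈ Nb S P B, ∀ x ∈ P, fn a (n * x * n⁻¹) = n' * fn a x * n'⁻¹ := by
  rintro n ⟨hn, c, hc, hnc⟩
  have h1 : B ⊔ autInducedBy P P ≤ (B ⊔ autInducedBy P P).comap (MulAut.conj a).toMonoidHom := by
    refine sup_le (fun b hb => ?_) fun b hb => ?_
    · exact (le_sup_left : B ≤ _) (ha b hb)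
    · exact (le_sup_right : _ ≤ B ⊔ autInducedBy P P) (inn_conj a hb)
  have h2 : a * c * a⁻¹ ∈ B ⊔ autInducedBy P P := h1 hc
  have h3 : B ⊔ autInducedBy P P ≤ autInducedBy S P := by
    refine sup_le hB fun b hb => ?_
    obtain ⟨g, hg, h⟩ := H757.exists_cj_of_mem hb
    exact h.mem (hPS hg)
  obtain ⟨n', hn', hn'c⟩ := H757.exists_cj_of_mem (h3 h2)
  refine ⟨n', ⟨⟨hn', hn'c.mem_normalizer⟩, _, h2, hn'c⟩, fun x hx => ?_⟩
  have h4 : n * x * n⁻¹ ∈ P := (Subgroup.mem_normalizer_iff.1 hn.2 x).1 hx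
  rw [fn_apply a h4, fn_apply a hx]
  have h5 := hn'c (a ⟨x, hx⟩)
  have h6 : (a * c * a⁻¹) (a ⟨x, hx⟩) = a (c ⟨x, hx⟩) := by simp [MulAut.mul_apply]
  have h7 : c ⟨x, hx⟩ = ⟨n * x * n⁻¹, h4⟩ := Subtype.ext (hnc ⟨x, hx⟩)
  rw [h6, h7] at h5
  exact h5

/-- **Sylow subgroups of `Az` at a nice subgroup are induced by `T`.** -/
theorem sylIn_az_nice [Finite S] [Fact p.Prime] (hS : IsPGroup p S) (hE : E.IsNormalIn F p)
    {Q : Subgroup Ω} (hQ : F.IsFullyNormalized Q) (hU : F.IsFullyNormalized (Q ⊓ T))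
    (hc : H756.TC F T (Q ⊓ T)) :
    H802.SylIn p (autInducedBy T Q ⊓ Az p F E Q) (Az p F E Q) := by
  have hF := hE.1.2.1
  have hT : F.StronglyClosed T := hE.1.2.2.2.1
  have hTS := hT.1
  have hI : StrongInvC E F :=
    (isInvariantIn_iff_strongInvC hS hF hE.1.2.2.1 hT).1 hE.1.2.2
  have hQS := hQ.1
  have hfQ : Finite Q := H802.finite_of_le hQS
  have hfM := finite_mulAut Q
  have hs := (H750.sylIn_of_isFullyAutomized (H802.isFullyAutomized_of_isFullyNormalized hS hF hQ)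
    ).inf_normal (M := Az p F E Q) (az_le hQS) (fun a ha k hk => az_normal hT hI hQS ha hk)
  have hle : autInducedBy S Q ⊓ Az p F E Q ≤ autInducedBy T Q := by
    refine sylow_le_of_hyper hs ?_ ?_
    · refine (Subgroup.closure_le _).2 fun κ hκ => Subgroup.subset_closure
        ⟨Subgroup.subset_closure hκ, ?_⟩
      exact (GD.pp hκ).orderOf_coprime fun x hx => fn_apply κ hx
    · intro B hB a ha hac haB q hq
      have hg := gd_of_mem_az hT hQS ha hac hc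
      have hBS : B ≤ autInducedBy S Q := hB.trans inf_le_left
      obtain ⟨a', ha', hae⟩ := hg.ext hS hE hQ hU (le_nb hQS) centralizer_le_nb nb_le
        (nb_hyp hQS hBS haB)
      obtain ⟨g, hg, hgq⟩ := H757.exists_cj_of_mem (hBS hq)
      have hgN : g ∈ Nb S Q B := ⟨⟨hg, hgq.mem_normalizer⟩, q, (le_sup_left : B ≤ _) hq, hgq⟩
      have h1 : g⁻¹ * a' g ∈ T := ha'.tr g hgN
      refine H757.Cj.mem (g := g⁻¹ * a' g) (fun x => ?_) h1
      obtain ⟨y, rfl⟩ := a.surjective x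
      have h2 : (q⁻¹ * (a * q * a⁻¹)) (a y) = q⁻¹ (a (q y)) := by simp [MulAut.mul_apply]
      have h3 : ((q⁻¹ (a (q y)) : Q) : Ω) = g⁻¹ * (a (q y) : Q) * g⁻¹⁻¹ := hgq.inv (a (q y))
      rw [h2, h3]
      have h4 : ((a (q y) : Q) : Ω) = a' g * (a y : Q) * (a' g)⁻¹ := by
        have h5 : ((a (q y) : Q) : Ω) = a' (q y : Q) := by
          rw [hae _ (q y).2, fn_apply a (q y).2]
        have h6 : ((a y : Q) : Ω) = a' y := by rw [hae _ y.2, fn_apply a y.2]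
        rw [h5, h6, hgq y, mp_conj_eq ha'.mp hgN (le_nb hQS y.2)]
      rw [h4]
      group
  have h1 : autInducedBy S Q ⊓ Az p F E Q = autInducedBy T Q ⊓ Az p F E Q := by
    refine le_antisymm (le_inf hle inf_le_right) (inf_le_inf_right _ fun c hc => ?_)
    obtain ⟨g, hg, h⟩ := H757.exists_cj_of_mem hc
    exact h.mem (hTS hg)
  rwa [h1] at hs

theorem sylIn_map {G G' : Type*} [Group G] [Group G'] (e : G ≃* G') {R K : Subgroup G}
    (h : H802.SylIn p R K) : H802.SylIn p (R.map e.toMonoidHom) (K.map e.toMonoidHom) := by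
  have hc : ∀ L : Subgroup G, Nat.card (L.map e.toMonoidHom) = Nat.card L := fun L =>
    Nat.card_congr (L.equivMapOfInjective _ e.injective).symm.toEquiv
  exact ⟨Subgroup.map_mono h.le, by rw [hc, hc]; exact h.2⟩

end Cfsg.Agent.H758
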