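import Cfsg.Agent.H758.TransSys
import Cfsg.Agent.H758.LemB
import Cfsg.Agent.S5113

/-!
# The family of product systems `E R` (helper758)

`E` a normal subsystem of `F` over `T`; for `T ≤ R ≤ S` let `D R` be the unique saturated subsystem of `F` over `R` in
which `E` has `p`-power index (S5143).
-/

set_option autoImplicit false

namespace Cfsg.Agent.H758

open Cfsg Cfsg.FusionSystem Cfsg.Agent.H752

variable {Ω : Type*} [Group Ω] {S T : Subgroup Ω} {p : ℕ}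

/-! ### Isomorphisms with inverse -/

/-- `f : P → Q` is an isomorphism of the system with inverse `g`. -/
structure IP (F : FusionSystem S) (P Q : Subgroup Ω) (f g : Ω → Ω) : Prop where
  mp : Mp F P f
  mp' : Mp F Q g
  l : ∀ x ∈ P, f x ∈ Q ∧ g (f x) = x
  r : ∀ y ∈ Q, g y ∈ P ∧ f (g y) = y

theorem IP.symm {F : FusionSystem S} {P Q : Subgroup Ω} {f g : Ω → Ω} (h : IP F P Q f g) :
    IP F Q P g f := ⟨h.mp', h.mp, h.r, h.l⟩

theorem exists_ip {F : FusionSystem S} {P : Subgroup Ω} {f : Ω → Ω} (hf : Mp F P f) :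
    ∃ Q g, IP F P Q f g := by
  obtain ⟨Q, hQ, hQS, -⟩ := hf.exists_image le_rfl
  obtain ⟨g, hg, h1, h2⟩ := hf.exists_symm le_rfl hQ
  exact ⟨Q, g, hf, hg, fun x hx => ⟨(hQ _).2 ⟨x, hx, rfl⟩, h1 x hx⟩, h2⟩

theorem IP.res {F : FusionSystem S} {P Q : Subgroup Ω} {f g : Ω → Ω} (h : IP F P Q f g)
    {R : Subgroup Ω} (hR : R ≤ P) :
    ∃ R', R' ≤ Q ∧ IP F R R' f g ∧ ∀ y, y ∈ R' ↔ ∃ x ∈ R, f x = y := by
  obtain ⟨R', hR', hR'S, -⟩ := h.mp.exists_image hR
  have hle : R' ≤ Q := fun y hy => by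
    obtain ⟨x, hx, rfl⟩ := (hR' y).1 hy
    exact (h.l x (hR hx)).1
  refine ⟨R', hle, ⟨h.mp.res hR, h.mp'.res hle, fun x hx => ⟨(hR' _).2 ⟨x, hx, rfl⟩,
    (h.l x (hR hx)).2⟩, fun y hy => ⟨?_, (h.r y (hle hy)).2⟩⟩, hR'⟩
  obtain ⟨x, hx, rfl⟩ := (hR' y).1 hy
  rw [(h.l x (hR hx)).2]
  exact hx

theorem IP.mem_iff {F : FusionSystem S} {P Q : Subgroup Ω} {f g : Ω → Ω} (h : IP F P Q f g)
    {y : Ω} : y ∈ Q ↔ ∃ x ∈ P, f x = y :=
  ⟨fun hy => ⟨g y, (h.r y hy).1, (h.r y hy).2⟩, fun ⟨x, hx, e⟩ => e ▸ (h.l x hx).1⟩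

/-! ### `p`-power index in terms of functions -/

theorem mem_pResidual_of_coprime' {P : Subgroup Ω} {D : FusionSystem S} {α : MulAut P}
    (hα : α ∈ D.autGroup P) (hc : (orderOf α).Coprime p) :
    α ∈ (pResidual p (D.autGroup P)).map (D.autGroup P).subtype :=
  ⟨⟨α, hα⟩, mem_residual hα hc, rfl⟩

theorem pPower_iff [Fact p.Prime] {R : Subgroup Ω} [Finite R] {E : FusionSystem T}
    {D : FusionSystem R} (hTR : T ≤ R) : E.HasPPowerIndexIn D p ↔ E.IsSubsystemOf D ∧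
      (∀ (P : Subgroup Ω) (f : Ω → Ω), Mp D P f → PP p P f → ∀ x ∈ P, x⁻¹ * f x ∈ T) ∧
      ∀ (P : Subgroup Ω) (f : Ω → Ω), P ≤ T → Mp D P f → PP p P f → Mp E P f := by
  constructor
  · rintro ⟨h1, h2, h3⟩
    refine ⟨h1, fun P f hf hpp x hx => ?_, fun P f hP hf hpp => ?_⟩
    · have hfP : Finite P := H802.finite_of_le hf.le
      obtain ⟨α, hα, hαf⟩ := hf.exists_aut hpp.1
      have h4 := h2 (H747.hyperfocal_mem_of_coprime hf.le hα (hpp.orderOf_coprime hαf) ⟨x, hx⟩)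
      rw [hαf x hx]
      exact h4
    · have hfP : Finite P := H802.finite_of_le hf.le
      obtain ⟨α, hα, hαf⟩ := hf.exists_aut hpp.1
      exact mp_of_autGroup hP (h3 P hP (mem_pResidual_of_coprime' hα (hpp.orderOf_coprime hαf))) hαf
  · rintro ⟨h1, h2, h3⟩
    refine ⟨h1, H747.hyperfocal_le fun P hP α hα hc x => ?_, fun P hP => ?_⟩
    · have hfP : Finite P := H802.finite_of_le hP
      have hval : ∀ (x : Ω) (hx : x ∈ P), ex (fun x => ((α x : P) : Ω)) x = (α ⟨x, hx⟩ : P) :=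
        fun x hx => ex_apply _ hx
      have h4 := h2 P _ ((mp_iff_autGroup hP α).1 hα) (pp_of_aut hval hc) x x.2
      rwa [ex_coe] at h4
    · rw [Subgroup.map_le_iff_le_comap]
      refine (Subgroup.closure_le _).2 ?_
      rintro ⟨α, hα⟩ hc
      have hPR : P ≤ R := hP.trans hTR
      have hfP : Finite P := H802.finite_of_le hPR
      have hc' : (orderOf α).Coprime p := by
        have h5 : (orderOf (⟨α, hα⟩ : D.autGroup P)).Coprime p := hc
        rwa [Subgroup.orderOf_mk] at h5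
      have hval : ∀ (x : Ω) (hx : x ∈ P), ex (fun x => ((α x : P) : Ω)) x = (α ⟨x, hx⟩ : P) :=
        fun x hx => ex_apply _ hx
      have h4 := h3 P _ hP ((mp_iff_autGroup hPR α).1 hα) (pp_of_aut hval hc')
      exact (mp_iff_autGroup hP α).2 h4

/-- The family of product systems. -/
structure ESys (p : ℕ) (F : FusionSystem S) (E : FusionSystem T)
    (D : ∀ R : Subgroup Ω, FusionSystem R) : Prop where
  sat : ∀ R, T ≤ R → R ≤ S → (D R).IsSaturated p
  le : ∀ R, T ≤ R → R ≤ S → (D R).IsSubsystemOf F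
  idx : ∀ R, T ≤ R → R ≤ S → E.HasPPowerIndexIn (D R) p
  uniq : ∀ R, T ≤ R → R ≤ S → ∀ D' : FusionSystem R, D'.IsSaturated p → D'.IsSubsystemOf F →
    E.HasPPowerIndexIn D' p → D' = D R

/-- The product hypothesis, for one normal subsystem. -/
def ProdHyp (p : ℕ) (F : FusionSystem S) (E : FusionSystem T) : Prop :=
  ∀ R, T ≤ R → R ≤ S → ∃ D : FusionSystem R, D.IsSaturated p ∧ D.IsSubsystemOf F ∧
    E.HasPPowerIndexIn D p ∧ ∀ D' : FusionSystem R, D'.IsSaturated p → D'.IsSubsystemOf F →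
    E.HasPPowerIndexIn D' p → D' = D

theorem exists_eSys {F : FusionSystem S} {E : FusionSystem T} (h : ProdHyp p F E) :
    ∃ D : ∀ R : Subgroup Ω, FusionSystem R, ESys p F E D := by
  classical
  let D : ∀ R : Subgroup Ω, FusionSystem R := fun R =>
    if hR : T ≤ R ∧ R ≤ S then (h R hR.1 hR.2).choose else innerFusionSystem R
  have hD : ∀ R (h1 : T ≤ R) (h2 : R ≤ S), D R = (h R h1 h2).choose := fun R h1 h2 =>
    dif_pos ⟨h1, h2⟩
  refine ⟨D, fun R h1 h2 => ?_, fun R h1 h2 => ?_, fun R h1 h2 => ?_, fun R h1 h2 => ?_⟩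
  · rw [hD R h1 h2]; exact (h R h1 h2).choose_spec.1
  · rw [hD R h1 h2]; exact (h R h1 h2).choose_spec.2.1
  · rw [hD R h1 h2]; exact (h R h1 h2).choose_spec.2.2.1
  · rw [hD R h1 h2]; exact (h R h1 h2).choose_spec.2.2.2

section Family

variable {F : FusionSystem S} {E : FusionSystem T} {D : ∀ R : Subgroup Ω, FusionSystem R}

/-- A saturated system is contained in any system containing its conjugations and `p'`-automorphisms. -/
theorem isSubsystemOf_of_pp [Fact p.Prime] {T R : Subgroup Ω} [Finite T] (hT : IsPGroup p T)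
    {E : FusionSystem T} (hE : E.IsSaturated p) {D : FusionSystem R} (hTR : T ≤ R)
    (h : ∀ (P : Subgroup Ω) (f : Ω → Ω), Mp E P f → PP p P f → Mp D P f) : E.IsSubsystemOf D := by
  have key : ∀ (P : Subgroup Ω) (f : Ω → Ω), Mp E P f → Mp D P f := by
    refine mp_generation E hT hE (fun P f => Mp D P f) ?_ ?_ ?_ ?_ ?_ ?_
    · intro P f g _ h he
      exact h.congr he
    · intro P R f _ h hR
      exact h.res hR
    · intro P Q' f g _ _ h1 h2 h3
      exact h1.comp h2 h3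
    · intro P R f g _ h1 _ h2
      exact h1.symm h2
    · intro P hP s hs
      exact mp_conj D (hP.trans hTR) (hTR hs)
    · intro P hPa _ α hα hc f hf
      have hfP : Finite P := H802.finite_of_le hPa.1
      exact h P f (mp_of_autGroup hPa.1 hα hf) (pp_of_aut hf hc)
  intro P φ hφ
  exact (key P (ex φ) (mp_ex hφ)).mem_hom fun x hx => (ex_apply _ hx).symm

theorem ESys.mono [Fact p.Prime] [Finite S] (hS : IsPGroup p S) (h : ESys p F E D)
    (hEs : E.IsSaturated p) {R' R : Subgroup Ω} (hTR' : T ≤ R') (hR : R' ≤ R) (hRS : R ≤ S) :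
    (D R').HasPPowerIndexIn (D R) p := by
  have hTR : T ≤ R := hTR'.trans hR
  have hfR : Finite R := H802.finite_of_le hRS
  have hfR' : Finite R' := H802.finite_of_le (hR.trans hRS)
  have hfT : Finite T := H802.finite_of_le (hTR.trans hRS)
  have hRp : IsPGroup p R := isPGroup_mono hS hRS
  have hTp : IsPGroup p T := isPGroup_mono hS (hTR.trans hRS)
  obtain ⟨hE1, hE2, hE3⟩ := (pPower_iff hTR).1 (h.idx R hTR hRS)
  obtain ⟨E', ⟨hE's, hE'i⟩, -⟩ := S5113.result p hRp (D R) (h.sat R hTR hRS) R' hR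
    ((h.idx R hTR hRS).2.1.trans hTR')
  obtain ⟨h1, h2, h3⟩ := (pPower_iff hR).1 hE'i
  have hEE' : E.IsSubsystemOf E' := isSubsystemOf_of_pp hTp hEs hTR' fun P f hf hpp =>
    h3 P f (hf.le.trans hTR') (mp_mono hE1 hf) hpp
  have : E' = D R' := by
    refine h.uniq R' hTR' (hR.trans hRS) E' hE's (fun P φ hφ => h.le R hTR hRS P (h1 P hφ)) ?_
    refine (pPower_iff hTR').2 ⟨hEE', fun P f hf hpp => hE2 P f (mp_mono h1 hf) hpp,
      fun P f hP hf hpp => hE3 P f hP (mp_mono h1 hf) hpp⟩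
  rw [← this]
  exact hE'i

/-- The family is compatible with the maps of `F` defined above `T`. -/
theorem ESys.transport [Fact p.Prime] [Finite S] (h : ESys p F E D)
    (hE : E.IsInvariantIn F) {R R' : Subgroup Ω} {ν ν' : Ω → Ω} (hν : IP F R R' ν ν')
    (hTR : T ≤ R) {P P' : Subgroup Ω} {f f' : Ω → Ω} (hf : Mp (D R) P f)
    (hP : ∀ y ∈ P', ∃ x ∈ P, ν x = y ∧ f' y = ν (f x)) : Mp (D R') P' f' := by
  have hRS : R ≤ S := hν.mp.le
  have hR'S : R' ≤ S := hν.mp'.le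
  have hfR : Finite R := H802.finite_of_le hRS
  have hfR' : Finite R' := H802.finite_of_le hR'S
  have hsc := hE.2.1
  have hTS := hsc.1
  have hfT : Finite T := H802.finite_of_le hTS
  have hI : InvC E F := (isInvariantIn_iff.1 hE).2.2.1
  have hνT : Mp F T ν := hν.mp.res hTR
  have hTm : ∀ t ∈ T, ν t ∈ T := fun t ht => mp_mem_of_stronglyClosed hsc hνT ht ht
  have hTR' : T ≤ R' := by
    intro t ht
    obtain ⟨x, hx, rfl⟩ := hνT.surj hTm ht
    exact (hν.l x (hTR hx)).1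
  have hν'T : Mp F T ν' := hν.mp'.res hTR'
  have hTm' : ∀ t ∈ T, ν' t ∈ T := fun t ht => mp_mem_of_stronglyClosed hsc hν'T ht ht
  obtain ⟨D', hD's, h1, h2⟩ := exists_transport_sys (p := p) (D R) hν.mp hν.l hν.r
  -- pull back of a map of `D'`
  have hpull : ∀ (P' : Subgroup Ω) (f' : Ω → Ω), Mp D' P' f' → ∃ P : Subgroup Ω, P ≤ R ∧
      (∀ x, x ∈ P ↔ ∃ y ∈ P', ν' y = x) ∧ Mp (D R) P (fun x => ν' (f' (ν x))) := by
    intro P' f' hf'
    have hP'R : P' ≤ R' := hf'.le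
    obtain ⟨P, hPR, -, hPi⟩ := hν.symm.res hP'R
    refine ⟨P, hPR, hPi, h2 P P' _ f' hf' fun x hx => ?_⟩
    obtain ⟨y, hy, rfl⟩ := (hPi x).1 hx
    have hy' := hν.r y (hP'R hy)
    refine ⟨hy'.1, by rw [hy'.2]; exact hy, ?_, ?_⟩
    · rw [hy'.2]; exact (hν.r _ (hf'.mem hy)).1
    · rw [hy'.2]; exact (hν.r _ (hf'.mem hy)).2
  have hD'F : D'.IsSubsystemOf F := by
    intro P' φ hφ
    obtain ⟨P, hPR, hPi, hPf⟩ := hpull P' (ex φ) (mp_ex hφ)
    have hP'R : P' ≤ R' := (D'.le_of_mem hφ).1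
    have h3 : Mp F P (fun x => ν' (ex φ (ν x))) := mp_mono (h.le R hTR hRS) hPf
    have h4 : Mp F P' (fun y => ν (ν' (ex φ (ν (ν' y))))) :=
      ((hν.mp'.res hP'R).comp h3 (fun y hy => (hPi _).2 ⟨y, hy, rfl⟩)).comp hν.mp
        (fun y hy => by
          show ν' (ex φ (ν (ν' y))) ∈ R
          rw [(hν.r y (hP'R hy)).2, ex_apply _ hy]
          exact (hν.r _ ((D'.le_of_mem hφ).2 _)).1)
    refine h4.mem_hom fun y hy => ?_
    rw [(hν.r y (hP'R hy)).2, ex_apply _ hy, (hν.r _ ((D'.le_of_mem hφ).2 _)).2]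
  obtain ⟨hE1, hE2, hE3⟩ := (pPower_iff hTR).1 (h.idx R hTR hRS)
  -- `p'`-automorphisms
  have hppull : ∀ (P' : Subgroup Ω) (f' : Ω → Ω), P' ≤ R' → PP p P' f' → ∀ P : Subgroup Ω,
      (∀ x, x ∈ P ↔ ∃ y ∈ P', ν' y = x) → PP p P (fun x => ν' (f' (ν x))) := by
    rintro P' f' hP'R ⟨hm, n, hn, hid⟩ P hPi
    have h3 : ∀ y ∈ P', ν' (f' (ν (ν' y))) = ν' (f' y) := fun y hy => by
      rw [(hν.r y (hP'R hy)).2]
    refine ⟨fun x hx => ?_, n, hn, fun x hx => ?_⟩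
    · obtain ⟨y, hy, rfl⟩ := (hPi x).1 hx
      show ν' (f' (ν (ν' y))) ∈ P
      rw [h3 y hy]
      exact (hPi _).2 ⟨_, hm y hy, rfl⟩
    · obtain ⟨y, hy, rfl⟩ := (hPi x).1 hx
      have key : ∀ k : ℕ, ∀ y ∈ P', (fun x => ν' (f' (ν x)))^[k] (ν' y) = ν' (f'^[k] y) := by
        intro k
        induction k with
        | zero => intro y _; rfl
        | succ k ih =>
          intro y hy
          rw [Function.iterate_succ_apply, Function.iterate_succ_apply]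
          show (fun x => ν' (f' (ν x)))^[k] (ν' (f' (ν (ν' y)))) = _
          rw [h3 y hy]
          exact ih _ (hm y hy)
      rw [key n y hy, hid y hy]
  have hD'E : E.HasPPowerIndexIn D' p := by
    refine (pPower_iff hTR').2 ⟨?_, ?_, ?_⟩
    · intro P' φ hφ
      have hP'T : P' ≤ T := (E.le_of_mem hφ).1
      obtain ⟨P, hPR, -, hPi⟩ := hν.symm.res (hP'T.trans hTR')
      have h3 : Mp E P (fun x => ν' (ex φ (ν x))) := by
        refine hI P' P (ex φ) ν' _ (mp_ex hφ) hν'T fun x hx => ?_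
        obtain ⟨y, hy, rfl⟩ := (hPi x).1 hx
        exact ⟨y, hy, rfl, by rw [(hν.r y (hTR' (hP'T hy))).2]⟩
      refine (h1 P P' _ (ex φ) (mp_mono hE1 h3) fun y hy => ?_).mem_hom
        fun y hy => (ex_apply _ hy).symm
      refine ⟨ν' y, (hPi _).2 ⟨y, hy, rfl⟩, (hν.r y (hTR' (hP'T hy))).2, ?_⟩
      rw [(hν.r y (hTR' (hP'T hy))).2, (hν.r _ (hTR' ((mp_ex hφ).mem hy))).2]
    · intro P' f' hf' hpp y hy
      have hP'R : P' ≤ R' := hf'.le
      obtain ⟨P, hPR, hPi, hPf⟩ := hpull P' f' hf'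
      have h3 := hE2 P _ hPf (hppull P' f' hP'R hpp P hPi) (ν' y) ((hPi _).2 ⟨y, hy, rfl⟩)
      have h4 : ν (ν' (f' y)) = f' y := (hν.r _ (hP'R (hpp.1 y hy))).2
      have h5 : ν' y ∈ R := (hν.r y (hP'R hy)).1
      have h6 : ν' (f' y) ∈ R := (hν.r _ (hP'R (hpp.1 y hy))).1
      have h7 : (ν' y)⁻¹ * ν' (f' y) ∈ T := by
        have h8 := h3
        simp only [(hν.r y (hP'R hy)).2] at h8
        exact h8
      have h9 := hTm _ h7
      rw [hν.mp.mul (Subgroup.inv_mem _ h5) h6, hν.mp.inv h5, (hν.r y (hP'R hy)).2, h4] at h9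
      exact h9
    · intro P' f' hP'T hf' hpp
      have hP'R : P' ≤ R' := hf'.le
      obtain ⟨P, hPR, hPi, hPf⟩ := hpull P' f' hf'
      have hPT : P ≤ T := fun x hx => by
        obtain ⟨y, hy, rfl⟩ := (hPi x).1 hx
        exact hTm' y (hP'T hy)
      have h3 := hE3 P _ hPT hPf (hppull P' f' hP'R hpp P hPi)
      refine hI P P' _ ν f' h3 hνT fun y hy => ?_
      have h4 : ν (ν' (f' y)) = f' y := (hν.r _ (hP'R (hpp.1 y hy))).2
      exact ⟨ν' y, (hPi _).2 ⟨y, hy, rfl⟩, (hν.r y (hP'R hy)).2, by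
        rw [(hν.r y (hP'R hy)).2, h4]⟩
  have hDD : D' = D R' := h.uniq R' hTR' hR'S D' (hD's.2 (h.sat R hTR hRS)) hD'F hD'E
  rw [← hDD]
  exact h1 P P' f f' hf hP

end Family

end Cfsg.Agent.H758
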