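import Cfsg.Agent.H758.BC
import Cfsg.Agent.H757.AutExt

/-!
# The family `D` is compatible with all maps of `F` (helper758)

`Tp T D f Y Y'`: conjugation by `f : Y → Y'` carries maps of `D (Y T)` between subgroups of `Y` to maps of `D (Y' T)`.
-/

set_option autoImplicit false

namespace Cfsg.Agent.H758

open Cfsg Cfsg.FusionSystem Cfsg.Agent.H752

variable {Ω : Type*} [Group Ω] {S T : Subgroup Ω} {p : ℕ}

/-- Transport of maps of the family. -/
def Tp (T : Subgroup Ω) (D : ∀ R : Subgroup Ω, FusionSystem R) (f : Ω → Ω)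
    (Y Y' : Subgroup Ω) : Prop :=
  ∀ (Q Q' : Subgroup Ω) (β β' : Ω → Ω), Mp (D (Y ⊔ T)) Q β → Q ≤ Y → (∀ x ∈ Q, β x ∈ Y) →
    (∀ y ∈ Q', ∃ x ∈ Q, f x = y ∧ β' y = f (β x)) → Mp (D (Y' ⊔ T)) Q' β'

/-- The transport property for all restrictions of `f` and for their inverses. -/
def MM (F : FusionSystem S) (T : Subgroup Ω) (D : ∀ R : Subgroup Ω, FusionSystem R)
    (P : Subgroup Ω) (f : Ω → Ω) : Prop :=
  ∀ (Y Y' : Subgroup Ω) (g : Ω → Ω), Y ≤ P → IP F Y Y' f g → Tp T D f Y Y' ∧ Tp T D g Y' Y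

variable {F : FusionSystem S} {E : FusionSystem T} {D : ∀ R : Subgroup Ω, FusionSystem R}

theorem Tp.congr {f f' : Ω → Ω} {Y Y' : Subgroup Ω} (h : Tp T D f Y Y')
    (he : ∀ x ∈ Y, f' x = f x) : Tp T D f' Y Y' := by
  intro Q Q' β β' hβ hQ hβY hβ'
  refine h Q Q' β β' hβ hQ hβY fun y hy => ?_
  obtain ⟨x, hx, h1, h2⟩ := hβ' y hy
  exact ⟨x, hx, by rw [← he x (hQ hx)]; exact h1, by rw [h2]; exact he _ (hβY x hx)⟩

theorem Tp.comp {f f' g : Ω → Ω} {Y Y' Y'' : Subgroup Ω} (hi : IP F Y Y' f f')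
    (h : Tp T D f Y Y') (h' : Tp T D g Y' Y'') : Tp T D (fun x => g (f x)) Y Y'' := by
  intro Q Q' β β' hβ hQ hβY hβ'
  obtain ⟨R, hR, -, -⟩ := hi.mp.exists_image hQ
  have hRY : R ≤ Y' := by
    intro y hy
    obtain ⟨x, hx, rfl⟩ := (hR y).1 hy
    exact (hi.l x (hQ hx)).1
  refine h' R Q' (fun z => f (β (f' z))) β' (h Q R β _ hβ hQ hβY fun y hy => ?_) hRY
    (fun z hz => ?_) fun y hy => ?_
  · obtain ⟨x, hx, rfl⟩ := (hR y).1 hy
    exact ⟨x, hx, rfl, by rw [(hi.l x (hQ hx)).2]⟩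
  · obtain ⟨x, hx, rfl⟩ := (hR z).1 hz
    show f (β (f' (f x))) ∈ Y'
    rw [(hi.l x (hQ hx)).2]
    exact (hi.l _ (hβY x hx)).1
  · obtain ⟨x, hx, h1, h2⟩ := hβ' y hy
    refine ⟨f x, (hR _).2 ⟨x, hx, rfl⟩, h1, ?_⟩
    rw [h2, (hi.l x (hQ hx)).2]

theorem MM.congr {P : Subgroup Ω} {f f' : Ω → Ω} (h : MM F T D P f) (he : ∀ x ∈ P, f' x = f x) :
    MM F T D P f' := by
  intro Y Y' g hY hi
  have hi' : IP F Y Y' f g := ⟨hi.mp.congr fun x hx => (he x (hY hx)).symm, hi.mp',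
    fun x hx => by rw [← he x (hY hx)]; exact hi.l x hx,
    fun y hy => ⟨(hi.r y hy).1, by rw [← he _ (hY (hi.r y hy).1)]; exact (hi.r y hy).2⟩⟩
  obtain ⟨h1, h2⟩ := h Y Y' g hY hi'
  exact ⟨h1.congr fun x hx => he x (hY hx), h2⟩

theorem MM.res {P R : Subgroup Ω} {f : Ω → Ω} (h : MM F T D P f) (hR : R ≤ P) : MM F T D R f :=
  fun Y Y' g hY hi => h Y Y' g (hY.trans hR) hi

theorem MM.comp {P Q : Subgroup Ω} {f g : Ω → Ω} (hf : MM F T D P f) (hg : MM F T D Q g)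
    (hfm : Mp F P f) (hgm : Mp F Q g) (hPQ : ∀ x ∈ P, f x ∈ Q) :
    MM F T D P (fun x => g (f x)) := by
  intro Y Y'' k hY hi
  obtain ⟨Y', f', hif⟩ := exists_ip (hfm.res hY)
  have hY'Q : Y' ≤ Q := by
    intro y hy
    obtain ⟨x, hx, rfl⟩ := hif.mem_iff.1 hy
    exact hPQ x (hY hx)
  obtain ⟨Z, g', hig⟩ := exists_ip (hgm.res hY'Q)
  have hZ : Z = Y'' := by
    ext y
    rw [hig.mem_iff, hi.mem_iff]
    constructor
    · rintro ⟨z, hz, rfl⟩
      obtain ⟨x, hx, rfl⟩ := hif.mem_iff.1 hz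
      exact ⟨x, hx, rfl⟩
    · rintro ⟨x, hx, rfl⟩
      exact ⟨f x, (hif.l x hx).1, rfl⟩
  subst hZ
  obtain ⟨h1, h2⟩ := hf Y Y' f' hY hif
  obtain ⟨h3, h4⟩ := hg Y' Z g' hY'Q hig
  refine ⟨Tp.comp hif h1 h3, (Tp.comp hig.symm h4 h2).congr fun y hy => ?_⟩
  obtain ⟨x, hx, rfl⟩ := hi.mem_iff.1 hy
  show k (g (f x)) = f' (g' (g (f x)))
  rw [(hig.l _ (hif.l x hx).1).2, (hif.l x hx).2]
  exact (hi.l x hx).2

theorem MM.symm {P R : Subgroup Ω} {f g : Ω → Ω} (hf : MM F T D P f) (hfm : Mp F P f)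
    (hinv : ∀ y ∈ R, ∃ x ∈ P, f x = y ∧ g y = x) : MM F T D R g := by
  intro Y Y' k hY hi
  have hY'P : Y' ≤ P := by
    intro z hz
    obtain ⟨y, hy, rfl⟩ := hi.mem_iff.1 hz
    obtain ⟨x, hx, -, h2⟩ := hinv y (hY hy)
    rw [h2]; exact hx
  have hfg : ∀ y ∈ Y, f (g y) = y := fun y hy => by
    obtain ⟨x, hx, h1, h2⟩ := hinv y (hY hy)
    rw [h2, h1]
  have hkf : ∀ z ∈ Y', k z = f z := fun z hz => by
    obtain ⟨y, hy, rfl⟩ := hi.mem_iff.1 hz
    rw [(hi.l y hy).2, hfg y hy]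
  have hi' : IP F Y' Y f g := ⟨hfm.res hY'P, hi.mp, fun z hz => ⟨by
      rw [← hkf z hz]; exact (hi.r z hz).1, by
      rw [← hkf z hz]; exact (hi.r z hz).2⟩, fun y hy => ⟨(hi.l y hy).1, hfg y hy⟩⟩
  obtain ⟨h1, h2⟩ := hf Y' Y g hY'P hi'
  exact ⟨h2, h1.congr hkf⟩

theorem mm_id {P : Subgroup Ω} : MM F T D P (fun x => x) := by
  intro Y Y' g _ hi
  have hYY : Y' = Y := by
    ext y
    exact ⟨fun hy => by have h1 := hi.r y hy; rw [← h1.2]; exact h1.1, fun hy => (hi.l y hy).1⟩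
  subst hYY
  have h1 : Tp T D (fun x => x) Y' Y' := by
    intro Q Q' β β' hβ hQ hβY hβ'
    refine (hβ.res (R := Q') fun y hy => ?_).congr fun y hy => ?_
    · obtain ⟨x, hx, h1, -⟩ := hβ' y hy
      exact h1 ▸ hx
    · obtain ⟨x, hx, h1, h2⟩ := hβ' y hy
      rw [h2, ← h1]
  exact ⟨h1, h1.congr fun x hx => (hi.r x hx).2⟩

/-- The case of a map of the family. -/
theorem tp_of_mp {f g : Ω → Ω} {Y Y' : Subgroup Ω} (hi : IP F Y Y' f g) (he : Y' ⊔ T = Y ⊔ T)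
    (hf : Mp (D (Y ⊔ T)) Y f) : Tp T D f Y Y' := by
  intro Q Q' β β' hβ hQ hβY hβ'
  rw [he]
  have h1 : Mp (D (Y ⊔ T)) Q' g := hf.symm fun y hy => by
    obtain ⟨x, hx, h1, -⟩ := hβ' y hy
    exact ⟨x, hQ hx, h1, by rw [← h1]; exact (hi.l x (hQ hx)).2⟩
  have h2 : ∀ y ∈ Q', g y ∈ Q := fun y hy => by
    obtain ⟨x, hx, h1, -⟩ := hβ' y hy
    rw [← h1, (hi.l x (hQ hx)).2]; exact hx
  refine ((h1.comp hβ h2).comp hf fun y hy => hβY _ (h2 y hy)).congr fun y hy => ?_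
  obtain ⟨x, hx, h1, h3⟩ := hβ' y hy
  show β' y = f (β (g y))
  rw [h3, ← h1, (hi.l x (hQ hx)).2]

/-- The case `T ≤ Q`. -/
theorem mm_of_le [Fact p.Prime] [Finite S] (h : ESys p F E D) (hE : E.IsInvariantIn F)
    {Q : Subgroup Ω} {f : Ω → Ω} (hf : Mp F Q f) (hTQ : T ≤ Q) : MM F T D Q f := by
  intro Y Y' g hY hi
  have hT := hE.2.1
  have hfT : Finite T := H802.finite_of_le hT.1
  obtain ⟨Q'', g', hi''⟩ := exists_ip hf
  obtain ⟨R', -, hiR, hR'⟩ := hi''.res (sup_le hY hTQ)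
  have hTm : ∀ t ∈ T, f t ∈ T := fun t ht => mp_mem_of_stronglyClosed hT hf (hTQ ht) ht
  have he : R' = Y' ⊔ T := by
    apply le_antisymm
    · intro y hy
      obtain ⟨x, hx, rfl⟩ := (hR' y).1 hy
      exact mp_sup_mem (hf.res (sup_le hY hTQ)) (fun x hx => (le_sup_left : Y' ≤ _) (hi.l x hx).1)
        (fun x hx => (le_sup_right : T ≤ Y' ⊔ T) (hTm x hx)) x hx
    · refine sup_le (fun y hy => ?_) (fun t ht => ?_)
      · obtain ⟨x, hx, rfl⟩ := hi.mem_iff.1 hy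
        exact (hR' _).2 ⟨x, (le_sup_left : Y ≤ _) hx, rfl⟩
      · obtain ⟨x, hx, rfl⟩ := (hf.res hTQ).surj hTm ht
        exact (hR' _).2 ⟨x, (le_sup_right : T ≤ Y ⊔ T) hx, rfl⟩
  subst he
  have hgg : ∀ y ∈ Y', g y = g' y := fun y hy => by
    obtain ⟨x, hx, rfl⟩ := hi.mem_iff.1 hy
    rw [(hi.l x hx).2, (hi''.l x (hY hx)).2]
  refine ⟨fun Q₂ Q' β β' hβ _ _ hβ' => h.transport hE hiR le_sup_right hβ hβ', Tp.congr
    (fun Q₂ Q' β β' hβ _ _ hβ' => h.transport hE hiR.symm le_sup_right hβ hβ') hgg⟩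

/-- A `p'`-map of `D S`, trivial modulo `T`. -/
theorem mm_of_pp [Fact p.Prime] [Finite S] (hS : IsPGroup p S) (h : ESys p F E D)
    (hEs : E.IsSaturated p) (hT : F.StronglyClosed T) {Q : Subgroup Ω} {κ : Ω → Ω}
    (hκF : Mp F Q κ) (hκ : Mp (D S) Q κ) (hpp : PP p Q κ) : MM F T D Q κ := by
  intro Y Y' g hY hi
  have hTS := hT.1
  have hTr : ∀ x ∈ Q, x⁻¹ * κ x ∈ T :=
    ((pPower_iff hTS).1 (h.idx S hTS le_rfl)).2.1 Q κ hκ hpp
  have hYTS : Y ⊔ T ≤ S := sup_le (hY.trans hκF.le) hTS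
  have he : Y' ⊔ T = Y ⊔ T := by
    apply le_antisymm
    · refine sup_le (fun y hy => ?_) le_sup_right
      obtain ⟨x, hx, rfl⟩ := hi.mem_iff.1 hy
      have h1 : κ x = x * (x⁻¹ * κ x) := by group
      rw [h1]
      exact mul_mem ((le_sup_left : Y ≤ _) hx) ((le_sup_right : T ≤ Y ⊔ T) (hTr x (hY hx)))
    · refine sup_le (fun x hx => ?_) le_sup_right
      have h1 : x = κ x * (x⁻¹ * κ x)⁻¹ := by group
      rw [h1]
      exact mul_mem ((le_sup_left : Y' ≤ _) (hi.l x hx).1)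
        (Subgroup.inv_mem _ ((le_sup_right : T ≤ Y' ⊔ T) (hTr x (hY hx))))
  have hm : ∀ x ∈ Q ⊓ (Y ⊔ T), κ x ∈ Q ⊓ (Y ⊔ T) := by
    intro x hx
    refine ⟨hpp.1 x hx.1, ?_⟩
    have h1 : κ x = x * (x⁻¹ * κ x) := by group
    rw [h1]
    exact mul_mem hx.2 ((le_sup_right : T ≤ Y ⊔ T) (hTr x hx.1))
  have h1 : Mp (D (Y ⊔ T)) (Q ⊓ (Y ⊔ T)) κ :=
    ((pPower_iff hYTS).1 (h.mono hS hEs le_sup_right hYTS le_rfl)).2.2 _ κ inf_le_right
      (hκ.res inf_le_left) (hpp.res inf_le_left hm)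
  have h2 : Mp (D (Y ⊔ T)) Y κ := h1.res (le_inf hY le_sup_left)
  have h3 : Mp (D (Y' ⊔ T)) Y' g := by
    rw [he]
    exact h2.symm fun y hy => by
      obtain ⟨x, hx, rfl⟩ := hi.mem_iff.1 hy
      exact ⟨x, hx, rfl, (hi.l x hx).2⟩
  exact ⟨tp_of_mp hi he h2, tp_of_mp hi.symm he.symm h3⟩

/-- A group is generated by its `p'`-elements and a Sylow `p`-subgroup. -/
theorem le_of_sylIn_of_coprime {G : Type*} [Group G] [Fact p.Prime] {K R L : Subgroup G} [Finite K]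
    (hR : H802.SylIn p R K) (hRL : R ≤ L) (hc : ∀ k ∈ K, (orderOf k).Coprime p → k ∈ L) :
    K ≤ L := by
  intro a ha
  obtain ⟨B, hB⟩ := hR.exists_sylow
  obtain ⟨r, hr, b, hb, hrb⟩ := exists_residual_mul B ⟨a, ha⟩
  have h1 : ∀ r : K, r ∈ pResidual p K → (r : G) ∈ L := by
    intro r hr
    refine Subgroup.closure_induction (p := fun (r : K) _ => (r : G) ∈ L) ?_ (one_mem _)
      (fun x y _ _ hx hy => mul_mem hx hy) (fun x _ hx => inv_mem hx) hr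
    intro γ hγ
    refine hc γ γ.2 ?_
    rw [Subgroup.orderOf_coe]
    exact hγ
  have h2 : a = (r : G) * b := congrArg Subtype.val hrb
  rw [h2]
  refine mul_mem (h1 r hr) (hRL ?_)
  rw [hB] at hb
  exact hb

/-- **The family is compatible with all maps of `F`.** -/
theorem siStar [Fact p.Prime] [Finite S] (hS : IsPGroup p S) (hF : F.IsSaturated p)
    (hE : E.IsInvariantIn F) (hEs : E.IsSaturated p) (h : ESys p F E D) :
    ∀ (P : Subgroup Ω) (f : Ω → Ω), Mp F P f → MM F T D P f := by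
  have hT := hE.2.1
  have hTS := hT.1
  have hfT : Finite T := H802.finite_of_le hTS
  have hI : StrongInvC E F := (isInvariantIn_iff_strongInvC hS hF hE.1 hT).1 hE
  refine mp_induction F hS hF (MM F T D) ?_ ?_ ?_ ?_ ?_
  · intro P f g _ h1 he
    exact h1.congr he
  · intro P R f _ h1 hR
    exact h1.res hR
  · intro P Q f g hf hg h1 h2 hm
    exact h1.comp h2 hf hg hm
  · intro P R f g hf h1 _ hinv
    exact h1.symm hf hinv
  · intro Q hQa hQr IH α hα f hf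
    have hQS : Q ≤ S := hQa.1
    have hfQ : Finite Q := H802.finite_of_le hQS
    have hfm : Mp F Q f := mp_of_autGroup hQS hα hf
    by_cases hTQ : T ≤ Q
    · exact mm_of_le h hE hfm hTQ
    have hQn := H802.isFullyNormalized_of_automized_receptive hS hQa hQr
    have hmp : ∀ β ∈ F.autGroup Q, Mp F Q (ex fun x => ((β x : Q) : Ω)) := fun β hβ =>
      (mp_iff_autGroup hQS β).1 hβ
    have hval : ∀ (β : MulAut Q) (x : Ω) (hx : x ∈ Q), ex (fun x => ((β x : Q) : Ω)) x =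
        (β ⟨x, hx⟩ : Q) := fun β x hx => ex_apply _ hx
    have hQmem : ∀ κ ∈ F.autGroup Q, ∀ x (hx : x ∈ Q), x ∈ T → ((κ ⟨x, hx⟩ : Q) : Ω) ∈ T :=
      fun κ hκ x hx hxT => aut_mem_T hT hQS hκ ⟨x, hx⟩ hxT
    -- the subgroup of good automorphisms
    let L : Subgroup (MulAut Q) :=
      { carrier := {β | β ∈ F.autGroup Q ∧ MM F T D Q (ex fun x => ((β x : Q) : Ω))}
        one_mem' := ⟨one_mem _, mm_id.congr fun x hx => by rw [hval 1 x hx]; rfl⟩
        mul_mem' := by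
          rintro a b ⟨ha, ha'⟩ ⟨hb, hb'⟩
          refine ⟨mul_mem ha hb, (hb'.comp ha' (hmp b hb) (hmp a ha) fun x hx => ?_).congr
            fun x hx => ?_⟩
          · rw [hval b x hx]
            exact (b _).2
          · rw [hval (a * b) x hx, hval b x hx, hval a _ (b ⟨x, hx⟩).2]
            rfl
        inv_mem' := by
          rintro a ⟨ha, ha'⟩
          refine ⟨Subgroup.inv_mem _ ha, ha'.symm (hmp a ha) fun y hy =>
            ⟨((a⁻¹ ⟨y, hy⟩ : Q) : Ω), (a⁻¹ _).2, ?_, ?_⟩⟩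
          · rw [hval a _ (a⁻¹ ⟨y, hy⟩).2]
            show ((a (a⁻¹ ⟨y, hy⟩) : Q) : Ω) = y
            rw [MulAut.apply_inv_self]
          · rw [hval a⁻¹ y hy] }
    -- automorphisms which extend to a larger subgroup are good
    have hext : ∀ β ∈ F.autGroup Q, ∀ (N : Subgroup Ω) (ψ : Ω → Ω), Mp F N ψ → Q < N →
        (∀ (x : Ω) (hx : x ∈ Q), ψ x = (β ⟨x, hx⟩ : Q)) → β ∈ L := by
      intro β hβ N ψ hψ hQN hψe
      have hfN : Finite N := H802.finite_of_le hψ.le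
      have h1 : Nat.card Q < Nat.card N := by
        refine lt_of_le_of_ne (Subgroup.card_le_of_le hQN.le) fun he => hQN.ne ?_
        exact Subgroup.eq_of_le_of_card_ge hQN.le he.ge
      exact ⟨hβ, ((IH N ψ hψ h1).res hQN.le).congr fun x hx => by rw [hval β x hx, hψe x hx]⟩
    -- extension when an element `t` outside `Q` is admissible
    have hext2 : ∀ β ∈ F.autGroup Q, ∀ t ∈ S, t ∉ Q → ∀ c : MulAut Q, H757.Cj t c →
        β * c * β⁻¹ ∈ autInducedBy S Q → β ∈ L := by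
      intro β hβ t htS htQ c hc hcβ
      obtain ⟨N, ψ, hψ, hQN, hψe, hN⟩ := H753.mp_extend hQr (hmp β hβ) (fun y =>
        ⟨fun hy => (hmp β hβ).surj (fun x hx => by rw [hval β x hx]; exact (β _).2) hy,
          fun ⟨x, hx, h⟩ => h ▸ (by rw [hval β x hx]; exact (β _).2)⟩)
      have htn := hc.mem_normalizer
      have htN : t ∈ N := by
        obtain ⟨g, hg, hgc⟩ := H757.exists_cj_of_mem hcβ
        refine hN t htS htn ⟨g, hg, fun x hx => ?_⟩
        have h11 : t * x * t⁻¹ ∈ Q := (Subgroup.mem_normalizer_iff.1 htn x).1 hx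
        have h9 := hgc (β ⟨x, hx⟩)
        have h10 : (β * c * β⁻¹) (β ⟨x, hx⟩) = β (c ⟨x, hx⟩) := by
          simp [MulAut.mul_apply]
        rw [h10] at h9
        rw [hval β _ h11, hval β x hx]
        have h12 : (⟨t * x * t⁻¹, h11⟩ : Q) = c ⟨x, hx⟩ := Subtype.ext (hc ⟨x, hx⟩).symm
        rw [h12, h9]
      refine hext β hβ N ψ hψ (lt_of_le_of_ne hQN fun he => htQ (he ▸ htN)) fun x hx => ?_
      rw [hψe x hx, hval β x hx]
    have hcjT : ∀ t ∈ T, ∀ c : MulAut Q, H757.Cj t c → c ∈ F.autGroup Q ∧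
        ∀ x : Q, (x : Ω)⁻¹ * (c x : Q) ∈ T := by
      intro t ht c hc
      refine ⟨hc.mem_autGroup hQS (hTS ht), fun x => ?_⟩
      rw [hc x]
      have h5 : (x : Ω)⁻¹ * (t * x * t⁻¹) = ((x : Ω)⁻¹ * t * (x : Ω)⁻¹⁻¹) * t⁻¹ := by group
      rw [h5]
      exact mul_mem (H759.StronglyClosed.conj_mem hT (Subgroup.inv_mem _ (hQS x.2)) ht)
        (Subgroup.inv_mem _ ht)
    suffices hαL : α ∈ L from hαL.2.congr fun x hx => by rw [hf x hx, hval α x hx]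
    by_cases hC : centralizerIn T (Q ⊓ T) ≤ Q
    swap
    · -- `C_T(Q ∩ T) ≰ Q`
      have hR : IsPGroup p ↥(Q ⊔ centralizerIn T (Q ⊓ T)) :=
        isPGroup_mono hS (sup_le hQS (inf_le_left.trans hTS))
      have hfR : Finite ↥(Q ⊔ centralizerIn T (Q ⊓ T)) :=
        H802.finite_of_le (sup_le hQS (inf_le_left.trans hTS))
      obtain ⟨u, hu, huQ, hun⟩ := H757.exists_normalizes_of_not_le hR
        (U := centralizerIn T (Q ⊓ T)) (V := Q) le_sup_right le_sup_left (by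
          have h1 : Q ⊔ centralizerIn T (Q ⊓ T) ≤
              Subgroup.normalizer (centralizerIn T (Q ⊓ T) : Set Ω) := by
            have hfC : Finite ↥(centralizerIn T (Q ⊓ T)) :=
              H802.finite_of_le (inf_le_left.trans hTS)
            refine sup_le (fun x hx => H757.mem_normalizer_of_conj_mem fun v hv => ⟨?_, ?_⟩)
              Subgroup.le_normalizer
            · exact H759.StronglyClosed.conj_mem hT (hQS hx) hv.1
            · refine Subgroup.mem_centralizer_iff.2 fun z hz => ?_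
              have hz' : x⁻¹ * z * x ∈ Q ⊓ T := by
                refine ⟨mul_mem (mul_mem (Subgroup.inv_mem _ hx) hz.1) hx, ?_⟩
                have h2 := H759.StronglyClosed.conj_mem hT (Subgroup.inv_mem _ (hQS hx)) hz.2
                simpa using h2
              have h3 := Subgroup.mem_centralizer_iff.1 hv.2 _ hz'
              calc z * (x * v * x⁻¹) = x * ((x⁻¹ * z * x) * v) * x⁻¹ := by group
                _ = x * (v * (x⁻¹ * z * x)) * x⁻¹ := by rw [h3]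
                _ = x * v * x⁻¹ * z := by group
          intro r hr u hu
          exact (Subgroup.mem_normalizer_iff.1 (h1 hr) u).1 hu) hC
      obtain ⟨c, hc⟩ := H757.exists_cj hun
      obtain ⟨hcF, hcT⟩ := hcjT u hu.1 c hc
      refine hext2 α hα u (hTS hu.1) huQ c hc (trG_le hS hT hQa (trG_normal hT hQS hα ?_))
      refine ⟨hcF, fun x hx => Subtype.ext ?_, hcT⟩
      rw [hc x]
      have h3 := Subgroup.mem_centralizer_iff.1 hu.2 _ (⟨x.2, hx⟩ : (x : Ω) ∈ Q ⊓ T)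
      rw [← h3]
      group
    -- the group `K`
    let K : Subgroup (MulAut Q) :=
      { carrier := {κ | κ ∈ F.autGroup Q ∧ (∀ x : Q, (x : Ω)⁻¹ * (κ x : Q) ∈ T) ∧
          Mp E (Q ⊓ T) (ex fun x => ((κ x : Q) : Ω))}
        one_mem' := ⟨one_mem _, fun x => by simp, (mp_id E inf_le_right).congr fun x hx => by
          rw [hval 1 x hx.1]; rfl⟩
        mul_mem' := by
          rintro a b ⟨ha, ha1, ha'⟩ ⟨hb, hb1, hb'⟩
          refine ⟨mul_mem ha hb, H757.Tr.mul ha1 hb1, (hb'.comp ha' fun x hx => ?_).congr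
            fun x hx => ?_⟩
          · rw [hval b x hx.1]
            exact ⟨(b _).2, hQmem b hb x hx.1 hx.2⟩
          · rw [hval (a * b) x hx.1, hval b x hx.1, hval a _ (b ⟨x, hx.1⟩).2]
            rfl
        inv_mem' := by
          rintro a ⟨ha, ha1, ha'⟩
          refine ⟨Subgroup.inv_mem _ ha, H757.Tr.inv ha1, ha'.symm fun y hy =>
            ⟨((a⁻¹ ⟨y, hy.1⟩ : Q) : Ω),
            ⟨(a⁻¹ _).2, hQmem a⁻¹ (Subgroup.inv_mem _ ha) y hy.1 hy.2⟩, ?_, ?_⟩⟩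
          · rw [hval a _ (a⁻¹ ⟨y, hy.1⟩).2]
            show ((a (a⁻¹ ⟨y, hy.1⟩) : Q) : Ω) = y
            rw [MulAut.apply_inv_self]
          · rw [hval a⁻¹ y hy.1] }
    have hKA : K ≤ F.autGroup Q := fun k hk => hk.1
    have hKn : ∀ a ∈ F.autGroup Q, ∀ k ∈ K, a * k * a⁻¹ ∈ K := by
      rintro a ha k ⟨hk, hk1, hk'⟩
      refine ⟨mul_mem (mul_mem ha hk) (Subgroup.inv_mem _ ha), H757.Tr.conj hT hQS ha hk1, ?_⟩
      refine hI (Q ⊓ T) (Q ⊓ T) (Q ⊓ T) _ _ _ le_rfl inf_le_right hk' (fun x hx => ?_)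
        ((hmp a ha).res inf_le_left) fun y hy => ⟨((a⁻¹ ⟨y, hy.1⟩ : Q) : Ω),
          ⟨(a⁻¹ _).2, hQmem a⁻¹ (Subgroup.inv_mem _ ha) y hy.1 hy.2⟩, ?_, ?_⟩
      · rw [hval k x hx.1]
        exact ⟨(k _).2, hQmem k hk x hx.1 hx.2⟩
      · rw [hval a _ (a⁻¹ ⟨y, hy.1⟩).2]
        show ((a (a⁻¹ ⟨y, hy.1⟩) : Q) : Ω) = y
        rw [MulAut.apply_inv_self]
      · rw [hval (a * k * a⁻¹) y hy.1, hval k _ (a⁻¹ ⟨y, hy.1⟩).2, hval a _ (k _).2]
        rfl
    have hfM := finite_mulAut Q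
    have hSyl : H802.SylIn p (autInducedBy S Q ⊓ K) K :=
      (H750.sylIn_of_isFullyAutomized hQa).inf_normal hKA hKn
    -- a subgroup larger than `Q`
    have hQlt : Q < S := lt_of_le_of_ne hQS fun he => hTQ (he ▸ hTS)
    have hKL : K ≤ L := by
      refine le_of_sylIn_of_coprime hSyl ?_ ?_
      · rintro c ⟨hc, hcK⟩
        obtain ⟨s, hs, hcs⟩ := H757.exists_cj_of_mem hc
        exact hext c hcK.1 S _ (mp_conj F le_rfl hs) hQlt fun x hx => (hcs ⟨x, hx⟩).symm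
      · rintro κ ⟨hκ, hκ1, hκE⟩ hκc
        have hpp : PP p Q (ex fun x => ((κ x : Q) : Ω)) := pp_of_aut (hval κ) hκc
        have hD := h.sat S hTS le_rfl
        obtain ⟨hE1, hE2, -⟩ := (pPower_iff hTS).1 (h.idx S hTS le_rfl)
        have hbc : Mp (D S) Q (ex fun x => ((κ x : Q) : Ω)) :=
          bc hS hF hT hI hD (h.le S hTS le_rfl) hE1 hE2 hQn hC (hmp κ hκ) hpp
            (fun x hx => by rw [hval κ x hx]; exact hκ1 ⟨x, hx⟩) hκE
        exact ⟨hκ, mm_of_pp hS h hEs hT (hmp κ hκ) hbc hpp⟩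
    obtain ⟨k, hk, hkα⟩ := H757.frattini_in hSyl (hKn α hα)
    have hkαF : k * α ∈ F.autGroup Q := mul_mem (hKA hk) hα
    -- an element of `N_T(Q)` outside `Q`
    have hkαL : k * α ∈ L := by
      have hlt := card_lt_card_sup hS hT hQS hTQ
      obtain ⟨t, ht, htQ⟩ : ∃ t ∈ T ⊓ Subgroup.normalizer (Q : Set Ω), t ∉ Q := by
        by_contra hcon
        push Not at hcon
        have h1 : Q ⊔ (T ⊓ Subgroup.normalizer (Q : Set Ω)) = Q := sup_eq_left.2 hcon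
        rw [h1] at hlt
        exact lt_irrefl _ hlt
      obtain ⟨c, hc⟩ := H757.exists_cj ht.2
      obtain ⟨hcF, hcT⟩ := hcjT t ht.1 c hc
      have hcK : c ∈ K := by
        refine ⟨hcF, hcT, (mp_conj E (P := Q ⊓ T) inf_le_right ht.1).congr fun x hx => ?_⟩
        rw [hval c x hx.1]
        exact hc ⟨x, hx.1⟩
      exact hext2 _ hkαF t (hTS ht.1) htQ c hc (hkα c ⟨hc.mem (hTS ht.1), hcK⟩).1
    have h1 : α = k⁻¹ * (k * α) := by group
    rw [h1]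
    exact mul_mem (Subgroup.inv_mem _ (hKL hk)) hkαL

end Cfsg.Agent.H758
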